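import Mathlib
import Cfsg.Agent.Lib.Helper82.ResField

/-!
# Rank of the reduction of an idempotent matrix with local entries (helper13, for S4607)

`brandt_rank`: an idempotent complex matrix whose entries lie in the local ring at `M`
has trace equal to the rank of its reduction modulo `M`.
-/

set_option autoImplicit false

namespace Cfsg.Agent.Lib.Helper13.BrandtRank

open Cfsg Polynomial

section Idem

variable {K : Type*} [Field K] {V : Type*} [AddCommGroup V] [Module K V]

/-- If `ψ * ψ = c • ψ` with `c ≠ 0` then `ψ ^ (k+1)` and `ψ` have the same kernel. -/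
theorem pow_apply_eq_zero (ψ : Module.End K V) (c : K) (hc : c ≠ 0) (hψ : ψ * ψ = c • ψ)
    (k : ℕ) (m : V) (h : (ψ ^ (k + 1)) m = 0) : ψ m = 0 := by
  induction k with
  | zero => simpa using h
  | succ k ih =>
    apply ih
    have h1 : ψ ^ (k + 1 + 1) = c • ψ ^ (k + 1) := by
      rw [pow_succ (n := k + 1), pow_succ (n := k), mul_assoc, hψ, mul_smul_comm]
    rw [h1, LinearMap.smul_apply] at h
    exact (smul_eq_zero.mp h).resolve_left hc

theorem maxGenEigenspace_one_of_idem (φ : Module.End K V) (hφ : φ * φ = φ) :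
    φ.maxGenEigenspace 1 = LinearMap.range φ := by
  have hψ : (φ - (1 : K) • (1 : Module.End K V)) * (φ - (1 : K) • (1 : Module.End K V))
      = (-1 : K) • (φ - (1 : K) • (1 : Module.End K V)) := by
    rw [one_smul, neg_one_smul, sub_mul, mul_sub, mul_sub, hφ]
    simp
  ext m
  rw [Module.End.mem_maxGenEigenspace, LinearMap.mem_range]
  constructor
  · rintro ⟨k, hk⟩
    rcases k with _ | k
    · refine ⟨0, ?_⟩
      rw [pow_zero] at hk
      simpa using hk.symm
    · have h0 := pow_apply_eq_zero _ (-1 : K) (by simp) hψ k m hk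
      refine ⟨m, ?_⟩
      rw [one_smul, LinearMap.sub_apply, Module.End.one_apply, sub_eq_zero] at h0
      exact h0
  · rintro ⟨x, rfl⟩
    refine ⟨1, ?_⟩
    rw [pow_one, one_smul, LinearMap.sub_apply, Module.End.one_apply, ← Module.End.mul_apply, hφ,
      sub_self]

theorem maxGenEigenspace_zero_of_idem (φ : Module.End K V) (hφ : φ * φ = φ) :
    φ.maxGenEigenspace 0 = LinearMap.ker φ := by
  ext m
  rw [Module.End.mem_maxGenEigenspace, LinearMap.mem_ker, zero_smul, sub_zero]
  constructor
  · rintro ⟨k, hk⟩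
    rcases k with _ | k
    · rw [pow_zero] at hk
      have : m = 0 := by simpa using hk
      rw [this, map_zero]
    · exact pow_apply_eq_zero φ 1 one_ne_zero (by rw [one_smul]; exact hφ) k m hk
  · intro h
    exact ⟨1, by rw [pow_one]; exact h⟩

end Idem

section Mat

variable {K : Type*} [Field K] {ι : Type*} [Fintype ι] [DecidableEq ι]

theorem toLin'_idem (P : Matrix ι ι K) (hP : P * P = P) :
    (Matrix.toLin' P : Module.End K (ι → K)) * Matrix.toLin' P = Matrix.toLin' P := by
  rw [Module.End.mul_eq_comp, ← Matrix.toLin'_mul, hP]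

theorem rank_eq_rootMultiplicity_one (P : Matrix ι ι K) (hP : P * P = P) :
    P.rank = P.charpoly.rootMultiplicity 1 := by
  rw [← Matrix.charpoly_toLin', ← LinearMap.finrank_maxGenEigenspace_eq,
    maxGenEigenspace_one_of_idem _ (toLin'_idem P hP), Matrix.rank, Matrix.toLin'_apply']

theorem corank_eq_rootMultiplicity_zero (P : Matrix ι ι K) (hP : P * P = P) :
    Fintype.card ι - P.rank = P.charpoly.rootMultiplicity 0 := by
  rw [← Matrix.charpoly_toLin', ← LinearMap.finrank_maxGenEigenspace_eq,
    maxGenEigenspace_zero_of_idem _ (toLin'_idem P hP)]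
  have h := LinearMap.finrank_range_add_finrank_ker (Matrix.toLin' P)
  rw [Module.finrank_fintype_fun_eq_card] at h
  have h2 : P.rank = Module.finrank K (LinearMap.range (Matrix.toLin' P)) := by
    rw [Matrix.rank, Matrix.toLin'_apply']
  omega

theorem charpoly_of_idem (P : Matrix ι ι K) (hP : P * P = P) :
    P.charpoly = X ^ (Fintype.card ι - P.rank) * (X - C 1) ^ P.rank := by
  have h0 : (X - C (0 : K)) ^ (Fintype.card ι - P.rank) ∣ P.charpoly := by
    rw [corank_eq_rootMultiplicity_zero P hP]
    exact pow_rootMultiplicity_dvd _ _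
  have h1 : (X - C (1 : K)) ^ P.rank ∣ P.charpoly := by
    conv_lhs => rw [rank_eq_rootMultiplicity_one P hP]
    exact pow_rootMultiplicity_dvd _ _
  rw [C_0, sub_zero] at h0
  have hcop : IsCoprime ((X : K[X]) ^ (Fintype.card ι - P.rank)) ((X - C 1) ^ P.rank) := by
    apply IsCoprime.pow
    refine ⟨1, -1, ?_⟩
    rw [C_1]
    ring
  have hdvd := hcop.mul_dvd h0 h1
  have hmon : ((X : K[X]) ^ (Fintype.card ι - P.rank) * (X - C 1) ^ P.rank).Monic :=
    (monic_X_pow _).mul ((monic_X_sub_C 1).pow _)
  have hrk : P.rank ≤ Fintype.card ι := Matrix.rank_le_card_width P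
  refine eq_of_monic_of_dvd_of_natDegree_le hmon (Matrix.charpoly_monic P) hdvd ?_
  rw [Matrix.charpoly_natDegree_eq_dim,
    Monic.natDegree_mul (monic_X_pow _) ((monic_X_sub_C (1 : K)).pow _), natDegree_X_pow,
    Monic.natDegree_pow (monic_X_sub_C (1 : K)), natDegree_X_sub_C]
  omega

end Mat

section Main

variable {p : ℕ} {M : Ideal AlgInt}

theorem brandt_rank (hM : IsPModular p M) {F : Type*} [Field F]
    (res : ℂ → F)
    (hadd : ∀ x y, MemLocalRing M x → MemLocalRing M y → res (x + y) = res x + res y)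
    (hmul : ∀ x y, MemLocalRing M x → MemLocalRing M y → res (x * y) = res x * res y)
    (hone : res 1 = 1)
    {ι : Type*} [Fintype ι] [DecidableEq ι] (Q : Matrix ι ι ℂ) (hQ : Q * Q = Q)
    (hloc : ∀ i j, MemLocalRing M (Q i j)) :
    ∃ r : ℕ, Matrix.trace Q = (r : ℂ) ∧ (Q.map res).rank = r := by
  classical
  set R := Cfsg.Agent.Lib.Helper82.locSubring hM with hR
  have hres0 : res 0 = 0 := by
    have h := hadd 0 0 R.zero_mem R.zero_mem
    rw [add_zero] at h
    exact left_eq_add.mp h
  let f : R →+* F :=
    { toFun := fun x => res (x : ℂ)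
      map_one' := hone
      map_mul' := fun x y => hmul _ _ x.2 y.2
      map_zero' := hres0
      map_add' := fun x y => hadd _ _ x.2 y.2 }
  let QR : Matrix ι ι R := fun i j => ⟨Q i j, hloc i j⟩
  have hQR : QR.map R.subtype = Q := by
    ext i j
    rfl
  have hQf : QR.map f = Q.map res := by
    ext i j
    rfl
  have hQRi : QR * QR = QR := by
    apply Matrix.map_injective (Subring.subtype_injective R)
    show (QR * QR).map R.subtype = QR.map R.subtype
    rw [Matrix.map_mul, hQR, hQ]
  have hFi : Q.map res * Q.map res = Q.map res := by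
    rw [← hQf, ← Matrix.map_mul, hQRi]
  refine ⟨Q.rank, ?_, ?_⟩
  · -- the trace of an idempotent in characteristic zero is its rank
    have hproj : LinearMap.IsProj (LinearMap.range (Matrix.toLin' Q)) (Matrix.toLin' Q) := by
      refine ⟨fun x => LinearMap.mem_range_self _ x, ?_⟩
      rintro _ ⟨y, rfl⟩
      rw [← Module.End.mul_apply, toLin'_idem Q hQ]
    have h := hproj.trace
    rw [Matrix.trace_toLin'_eq] at h
    rw [h, Matrix.rank, Matrix.toLin'_apply']
  · -- the characteristic polynomial descends to the local ring and reduces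
    have hcp : QR.charpoly
        = X ^ (Fintype.card ι - Q.rank) * (X - C 1) ^ Q.rank := by
      apply Polynomial.map_injective R.subtype (Subring.subtype_injective R)
      rw [← Matrix.charpoly_map, hQR, charpoly_of_idem Q hQ]
      simp
    have hcpF : (Q.map res).charpoly
        = X ^ (Fintype.card ι - Q.rank) * (X - C 1) ^ Q.rank := by
      rw [← hQf, Matrix.charpoly_map, hcp]
      simp
    rw [rank_eq_rootMultiplicity_one _ hFi, hcpF]
    have hne : ((X : F[X]) ^ (Fintype.card ι - Q.rank) * (X - C 1) ^ Q.rank) ≠ 0 :=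
      mul_ne_zero (pow_ne_zero _ X_ne_zero) (pow_ne_zero _ (X_sub_C_ne_zero 1))
    rw [rootMultiplicity_mul hne, rootMultiplicity_X_sub_C_pow,
      rootMultiplicity_eq_zero (by simp [IsRoot]), zero_add]

end Main

end Cfsg.Agent.Lib.Helper13.BrandtRank
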