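import Mathlib
import Cfsg.Agent.Lib.Helper81.AQDefs

/-! Project AQ (S3911, helper81), piece IND (proved by helper13): induction over the primes. -/

set_option autoImplicit false

namespace Cfsg.Agent.Lib.Helper81.AQ

variable {G : Type*} [Group G]

-- piece IND
theorem ind_primes [Finite G] (M L : Subgroup G) (hML : M ≤ L)
    (hstep : ∀ L' : Subgroup G, L' ≤ L → L' ⊔ M = L → ∀ p : ℕ, p.Prime → p ∣ M.relIndex L →
      StepC M L L' p)
    (S : Finset ℕ) (hS : ∀ p ∈ S, p.Prime ∧ p ∣ M.relIndex L) :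
    ∃ Ls : Subgroup G, Ls ≤ L ∧ Ls ⊔ M = L ∧ ∀ p ∈ S, Good L Ls p := by
  classical
  induction S using Finset.induction_on with
  | empty =>
    exact ⟨L, le_rfl, sup_eq_left.mpr hML, fun p hp => absurd hp (Finset.notMem_empty p)⟩
  | insert p S hpS ih =>
    obtain ⟨Ls, hLs, hsup, hgood⟩ := ih (fun q hq => hS q (Finset.mem_insert_of_mem hq))
    obtain ⟨hpp, hpd⟩ := hS p (Finset.mem_insert_self p S)
    obtain ⟨Z, hZLs, hZcard, hZcomm, hZsup⟩ := hstep Ls hLs hsup p hpp hpd
    have hZc : Z ≤ Subgroup.centralizer (Z : Set G) := by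
      intro z hz
      rw [Subgroup.mem_centralizer_iff]
      intro h hh
      exact hZcomm h hh z hz
    refine ⟨Ls ⊓ Subgroup.centralizer (Z : Set G), inf_le_left.trans hLs, hZsup, ?_⟩
    intro q hq
    rcases Finset.mem_insert.mp hq with rfl | hqS
    · refine ⟨Z, le_inf hZLs hZc, ?_, hZcard⟩
      intro z hz l hl
      exact Subgroup.mem_centralizer_iff.mp hl.2 z hz
    · obtain ⟨Zq, hZqLs, hZqc, hZqcard⟩ := hgood q hqS
      refine ⟨Zq, le_inf hZqLs ?_, ?_, hZqcard⟩
      · intro zq hzq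
        rw [Subgroup.mem_centralizer_iff]
        intro h hh
        exact (hZqc zq hzq h (hZLs hh)).symm
      · intro z hz l hl
        exact hZqc z hz l hl.1

end Cfsg.Agent.Lib.Helper81.AQ
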