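import Mathlib

/-!
# Foundations for S4330 (helper13)

Definitions and small API for the module-theoretic core of S4330: a group
`K ≤ AAut V = (AddMonoid.End V)ˣ` acting irreducibly on a finite abelian group `V`, a normal
`p`-subgroup `P` of `K`, and an element `a ∈ P`; we want a vector fixed by no `K`-conjugate
of `a`.  (`AddAut V` carries an additive group structure in this Mathlib, so we use the unit
group of the endomorphism ring, which acts on `V` by `•`.)
-/

set_option autoImplicit false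

namespace Cfsg.Agent.Lib.Helper13.Fum

open scoped Pointwise

universe u

/-- The (multiplicative) group of additive automorphisms of `V`; it acts on `V` by `•`. -/
abbrev AAut (V : Type*) [AddCommGroup V] := (AddMonoid.End V)ˣ

instance finite_end (V : Type*) [AddCommGroup V] [Finite V] : Finite (AddMonoid.End V) :=
  Finite.of_injective (fun f => (f : V → V)) DFunLike.coe_injective

instance finite_aaut (V : Type*) [AddCommGroup V] [Finite V] : Finite (AAut V) :=
  Finite.of_injective (fun g => (g : AddMonoid.End V)) Units.val_injective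

section Defs

variable {V : Type*} [AddCommGroup V]

/-- Fixed points of a subgroup of `AAut V`. -/
def fixA (H : Subgroup (AAut V)) : AddSubgroup V where
  carrier := {v | ∀ h ∈ H, h • v = v}
  add_mem' := by
    intro a b ha hb h hh
    rw [smul_add, ha h hh, hb h hh]
  zero_mem' := fun h _ => smul_zero h
  neg_mem' := by
    intro a ha h hh
    rw [smul_neg, ha h hh]

theorem mem_fixA {H : Subgroup (AAut V)} {v : V} : v ∈ fixA H ↔ ∀ h ∈ H, h • v = v := Iff.rfl

/-- `K` acts irreducibly on `V`: the only `K`-invariant additive subgroups are `⊥` and `⊤`. -/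
def Irr (K : Subgroup (AAut V)) : Prop :=
  ∀ W : AddSubgroup V, (∀ k ∈ K, ∀ w ∈ W, k • w ∈ W) → W = ⊥ ∨ W = ⊤

/-- Some vector is fixed by no `K`-conjugate of `a`. -/
def NoConjFix (K : Subgroup (AAut V)) (a : AAut V) : Prop :=
  ∃ v : V, ∀ k ∈ K, (k * a * k⁻¹) • v ≠ v

/-- A system of imprimitivity for `K` on `V`: a finite set `Λ` of additive subgroups, permuted
transitively by `K`, with `V = ⨁_{W ∈ Λ} W` (expressed through the projections `π W`). -/
structure Sys (K : Subgroup (AAut V)) where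
  /-- the blocks -/
  Λ : Finset (AddSubgroup V)
  /-- the projections onto the blocks -/
  π : AddSubgroup V → (V →+ V)
  nonempty : Λ.Nonempty
  ne_bot : ∀ W ∈ Λ, W ≠ ⊥
  ne_top : ∀ W ∈ Λ, W ≠ ⊤
  π_mem : ∀ W ∈ Λ, ∀ v, π W v ∈ W
  π_self : ∀ W ∈ Λ, ∀ w ∈ W, π W w = w
  π_other : ∀ W ∈ Λ, ∀ W' ∈ Λ, W ≠ W' → ∀ w ∈ W', π W w = 0
  sum_π : ∀ v : V, ∑ W ∈ Λ, π W v = v
  smul_mem : ∀ k ∈ K, ∀ W ∈ Λ, k • W ∈ Λ
  π_smul : ∀ k ∈ K, ∀ W ∈ Λ, ∀ v, k • π W v = π (k • W) (k • v)
  trans : ∀ W ∈ Λ, ∀ W' ∈ Λ, ∃ k ∈ K, k • W = W'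

end Defs

/-- The core claim for all modules (in universe `u`) of cardinality `< n`. -/
def CoreUpTo (p n : ℕ) : Prop :=
  ∀ (V : Type u) [AddCommGroup V] [Finite V] [Nontrivial V], Nat.card V < n →
    (Nat.card V).Coprime p →
    ∀ K P : Subgroup (AAut V), P ≤ K → (∀ k ∈ K, ∀ x ∈ P, k * x * k⁻¹ ∈ P) → IsPGroup p P →
      Irr K → ∀ a ∈ P, a ≠ 1 → NoConjFix K a

section Proj

variable {V : Type*} [AddCommGroup V] [Finite V]

/-- The norm map `v ↦ ∑_{h ∈ H} h • v`. -/
noncomputable def nrm (H : Subgroup (AAut V)) : V →+ V where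
  toFun v := ∑ h ∈ (Set.toFinite (H : Set (AAut V))).toFinset, h • v
  map_zero' := by simp
  map_add' := by
    intro x y
    simp only [smul_add, Finset.sum_add_distrib]

theorem nrm_apply (H : Subgroup (AAut V)) (v : V) :
    nrm H v = ∑ h ∈ (Set.toFinite (H : Set (AAut V))).toFinset, h • v := rfl

theorem smul_nrm {H : Subgroup (AAut V)} {h₀ : AAut V} (h₀H : h₀ ∈ H) (v : V) :
    h₀ • nrm H v = nrm H v := by
  rw [nrm_apply, Finset.smul_sum]
  refine Finset.sum_nbij' (fun h => h₀ * h) (fun h => h₀⁻¹ * h) ?_ ?_ ?_ ?_ ?_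
  · intro h hh
    rw [Set.Finite.mem_toFinset] at hh ⊢
    exact H.mul_mem h₀H hh
  · intro h hh
    rw [Set.Finite.mem_toFinset] at hh ⊢
    exact H.mul_mem (H.inv_mem h₀H) hh
  · intro h _
    simp
  · intro h _
    simp
  · intro h _
    rw [mul_smul]

theorem nrm_of_mem_fixA {H : Subgroup (AAut V)} {v : V} (hv : v ∈ fixA H) :
    nrm H v = Nat.card H • v := by
  rw [nrm_apply]
  rw [Finset.sum_congr rfl (fun h hh => hv h ((Set.Finite.mem_toFinset _).mp hh)), Finset.sum_const]
  congr 1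
  rw [← Set.ncard_eq_toFinset_card (H : Set (AAut V)), ← Nat.card_coe_set_eq]
  rfl

theorem smul_nrm_conj (g : AAut V) (H : Subgroup (AAut V)) (v : V) :
    g • nrm H v = nrm (H.map (MulAut.conj g).toMonoidHom) (g • v) := by
  rw [nrm_apply, nrm_apply, Finset.smul_sum]
  refine Finset.sum_nbij' (fun h => g * h * g⁻¹) (fun h => g⁻¹ * h * g) ?_ ?_ ?_ ?_ ?_
  · intro h hh
    rw [Set.Finite.mem_toFinset] at hh ⊢
    exact ⟨h, hh, rfl⟩
  · intro h hh
    rw [Set.Finite.mem_toFinset] at hh ⊢
    obtain ⟨h', hh', rfl⟩ := hh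
    have : g⁻¹ * (MulAut.conj g).toMonoidHom h' * g = h' := by
      simp [MulAut.conj_apply]
      group
    rw [this]
    exact hh'
  · intro h _
    group
  · intro h _
    group
  · intro h _
    rw [mul_smul, mul_smul, inv_smul_smul]

/-- A natural number inverse of `n` modulo `Nat.card V`. -/
noncomputable def cinv (V : Type*) [AddCommGroup V] (n : ℕ) : ℕ :=
  ((n : ZMod (Nat.card V))⁻¹).val

theorem cinv_smul {n : ℕ} (hn : n.Coprime (Nat.card V)) (v : V) :
    (cinv V n * n) • v = v := by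
  have : NeZero (Nat.card V) := ⟨Nat.card_pos.ne'⟩
  have h1 : ((cinv V n * n : ℕ) : ZMod (Nat.card V)) = ((1 : ℕ) : ZMod (Nat.card V)) := by
    rw [Nat.cast_mul, cinv, ZMod.natCast_zmod_val, Nat.cast_one, mul_comm]
    exact ZMod.coe_mul_inv_eq_one n hn
  have h2 : cinv V n * n ≡ 1 [MOD Nat.card V] := (ZMod.natCast_eq_natCast_iff _ _ _).mp h1
  have h3 : cinv V n * n ≡ 1 [MOD addOrderOf v] := h2.of_dvd (addOrderOf_dvd_natCard v)
  have h4 := (nsmul_eq_nsmul_iff_modEq (x := v)).mpr h3
  rw [h4, one_nsmul]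

/-- The averaging projection onto the fixed points of `H` (a projection when `|H|` is coprime
to `|V|`). -/
noncomputable def proj (H : Subgroup (AAut V)) : V →+ V :=
  cinv V (Nat.card H) • nrm H

theorem proj_apply (H : Subgroup (AAut V)) (v : V) :
    proj H v = cinv V (Nat.card H) • nrm H v := rfl

theorem proj_mem_fixA (H : Subgroup (AAut V)) (v : V) : proj H v ∈ fixA H := by
  intro h hh
  rw [proj_apply, smul_comm, smul_nrm hh]

theorem proj_of_mem {H : Subgroup (AAut V)} (hH : (Nat.card H).Coprime (Nat.card V)) {v : V}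
    (hv : v ∈ fixA H) : proj H v = v := by
  rw [proj_apply, nrm_of_mem_fixA hv, ← mul_nsmul', cinv_smul hH]

/-- Conjugation-equivariance of the projections. -/
theorem smul_proj (g : AAut V) (H : Subgroup (AAut V)) (v : V) :
    g • proj H v = proj (H.map (MulAut.conj g).toMonoidHom) (g • v) := by
  rw [proj_apply, proj_apply, smul_comm, smul_nrm_conj,
    Subgroup.card_map_of_injective (MulAut.conj g).injective]

theorem proj_of_isPGroup {p : ℕ} [Fact p.Prime] (hV : (Nat.card V).Coprime p)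
    {H : Subgroup (AAut V)} (hH : IsPGroup p H) {v : V} (hv : v ∈ fixA H) : proj H v = v := by
  obtain ⟨n, hn⟩ := IsPGroup.iff_card.mp hH
  apply proj_of_mem _ hv
  rw [hn]
  exact (Nat.Coprime.pow_right n hV).symm

end Proj

section Res

variable {V : Type*} [AddCommGroup V]

theorem smul_mem_of_smul_eq {W : AddSubgroup V} {g : AAut V} (hg : g • W = W) {w : V}
    (hw : w ∈ W) : g • w ∈ W := by
  have h1 : g • w ∈ g • W := AddSubgroup.smul_mem_pointwise_smul w g W hw
  rwa [hg] at h1

theorem inv_smul_eq_of_smul_eq {W : AddSubgroup V} {g : AAut V} (hg : g • W = W) :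
    g⁻¹ • W = W := by
  rw [inv_smul_eq_iff, hg]

/-- Restriction to `W` of an automorphism stabilizing `W`. -/
def res (W : AddSubgroup V) : MulAction.stabilizer (AAut V) W →* AAut W where
  toFun g :=
    { val :=
        { toFun := fun w => ⟨(g : AAut V) • (w : V), smul_mem_of_smul_eq g.2 w.2⟩
          map_zero' := Subtype.ext (smul_zero _)
          map_add' := fun x y => Subtype.ext (smul_add _ _ _) }
      inv :=
        { toFun := fun w => ⟨(g : AAut V)⁻¹ • (w : V),
            smul_mem_of_smul_eq (inv_smul_eq_of_smul_eq g.2) w.2⟩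
          map_zero' := Subtype.ext (smul_zero _)
          map_add' := fun x y => Subtype.ext (smul_add _ _ _) }
      val_inv := by
        ext w
        exact smul_inv_smul _ _
      inv_val := by
        ext w
        exact inv_smul_smul _ _ }
  map_one' := by
    ext w
    exact one_smul _ _
  map_mul' := by
    intro x y
    ext w
    exact mul_smul _ _ _

@[simp]
theorem res_smul (W : AddSubgroup V) (g : MulAction.stabilizer (AAut V) W) (w : W) :
    ((res W g • w : W) : V) = (g : AAut V) • (w : V) := rfl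

/-- The image in `AAut W` of the elements of `K` stabilizing `W`. -/
def resMap (W : AddSubgroup V) (K : Subgroup (AAut V)) : Subgroup (AAut W) :=
  (K.subgroupOf (MulAction.stabilizer (AAut V) W)).map (res W)

theorem mem_resMap {W : AddSubgroup V} {K : Subgroup (AAut V)} {x : AAut W} :
    x ∈ resMap W K ↔ ∃ k, ∃ hk : k • W = W, k ∈ K ∧ res W ⟨k, hk⟩ = x := by
  constructor
  · rintro ⟨g, hg, rfl⟩
    exact ⟨g.1, g.2, Subgroup.mem_subgroupOf.mp hg, rfl⟩
  · rintro ⟨k, hk, hkK, rfl⟩
    exact ⟨⟨k, hk⟩, Subgroup.mem_subgroupOf.mpr hkK, rfl⟩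

theorem res_mem_resMap {W : AddSubgroup V} {K : Subgroup (AAut V)} {k : AAut V}
    (hk : k • W = W) (hkK : k ∈ K) : res W ⟨k, hk⟩ ∈ resMap W K :=
  mem_resMap.mpr ⟨k, hk, hkK, rfl⟩

theorem isPGroup_resMap {p : ℕ} {W : AddSubgroup V} {P : Subgroup (AAut V)}
    (hP : IsPGroup p P) : IsPGroup p (resMap W P) := by
  intro x
  obtain ⟨k, hk, hkP, hx⟩ := mem_resMap.mp x.2
  obtain ⟨n, hn⟩ := hP ⟨k, hkP⟩
  refine ⟨n, Subtype.ext ?_⟩
  have h1 : k ^ p ^ n = 1 := by simpa using congrArg Subtype.val hn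
  have h2 : (⟨k, hk⟩ : MulAction.stabilizer (AAut V) W) ^ p ^ n = 1 :=
    Subtype.ext (by simpa using h1)
  rw [Subgroup.coe_pow, ← hx, ← map_pow, h2, map_one]
  rfl

theorem res_eq_one_iff {W : AddSubgroup V} (g : MulAction.stabilizer (AAut V) W) :
    res W g = 1 ↔ ∀ w ∈ W, (g : AAut V) • w = w := by
  constructor
  · intro h w hw
    have := congrArg (fun f : AAut W => ((f • (⟨w, hw⟩ : W) : W) : V)) h
    simpa using this
  · intro h
    apply FaithfulSMul.eq_of_smul_eq_smul (α := W)
    intro w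
    apply Subtype.ext
    rw [res_smul, one_smul]
    exact h w w.2

end Res

end Cfsg.Agent.Lib.Helper13.Fum
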