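import Mathlib
import Cfsg.Agent.Lib.Helper13.FumDefs
import Cfsg.Prelude.Def_Transfer
import Cfsg.Prelude.Def_CaseTheorems
import Cfsg.Agent.Lib.Helper87.FumPS
import Cfsg.Agent.Lib.Helper55.FumCL2
import Cfsg.Agent.Lib.Helper16.FumFPF
import Cfsg.Agent.Lib.Helper94.FumDECA
import Cfsg.Agent.Lib.Helper58.FumDECB
import Cfsg.Agent.Lib.Helper87.FumIMP1
import Cfsg.Agent.Lib.Helper87.FumIMP2
import Cfsg.Agent.Lib.Helper28.FumG2M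
import Cfsg.Agent.Lib.Helper18.FumEXT

/-!
# The pieces of S4330 (helper13), collected under one namespace

Each statement below is proved in a lib file of the seat that took the piece from the job
board (helper87: PS, IMP1, IMP2; helper94: DECA; helper58: DECB; helper16: FPF;
helper55: CL2; helper28: G2M; helper32: EXTD; helper18: EXT).
-/

set_option autoImplicit false

namespace Cfsg.Agent.Lib.Helper13.Fum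

open scoped Pointwise

universe u

/-- PIECE PS -/
theorem exists_subset_stab_trivial {Γ : Type*} [Group Γ] {Ω : Type*} [MulAction Γ Ω]
    (p : ℕ) [Fact p.Prime] (hp : p ≠ 2) (T : Subgroup Γ) [Finite T] (hT : IsPGroup p T)
    (X : Finset Ω) (hX : ∀ t ∈ T, ∀ ω ∈ X, t • ω ∈ X) :
    ∃ S ⊆ X, ∀ t ∈ T, (∀ ω ∈ X, (ω ∈ S ↔ t • ω ∈ S)) → ∀ ω ∈ X, t • ω = ω :=
  Cfsg.Agent.Lib.Helper87.FumPS.exists_subset_stab_trivial p hp T hT X hX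

/-- PIECE DECA -/
theorem exists_maxfix {V : Type*} [AddCommGroup V] [Finite V] [Nontrivial V]
    (K : Subgroup (AAut V)) (hirr : Irr K)
    (B : Subgroup (AAut V)) (hBK : B ≤ K)
    (hBn : ∀ k ∈ K, ∀ b ∈ B, k * b * k⁻¹ ∈ B)
    (H₀ : Subgroup (AAut V)) (hHB : H₀ ≤ B) (hH : H₀ ≠ ⊥) (hfix : fixA H₀ ≠ ⊥) :
    ∃ L : Finset (Subgroup (AAut V)), L.Nonempty ∧
      (∀ H ∈ L, H ≤ B ∧ H ≠ ⊥ ∧ fixA H ≠ ⊥) ∧
      (∀ H ∈ L, ∀ H' ∈ L, H ≠ H' → fixA H ⊓ fixA H' = ⊥) ∧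
      (∀ k ∈ K, ∀ H ∈ L, H.map (MulAut.conj k).toMonoidHom ∈ L) ∧
      (⨆ H ∈ L, fixA H) = ⊤ :=
  Cfsg.Agent.Lib.Helper94.Fum.exists_maxfix K hirr B hBK hBn H₀ hHB hH hfix

/-- PIECE DECB -/
theorem sys_of_maxfix (p : ℕ) [Fact p.Prime] {V : Type*} [AddCommGroup V] [Finite V]
    [Nontrivial V] (hV : (Nat.card V).Coprime p) (K : Subgroup (AAut V)) (hirr : Irr K)
    (B : Subgroup (AAut V)) (hBK : B ≤ K) (hBp : IsPGroup p B)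
    (hBab : ∀ x ∈ B, ∀ y ∈ B, x * y = y * x)
    (L : Finset (Subgroup (AAut V))) (hL : L.Nonempty)
    (hL1 : ∀ H ∈ L, H ≤ B ∧ H ≠ ⊥ ∧ fixA H ≠ ⊥)
    (hL2 : ∀ H ∈ L, ∀ H' ∈ L, H ≠ H' → fixA H ⊓ fixA H' = ⊥)
    (hL3 : ∀ k ∈ K, ∀ H ∈ L, H.map (MulAut.conj k).toMonoidHom ∈ L)
    (hL4 : (⨆ H ∈ L, fixA H) = ⊤) :
    Nonempty (Sys K) :=
  Cfsg.Agent.Lib.Helper58.Fum.sys_of_maxfix p hV K hirr B hBK hBp hBab L hL hL1 hL2 hL3 hL4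

/-- PIECE IMP1 -/
theorem imp1 {V : Type*} [AddCommGroup V] [Finite V]
    (K P : Subgroup (AAut V)) (hPK : P ≤ K) (hPn : ∀ k ∈ K, ∀ x ∈ P, k * x * k⁻¹ ∈ P)
    (a : AAut V) (haP : a ∈ P) (sys : Sys K)
    (hmove : ∃ W ∈ sys.Λ, a • W ≠ W)
    (hPS : ∃ S ⊆ sys.Λ, ∀ t ∈ P, (∀ W ∈ sys.Λ, (W ∈ S ↔ t • W ∈ S)) → ∀ W ∈ sys.Λ, t • W = W) :
    NoConjFix K a :=
  Cfsg.Agent.Lib.Helper87.FumIMP1.imp1 K P hPK hPn a haP sys hmove hPS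

/-- PIECE IMP2 -/
theorem imp2 (p : ℕ) [Fact p.Prime] {V : Type u} [AddCommGroup V] [Finite V]
    (hV : (Nat.card V).Coprime p) (IH : CoreUpTo.{u} p (Nat.card V))
    (K P : Subgroup (AAut V)) (hPK : P ≤ K) (hPn : ∀ k ∈ K, ∀ x ∈ P, k * x * k⁻¹ ∈ P)
    (hP : IsPGroup p P) (hirr : Irr K) (a : AAut V) (haP : a ∈ P) (ha : a ≠ 1) (sys : Sys K)
    (hfix : ∀ W ∈ sys.Λ, a • W = W) :
    NoConjFix K a :=
  Cfsg.Agent.Lib.Helper87.FumIMP2.imp2 p hV IH K P hPK hPn hP hirr a haP ha sys hfix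

/-- PIECE EXT -/
theorem exists_regular_vector (p : ℕ) [Fact p.Prime] (hp : p ≠ 2) {V : Type u} [AddCommGroup V]
    [Finite V] [Nontrivial V] (hV : (Nat.card V).Coprime p) (X : Subgroup (AAut V))
    (hexp : ∀ x ∈ X, x ^ p = 1)
    (hcl : ∀ x ∈ X, ∀ y ∈ X, ∀ t ∈ X, (x * y * x⁻¹ * y⁻¹) * t = t * (x * y * x⁻¹ * y⁻¹))
    (z : AAut V) (hz : z ∈ X) (hzc : ∀ x ∈ X, z * x = x * z)
    (hcen : ∀ x ∈ X, (∀ y ∈ X, x * y = y * x) → x ∈ Subgroup.zpowers z)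
    (hfpf : ∀ v : V, z • v = v → v = 0) :
    ∃ v : V, ∀ x ∈ X, x • v = v → x = 1 :=
  Cfsg.Agent.Lib.Helper18.Fum.exists_regular_vector p hp hV X hexp hcl z hz hzc hcen hfpf

/-- PIECE FPF -/
theorem isCyclic_of_fpf (p : ℕ) [Fact p.Prime] (hp : p ≠ 2) {V : Type*} [AddCommGroup V]
    [Finite V] [Nontrivial V] (B : Subgroup (AAut V)) (hBp : IsPGroup p B)
    (hfpf : ∀ b ∈ B, b ≠ 1 → ∀ v : V, b • v = v → v = 0) :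
    IsCyclic B ∧ ∀ x ∈ B, ∀ y ∈ B, x ≠ 1 → x ^ p = 1 → y ^ p = 1 → y ∈ Subgroup.zpowers x :=
  Cfsg.Agent.Lib.Helper16.FumFPF.isCyclic_of_fpf p hp B hBp hfpf

/-- PIECE CL2 -/
theorem class_two_of_hall {G : Type*} [Group G] [Finite G] {p : ℕ} [Fact p.Prime] (hp : p ≠ 2)
    (hall : ∃ E R : Subgroup G, (∀ e ∈ E, ∀ r ∈ R, e * r = r * e) ∧ E ⊔ R = ⊤ ∧
      (E = ⊥ ∨ Cfsg.IsExtraspecial p ↥E) ∧
      (IsCyclic R ∨ (p = 2 ∧ 16 ≤ Nat.card R ∧ ((∃ m : ℕ, Nonempty (↥R ≃* DihedralGroup m)) ∨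
        (∃ m : ℕ, Nonempty (↥R ≃* QuaternionGroup m)) ∨ Cfsg.IsQuasiDihedral ↥R)))) :
    (∀ x y t : G, (x * y * x⁻¹ * y⁻¹) * t = t * (x * y * x⁻¹ * y⁻¹)) ∧
    (∀ x y : G, x ^ p = 1 → y ^ p = 1 → (x * y) ^ p = 1) :=
  Cfsg.Agent.Lib.Helper55.FumCL2.class_two_of_hall hp hall

/-- PIECE G2M -/
theorem core_group {G : Type u} [Group G] [Finite G] (p : ℕ) [Fact p.Prime]
    (hcore : ∀ n, CoreUpTo.{u} p n)
    (N : Subgroup G) [N.Normal] (hN : N ≠ ⊥)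
    (hNab : ∀ x ∈ N, ∀ y ∈ N, x * y = y * x) (hNp : (Nat.card N).Coprime p)
    (hmin : ∀ L : Subgroup G, L.Normal → L ≤ N → L = ⊥ ∨ L = N)
    (M : Subgroup G) [M.Normal]
    (hM : ∀ m ∈ M, ∃ j : ℕ, ∀ n ∈ N, m ^ (p ^ j) * n = n * m ^ (p ^ j))
    (a : G) (ha : a ∈ M) (hna : ∃ n ∈ N, a * n ≠ n * a) :
    ∃ v ∈ N, ∀ g : G, (g * a * g⁻¹) * v ≠ v * (g * a * g⁻¹) :=
  Cfsg.Agent.Lib.Helper28.FumG2M.core_group p hcore N hN hNab hNp hmin M hM a ha hna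

end Cfsg.Agent.Lib.Helper13.Fum
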