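import Mathlib
import Cfsg.Agent.Lib.Helper13.FumDefs
import Cfsg.Agent.Lib.Helper13.FumPieces
import Cfsg.Prelude.Def_Transfer
import Cfsg.Prelude.Def_CaseTheorems

/-!
# The module-theoretic core of S4330 (helper13): assembly
-/

set_option autoImplicit false

namespace Cfsg.Agent.Lib.Helper13.Fum

open scoped Pointwise

universe u

/-- Hall's theorem on `p`-groups of symplectic type (the statement of S3762) in universe `u`. -/
def HallStmt (p : ℕ) : Prop :=
  ∀ (G : Type u) [Group G] [Finite G], IsPGroup p G →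
    (∀ A : Subgroup G, A.Characteristic → IsMulCommutative A → IsCyclic A) →
    ∃ E R : Subgroup G, (∀ e ∈ E, ∀ r ∈ R, e * r = r * e) ∧ E ⊔ R = ⊤ ∧
      (E = ⊥ ∨ Cfsg.IsExtraspecial p ↥E) ∧
      (IsCyclic R ∨ (p = 2 ∧ 16 ≤ Nat.card R ∧ ((∃ m : ℕ, Nonempty (↥R ≃* DihedralGroup m)) ∨
        (∃ m : ℕ, Nonempty (↥R ≃* QuaternionGroup m)) ∨ Cfsg.IsQuasiDihedral ↥R)))

/-- Conjugation by an element normalizing `P`, as an automorphism of `P`. -/
def conjAut {Γ : Type*} [Group Γ] (P : Subgroup Γ) (k : Γ)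
    (hk : ∀ x ∈ P, k * x * k⁻¹ ∈ P) (hk' : ∀ x ∈ P, k⁻¹ * x * k ∈ P) : P ≃* P where
  toFun x := ⟨k * x * k⁻¹, hk x x.2⟩
  invFun x := ⟨k⁻¹ * x * k, hk' x x.2⟩
  left_inv x := Subtype.ext (by simp [mul_assoc])
  right_inv x := Subtype.ext (by simp [mul_assoc])
  map_mul' x y := Subtype.ext (by simp [mul_assoc])

theorem case_B (p : ℕ) [Fact p.Prime] (hp : p ≠ 2) (hHall : HallStmt.{u} p) {V : Type u}
    [AddCommGroup V] [Finite V] [Nontrivial V] (hV : (Nat.card V).Coprime p)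
    (K P : Subgroup (AAut V)) (hPK : P ≤ K) (hPn : ∀ k ∈ K, ∀ x ∈ P, k * x * k⁻¹ ∈ P)
    (hP : IsPGroup p P) (a : AAut V) (haP : a ∈ P) (ha : a ≠ 1) (hap : a ^ p = 1)
    (hB : ∀ B : Subgroup (AAut V), B ≤ P → (∀ k ∈ K, ∀ b ∈ B, k * b * k⁻¹ ∈ B) →
      (∀ x ∈ B, ∀ y ∈ B, x * y = y * x) → ∀ b ∈ B, b ≠ 1 → ∀ v : V, b • v = v → v = 0) :
    NoConjFix K a := by
  classical
  have hPn' : ∀ k ∈ K, ∀ x ∈ P, k⁻¹ * x * k ∈ P := by
    intro k hk x hx
    simpa using hPn k⁻¹ (K.inv_mem hk) x hx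
  -- Hall's hypothesis for `P`
  have hsymp : ∀ A : Subgroup P, A.Characteristic → IsMulCommutative A → IsCyclic A := by
    intro A hAchar hAcomm
    have hle : A.map P.subtype ≤ P := by
      rintro _ ⟨x, -, rfl⟩
      exact x.2
    have hfpf := hB (A.map P.subtype) hle
      (by
        rintro k hk _ ⟨x, hx, rfl⟩
        have h1 := (Subgroup.characteristic_iff_map_eq.mp hAchar)
          (conjAut P k (hPn k hk) (hPn' k hk))
        have h2 : conjAut P k (hPn k hk) (hPn' k hk) x ∈ A := by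
          rw [← h1]
          exact ⟨x, hx, rfl⟩
        exact ⟨_, h2, rfl⟩)
      (by
        rintro _ ⟨x, hx, rfl⟩ _ ⟨y, hy, rfl⟩
        have := hAcomm.is_comm.comm (⟨x, hx⟩ : A) ⟨y, hy⟩
        have h3 := congrArg (fun t : A => ((t : P) : AAut V)) this
        simpa using h3)
    have hcyc := (isCyclic_of_fpf p hp (A.map P.subtype) (hP.to_le hle) hfpf).1
    exact (Subgroup.equivMapOfInjective A P.subtype P.subtype_injective).isCyclic.mpr hcyc
  have hcl2 := class_two_of_hall hp (hHall P hP hsymp)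
  obtain ⟨hcl, hpow⟩ := hcl2
  -- the subgroup of elements of order dividing `p`
  let X : Subgroup (AAut V) :=
    { carrier := {x | x ∈ P ∧ x ^ p = 1}
      mul_mem' := by
        rintro x y ⟨hx, hxp⟩ ⟨hy, hyp⟩
        refine ⟨P.mul_mem hx hy, ?_⟩
        have := hpow ⟨x, hx⟩ ⟨y, hy⟩ (Subtype.ext (by simpa using hxp))
          (Subtype.ext (by simpa using hyp))
        simpa using congrArg Subtype.val this
      one_mem' := ⟨P.one_mem, one_pow p⟩
      inv_mem' := by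
        rintro x ⟨hx, hxp⟩
        exact ⟨P.inv_mem hx, by rw [inv_pow, hxp, inv_one]⟩ }
  have hXP : X ≤ P := fun x hx => hx.1
  have hXexp : ∀ x ∈ X, x ^ p = 1 := fun x hx => hx.2
  have hXn : ∀ k ∈ K, ∀ x ∈ X, k * x * k⁻¹ ∈ X := by
    rintro k hk x ⟨hx, hxp⟩
    exact ⟨hPn k hk x hx, by rw [conj_pow, hxp, mul_one, mul_inv_cancel]⟩
  have haX : a ∈ X := ⟨haP, hap⟩
  have hXcl : ∀ x ∈ X, ∀ y ∈ X, ∀ t ∈ X,
      (x * y * x⁻¹ * y⁻¹) * t = t * (x * y * x⁻¹ * y⁻¹) := by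
    intro x hx y hy t ht
    have := hcl ⟨x, hXP hx⟩ ⟨y, hXP hy⟩ ⟨t, hXP ht⟩
    simpa using congrArg Subtype.val this
  -- the centre of `X`
  have hXnt : Nontrivial X :=
    ⟨⟨⟨a, haX⟩, 1, fun h => ha (by simpa using congrArg Subtype.val h)⟩⟩
  have hXp : IsPGroup p X := hP.to_le hXP
  have hcnt : Nontrivial (Subgroup.center X) := hXp.center_nontrivial
  obtain ⟨z₀, hz₀⟩ := exists_ne (1 : Subgroup.center X)
  set z : AAut V := ((z₀ : X) : AAut V) with hzdef
  have hzX : z ∈ X := (z₀ : X).2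
  have hz1 : z ≠ 1 := by
    intro h
    apply hz₀
    apply Subtype.ext
    apply Subtype.ext
    rw [hzdef] at h
    simpa using h
  let B : Subgroup (AAut V) := (Subgroup.center X).map X.subtype
  have hBX : B ≤ X := by
    rintro _ ⟨x, -, rfl⟩
    exact x.2
  have hmemB : ∀ x : AAut V, x ∈ B ↔ x ∈ X ∧ ∀ y ∈ X, x * y = y * x := by
    intro x
    constructor
    · rintro ⟨x', hx', rfl⟩
      refine ⟨x'.2, fun y hy => ?_⟩
      have := Subgroup.mem_center_iff.mp hx' ⟨y, hy⟩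
      have h3 := congrArg Subtype.val this
      simpa using h3.symm
    · rintro ⟨hxX, hc⟩
      refine ⟨⟨x, hxX⟩, ?_, rfl⟩
      show (⟨x, hxX⟩ : X) ∈ Subgroup.center X
      rw [Subgroup.mem_center_iff]
      intro y
      exact Subtype.ext (hc y y.2).symm
  have hzB : z ∈ B := ⟨z₀, z₀.2, rfl⟩
  have hBfpf := hB B (hBX.trans hXP)
    (by
      intro k hk b hb
      rw [hmemB] at hb ⊢
      refine ⟨hXn k hk b hb.1, fun y hy => ?_⟩
      have h1 := hb.2 (k⁻¹ * y * k) (by simpa using hXn k⁻¹ (K.inv_mem hk) y hy)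
      calc k * b * k⁻¹ * y = k * (b * (k⁻¹ * y * k)) * k⁻¹ := by group
        _ = k * ((k⁻¹ * y * k) * b) * k⁻¹ := by rw [h1]
        _ = y * (k * b * k⁻¹) := by group)
    (by
      intro x hx y hy
      exact ((hmemB x).mp hx).2 y (hBX hy))
  have hBp : IsPGroup p B := hP.to_le (hBX.trans hXP)
  have hBcyc := isCyclic_of_fpf p hp B hBp hBfpf
  obtain ⟨v, hv⟩ := exists_regular_vector p hp hV X hXexp hXcl z hzX
    (fun x hx => ((hmemB z).mp hzB).2 x hx)
    (fun x hx hc => hBcyc.2 z hzB x ((hmemB x).mpr ⟨hx, hc⟩) hz1 (hXexp z hzX) (hXexp x hx))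
    (fun v hv => hBfpf z hzB hz1 v hv)
  refine ⟨v, fun k hk hfix => ?_⟩
  have h1 := hv (k * a * k⁻¹) (hXn k hk a haX) hfix
  apply ha
  have : a = k⁻¹ * (k * a * k⁻¹) * k := by group
  rw [this, h1]
  group

theorem pow_smul_eq_of_smul_eq {V : Type*} [AddCommGroup V] {g : AAut V} {v : V}
    (h : g • v = v) (n : ℕ) : g ^ n • v = v := by
  have h1 : g ∈ MulAction.stabilizer (AAut V) v := h
  exact (MulAction.stabilizer (AAut V) v).pow_mem h1 n

theorem zpow_smul_eq_of_smul_eq {V : Type*} [AddCommGroup V] {g : AAut V} {v : V}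
    (h : g • v = v) (n : ℤ) : g ^ n • v = v := by
  have h1 : g ∈ MulAction.stabilizer (AAut V) v := h
  exact (MulAction.stabilizer (AAut V) v).zpow_mem h1 n

theorem core_step (p : ℕ) [Fact p.Prime] (hp : p ≠ 2) (hHall : HallStmt.{u} p) {V : Type u}
    [AddCommGroup V] [Finite V] [Nontrivial V] (hV : (Nat.card V).Coprime p)
    (IH : CoreUpTo.{u} p (Nat.card V))
    (K P : Subgroup (AAut V)) (hPK : P ≤ K) (hPn : ∀ k ∈ K, ∀ x ∈ P, k * x * k⁻¹ ∈ P)
    (hP : IsPGroup p P) (hirr : Irr K) (a : AAut V) (haP : a ∈ P) (ha : a ≠ 1) :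
    NoConjFix K a := by
  classical
  -- reduce to an element of order `p`
  obtain ⟨b, hbP, hb1, hbp, n, hba⟩ : ∃ b ∈ P, b ≠ 1 ∧ b ^ p = 1 ∧ ∃ n : ℕ, b = a ^ n := by
    have hex : ∃ j : ℕ, a ^ p ^ j = 1 := by
      obtain ⟨j, hj⟩ := hP ⟨a, haP⟩
      exact ⟨j, by simpa using congrArg Subtype.val hj⟩
    have hj0 : Nat.find hex ≠ 0 := by
      intro h0
      have := Nat.find_spec hex
      rw [h0, pow_zero, pow_one] at this
      exact ha this
    obtain ⟨j, hj⟩ := Nat.exists_eq_succ_of_ne_zero hj0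
    refine ⟨a ^ p ^ j, P.pow_mem haP _, ?_, ?_, _, rfl⟩
    · intro h1
      exact Nat.find_min hex (by omega : j < Nat.find hex) h1
    · have := Nat.find_spec hex
      rw [hj, pow_succ, pow_mul] at this
      exact this
  suffices h : NoConjFix K b by
    obtain ⟨v, hv⟩ := h
    refine ⟨v, fun k hk hfix => hv k hk ?_⟩
    rw [hba, ← conj_pow]
    exact pow_smul_eq_of_smul_eq hfix n
  by_cases hA : ∃ B : Subgroup (AAut V), B ≤ P ∧ (∀ k ∈ K, ∀ b ∈ B, k * b * k⁻¹ ∈ B) ∧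
      (∀ x ∈ B, ∀ y ∈ B, x * y = y * x) ∧ ∃ c ∈ B, c ≠ 1 ∧ ∃ v : V, v ≠ 0 ∧ c • v = v
  · obtain ⟨B, hBP, hBn, hBab, c, hcB, hc1, v, hv0, hcv⟩ := hA
    have hH : Subgroup.zpowers c ≠ ⊥ := by
      rwa [Ne, Subgroup.zpowers_eq_bot]
    have hfix : fixA (Subgroup.zpowers c) ≠ ⊥ := by
      intro h
      have hv : v ∈ fixA (Subgroup.zpowers c) := by
        rintro _ ⟨m, rfl⟩
        exact zpow_smul_eq_of_smul_eq hcv m
      rw [h] at hv
      exact hv0 (by simpa using hv)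
    obtain ⟨L, hL, hL1, hL2, hL3, hL4⟩ := exists_maxfix K hirr B (hBP.trans hPK) hBn _
      (Subgroup.zpowers_le.mpr hcB) hH hfix
    obtain ⟨sys⟩ := sys_of_maxfix p hV K hirr B (hBP.trans hPK) (hP.to_le hBP) hBab L hL hL1
      hL2 hL3 hL4
    by_cases hmove : ∃ W ∈ sys.Λ, b • W ≠ W
    · have hPS := exists_subset_stab_trivial p hp P hP sys.Λ
        (fun t ht W hW => sys.smul_mem t (hPK ht) W hW)
      exact imp1 K P hPK hPn b hbP sys hmove hPS
    · push Not at hmove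
      exact imp2 p hV IH K P hPK hPn hP hirr b hbP hb1 sys hmove
  · push Not at hA
    refine case_B p hp hHall hV K P hPK hPn hP b hbP hb1 hbp ?_
    intro B hBP hBn hBab c hcB hc1 v hcv
    by_contra hv0
    exact hA B hBP hBn hBab c hcB hc1 v hv0 hcv

theorem core_all (p : ℕ) [Fact p.Prime] (hp : p ≠ 2) (hHall : HallStmt.{u} p) :
    ∀ n, CoreUpTo.{u} p n := by
  intro n
  induction n with
  | zero =>
    intro V _ _ _ h
    exact absurd h (Nat.not_lt_zero _)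
  | succ n ih =>
    intro V _ _ _ hlt hV K P hPK hPn hP hirr a haP ha
    refine core_step p hp hHall hV ?_ K P hPK hPn hP hirr a haP ha
    intro V' _ _ _ hlt' hV'
    exact ih V' (by omega) hV'

end Cfsg.Agent.Lib.Helper13.Fum
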