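import Mathlib
import Cfsg.Agent.Lib.Helper13.Basic
import Cfsg.Agent.Lib.Helper32.Wielandt
import Cfsg.Agent.Lib.Helper55.Subn2
import Cfsg.Agent.Lib.Helper66.Cores
import Cfsg.Prelude.Def_Solvable

/-!
# Top-level reduction for S4330 (helper13)

From the group form of the core claim (`CoreGroup`) to the statement of S4330, by induction on
the order of the solvable group.
-/

set_option autoImplicit false

namespace Cfsg.Agent.Lib.Helper13.Fum

open scoped Pointwise
open Cfsg.Agent.Lib.Helper32 (RSN rsn_of_subgroupOf)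

universe u

/-- The hypothesis of S4330: each conjugacy class contains some `g` with `A` subnormal in
`⟨A, A^g⟩`. -/
def ClassSN {G : Type*} [Group G] (A : Subgroup G) : Prop :=
  ∀ c : G, ∃ g : G, IsConj c g ∧ (A.subgroupOf (A ⊔ MulAut.conj g • A)).IsSubnormal

/-- The group form of the core claim. -/
def CoreGroup (p : ℕ) : Prop :=
  ∀ (G : Type u) [Group G] [Finite G] (N : Subgroup G) [N.Normal], N ≠ ⊥ →
    (∀ x ∈ N, ∀ y ∈ N, x * y = y * x) → (Nat.card N).Coprime p →
    (∀ L : Subgroup G, L.Normal → L ≤ N → L = ⊥ ∨ L = N) →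
    ∀ (M : Subgroup G) [M.Normal],
    (∀ m ∈ M, ∃ j : ℕ, ∀ n ∈ N, m ^ (p ^ j) * n = n * m ^ (p ^ j)) →
    ∀ a ∈ M, (∃ n ∈ N, a * n ≠ n * a) →
    ∃ v ∈ N, ∀ g : G, (g * a * g⁻¹) * v ≠ v * (g * a * g⁻¹)

theorem RSN_map {G G' : Type*} [Group G] [Group G'] (f : G →* G') {S K : Subgroup G}
    (h : RSN S K) : RSN (S.map f) (K.map f) := by
  induction h with
  | refl K => exact RSN.refl _
  | step S H K hSH hN _ ih =>
    refine RSN.step _ (H.map f) _ (Subgroup.map_mono hSH) ?_ ih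
    exact (Subgroup.map_mono hN).trans (Subgroup.le_normalizer_map f)

theorem mem_conj_smul {G : Type*} [Group G] (g x : G) (A : Subgroup G) :
    x ∈ MulAut.conj g • A ↔ ∃ a ∈ A, g * a * g⁻¹ = x := by
  rw [Subgroup.mem_smul_pointwise_iff_exists]
  simp [MulAut.smul_def, MulAut.conj_apply]

theorem map_conj_smul {G G' : Type*} [Group G] [Group G'] (f : G →* G') (g : G)
    (A : Subgroup G) : (MulAut.conj g • A).map f = MulAut.conj (f g) • A.map f := by
  ext x
  rw [mem_conj_smul]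
  constructor
  · rintro ⟨y, hy, rfl⟩
    obtain ⟨a, ha, rfl⟩ := (mem_conj_smul _ _ _).mp hy
    exact ⟨f a, ⟨a, ha, rfl⟩, by simp⟩
  · rintro ⟨_, ⟨a, ha, rfl⟩, rfl⟩
    exact ⟨g * a * g⁻¹, (mem_conj_smul _ _ _).mpr ⟨a, ha, rfl⟩, by simp⟩

theorem ClassSN.map {G G' : Type*} [Group G] [Group G'] (f : G →* G')
    (hf : Function.Surjective f) {A : Subgroup G} (h : ClassSN A) : ClassSN (A.map f) := by
  intro c'
  obtain ⟨c, rfl⟩ := hf c'
  obtain ⟨g, hcg, hsn⟩ := h c
  refine ⟨f g, f.map_isConj hcg, ?_⟩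
  have h1 : RSN A (A ⊔ MulAut.conj g • A) := rsn_of_subgroupOf le_sup_left hsn
  have h2 := RSN_map f h1
  rw [Subgroup.map_sup, map_conj_smul] at h2
  exact h2.subgroupOf

theorem top_aux (p : ℕ) [Fact p.Prime] (hcg : CoreGroup.{u} p) :
    ∀ (n : ℕ) (G : Type u) [Group G] [Finite G], Nat.card G = n → Group.IsSolvable G →
      ∀ A : Subgroup G, IsPGroup p A → ClassSN A → A ≤ Cfsg.pCore p G := by
  intro n
  induction n using Nat.strong_induction_on with
  | _ n ih =>
  intro G _ _ hn hsol A hA h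
  have hp : p.Prime := Fact.out
  by_cases htop : (⊤ : Subgroup G) = ⊥
  · have : A = ⊥ := by
      rw [eq_bot_iff, ← htop]
      exact le_top
    rw [this]
    exact bot_le
  obtain ⟨N, -, hNn, hN, hmin⟩ :=
    Cfsg.Agent.Lib.Helper13.exists_minimal_normal_le (⊤ : Subgroup G) inferInstance htop
  have hNn' : N.Normal := hNn
  obtain ⟨r, hr, hrdvd, hNab, hNexp, hNr⟩ :=
    Cfsg.Agent.Lib.Helper13.minimal_normal_solvable N hNn hN hmin
  -- the quotient
  have hcardN : 1 < Nat.card N := by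
    have h1 : Nat.card N ≠ 1 := fun h1 => hN (Subgroup.card_eq_one.mp h1)
    have h2 : 0 < Nat.card N := Nat.card_pos
    omega
  have hlt : Nat.card (G ⧸ N) < n := by
    rw [← hn, Subgroup.card_eq_card_quotient_mul_card_subgroup N]
    have h3 : 0 < Nat.card (G ⧸ N) := Nat.card_pos
    nlinarith
  have hquot := ih (Nat.card (G ⧸ N)) hlt (G ⧸ N) rfl inferInstance (A.map (QuotientGroup.mk' N))
    (hA.map _) (h.map _ (QuotientGroup.mk'_surjective N))
  set O : Subgroup (G ⧸ N) := Cfsg.pCore p (G ⧸ N) with hO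
  have hOchar : O.Characteristic := Cfsg.Agent.Lib.Helper55.pCore_characteristic
  have hOn : O.Normal := Subgroup.normal_of_characteristic O
  have hOp : IsPGroup p O := Cfsg.Agent.Lib.Helper66.isPGroup_pCore p
  set M : Subgroup G := O.comap (QuotientGroup.mk' N) with hM
  have hMn : M.Normal := hOn.comap _
  have hAM : A ≤ M := Subgroup.map_le_iff_le_comap.mp hquot
  have hMpow : ∀ m ∈ M, ∃ j : ℕ, m ^ p ^ j ∈ N := by
    intro m hm
    obtain ⟨j, hj⟩ := hOp ⟨QuotientGroup.mk' N m, hm⟩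
    refine ⟨j, ?_⟩
    have h1 : (QuotientGroup.mk' N m) ^ p ^ j = 1 := by simpa using congrArg Subtype.val hj
    rw [← map_pow] at h1
    exact (QuotientGroup.eq_one_iff _).mp h1
  by_cases hrp : r = p
  · -- `M` is a normal `p`-subgroup
    rw [hrp] at hNexp
    have hMp : IsPGroup p M := by
      intro m
      obtain ⟨j, hj⟩ := hMpow m.1 m.2
      refine ⟨j + 1, Subtype.ext ?_⟩
      rw [Subgroup.coe_pow, pow_succ, pow_mul, hNexp _ hj]
      rfl
    exact hAM.trans (Cfsg.Agent.Lib.Helper66.le_pCore hMn hMp)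
  -- `N` is a `p'`-group
  have hNp : (Nat.card N).Coprime p := by
    have hrf : Fact r.Prime := ⟨hr⟩
    obtain ⟨k, hk⟩ := IsPGroup.iff_card.mp hNr
    rw [hk]
    exact Nat.Coprime.pow_left k ((Nat.coprime_primes hr hp).mpr hrp)
  by_cases hcent : ∀ a ∈ A, ∀ n ∈ N, a * n = n * a
  · -- `A` centralizes `N`: `A ⊴ A ⊔ N`, subnormal in `G`
    have h1 : ((A.map (QuotientGroup.mk' N)).subgroupOf O).IsSubnormal :=
      Cfsg.Agent.Lib.Helper55.isSubnormal_of_isPGroup hOp _
    have h2 : (A.map (QuotientGroup.mk' N)).IsSubnormal :=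
      Subgroup.IsSubnormal.trans hquot h1 hOn.isSubnormal
    have h3 := h2.comap (QuotientGroup.mk' N)
    rw [Subgroup.comap_map_eq, QuotientGroup.ker_mk'] at h3
    have h4 : A ⊔ N ≤ Subgroup.normalizer (A : Set G) := by
      refine sup_le Subgroup.le_normalizer ?_
      intro n hn
      rw [Subgroup.mem_normalizer_iff]
      intro a
      have key : ∀ a ∈ A, n * a * n⁻¹ = a := by
        intro a ha
        rw [← hcent a ha n hn, mul_inv_cancel_right]
      constructor
      · intro ha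
        rw [key a ha]
        exact ha
      · intro ha
        have h5 := key _ ha
        have h6 : n * a * n⁻¹ = a := by
          have : n * (n * a * n⁻¹) * n⁻¹ = n * a * n⁻¹ := h5
          have h7 : n * a * n⁻¹ = n⁻¹ * (n * (n * a * n⁻¹) * n⁻¹) * n := by group
          rw [this] at h7
          have h8 : n⁻¹ * (n * a * n⁻¹) * n = a := by group
          rw [h8] at h7
          exact h7
        rw [← h6]
        exact ha
    have h5 : (A.subgroupOf (A ⊔ N)).Normal := Subgroup.normal_subgroupOf_of_le_normalizer h4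
    have h6 : A.IsSubnormal := Subgroup.IsSubnormal.trans le_sup_left h5.isSubnormal h3
    exact Cfsg.Agent.Lib.Helper55.subnormal_pgroup_le_pCore h6 hA
  · -- `A` does not centralize `N`: contradiction through the core claim
    exfalso
    push Not at hcent
    obtain ⟨a, haA, n₀, hn₀, han₀⟩ := hcent
    have hMc : ∀ m ∈ M, ∃ j : ℕ, ∀ n ∈ N, m ^ (p ^ j) * n = n * m ^ (p ^ j) := by
      intro m hm
      obtain ⟨j, hj⟩ := hMpow m hm
      exact ⟨j, fun n hn => hNab _ hj n hn⟩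
    obtain ⟨v, hvN, hv⟩ := hcg G N hN hNab hNp hmin M hMc a (hAM haA) ⟨n₀, hn₀, han₀⟩
    obtain ⟨g, hvg, hsn⟩ := h v
    obtain ⟨x, hx⟩ := isConj_iff.mp hvg
    have hgN : g ∈ N := by
      rw [← hx]
      exact hNn.conj_mem v hvN x
    have hag : a * g ≠ g * a := by
      intro hcomm
      apply hv x⁻¹
      rw [← hx] at hcomm
      have e1 : x⁻¹ * a * x⁻¹⁻¹ * v = x⁻¹ * (a * (x * v * x⁻¹)) * x := by group
      have e2 : v * (x⁻¹ * a * x⁻¹⁻¹) = x⁻¹ * ((x * v * x⁻¹) * a) * x := by group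
      rw [e1, e2, hcomm]
    set H : Subgroup G := A ⊔ MulAut.conj g • A with hH
    have hAH : A ≤ H := le_sup_left
    have hAp' : IsPGroup p (A.subgroupOf H) := hA.comap_subtype
    have hle := Cfsg.Agent.Lib.Helper55.subnormal_pgroup_le_pCore hsn hAp'
    have hOH : IsPGroup p (Cfsg.pCore p H) := Cfsg.Agent.Lib.Helper66.isPGroup_pCore p
    have hOHn : (Cfsg.pCore p H).Normal :=
      Subgroup.normal_of_characteristic (H := Cfsg.pCore p H)
        (h := Cfsg.Agent.Lib.Helper55.pCore_characteristic)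
    set u : G := a * g * a⁻¹ * g⁻¹ with hu
    have huN : u ∈ N := by
      have h1 : a * g * a⁻¹ ∈ N := hNn.conj_mem g hgN a
      exact N.mul_mem h1 (N.inv_mem hgN)
    have hgaH : g * a⁻¹ * g⁻¹ ∈ H :=
      (le_sup_right : MulAut.conj g • A ≤ H) ((mem_conj_smul _ _ _).mpr ⟨a⁻¹, A.inv_mem haA, rfl⟩)
    have huH : u ∈ H := by
      have : u = a * (g * a⁻¹ * g⁻¹) := by rw [hu]; group
      rw [this]
      exact H.mul_mem (hAH haA) hgaH
    -- `a` commutes with `u`
    have hau : a * u = u * a := by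
      have ha' : (⟨a, hAH haA⟩ : H) ∈ Cfsg.pCore p H := hle (Subgroup.mem_subgroupOf.mpr haA)
      set c : H := ⟨a, hAH haA⟩ * ⟨u, huH⟩ * (⟨a, hAH haA⟩ : H)⁻¹ * (⟨u, huH⟩ : H)⁻¹ with hc
      have hcO : c ∈ Cfsg.pCore p H := by
        have h1 : (⟨u, huH⟩ : H) * (⟨a, hAH haA⟩ : H)⁻¹ * (⟨u, huH⟩ : H)⁻¹ ∈ Cfsg.pCore p H :=
          hOHn.conj_mem _ (Subgroup.inv_mem _ ha') _
        have h2 : c = ⟨a, hAH haA⟩ * ((⟨u, huH⟩ : H) * (⟨a, hAH haA⟩ : H)⁻¹ * (⟨u, huH⟩ : H)⁻¹) := by
          rw [hc]; group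
        rw [h2]
        exact Subgroup.mul_mem _ ha' h1
      have hcN : (c : G) ∈ N := by
        have h1 : a * u * a⁻¹ ∈ N := hNn.conj_mem u huN a
        have h2 : (c : G) = a * u * a⁻¹ * u⁻¹ := by rw [hc]; rfl
        rw [h2]
        exact N.mul_mem h1 (N.inv_mem huN)
      obtain ⟨j, hj⟩ := hOH ⟨c, hcO⟩
      have hcj : (c : G) ^ p ^ j = 1 := by
        have := congrArg (fun t : Cfsg.pCore p H => ((t : H) : G)) hj
        simpa using this
      have ho1 : orderOf (c : G) ∣ p ^ j := orderOf_dvd_of_pow_eq_one hcj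
      have ho2 : orderOf (c : G) ∣ Nat.card N := by
        have := orderOf_dvd_natCard (⟨(c : G), hcN⟩ : N)
        rwa [Subgroup.orderOf_mk] at this
      have ho : orderOf (c : G) = 1 :=
        Nat.eq_one_of_dvd_coprimes (Nat.Coprime.pow_left j hNp.symm) ho1 ho2
      have hc1 : (c : G) = 1 := orderOf_eq_one_iff.mp ho
      have h2 : (c : G) = a * u * a⁻¹ * u⁻¹ := by rw [hc]; rfl
      rw [h2, mul_inv_eq_one, mul_inv_eq_iff_eq_mul] at hc1
      exact hc1
    -- hence `a ^ i * g * a ^ (-i) = u ^ i * g`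
    have hpow : ∀ i : ℕ, a ^ i * g * (a ^ i)⁻¹ = u ^ i * g := by
      intro i
      induction i with
      | zero => simp
      | succ i ih =>
        have hcomm : Commute a (u ^ i) := Commute.pow_right hau i
        calc a ^ (i + 1) * g * (a ^ (i + 1))⁻¹ = a * (a ^ i * g * (a ^ i)⁻¹) * a⁻¹ := by
              rw [pow_succ']; group
          _ = a * (u ^ i * g) * a⁻¹ := by rw [ih]
          _ = (a * u ^ i) * g * a⁻¹ := by group
          _ = (u ^ i * a) * g * a⁻¹ := by rw [hcomm.eq]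
          _ = u ^ i * (a * g * a⁻¹ * g⁻¹) * g := by group
          _ = u ^ (i + 1) * g := by rw [← hu, pow_succ]
    have h1 := hpow (orderOf a)
    rw [pow_orderOf_eq_one, one_mul, inv_one, mul_one] at h1
    have hum : u ^ orderOf a = 1 := by
      have : u ^ orderOf a * g = 1 * g := by rw [one_mul]; exact h1.symm
      exact mul_right_cancel this
    have hoa : ∃ j : ℕ, orderOf a = p ^ j := by
      obtain ⟨j, hj⟩ := (IsPGroup.iff_orderOf.mp hA) ⟨a, haA⟩
      exact ⟨j, by rw [← hj, Subgroup.orderOf_mk]⟩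
    obtain ⟨j, hj⟩ := hoa
    have ho1 : orderOf u ∣ p ^ j := by
      rw [← hj]
      exact orderOf_dvd_of_pow_eq_one hum
    have ho2 : orderOf u ∣ Nat.card N := by
      have := orderOf_dvd_natCard (⟨u, huN⟩ : N)
      rwa [Subgroup.orderOf_mk] at this
    have ho : orderOf u = 1 :=
      Nat.eq_one_of_dvd_coprimes (Nat.Coprime.pow_left j hNp.symm) ho1 ho2
    have hu1 : u = 1 := orderOf_eq_one_iff.mp ho
    apply hag
    rw [hu, mul_inv_eq_one, mul_inv_eq_iff_eq_mul] at hu1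
    exact hu1

end Cfsg.Agent.Lib.Helper13.Fum
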