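import Mathlib
import Cfsg.Agent.Lib.Helper81.G2Base

/-!
S4632 piece G2-TRANS: `G₂(F)` is transitive on the idempotents `≠ 0, 1` of Zorn's algebra.
-/

set_option autoImplicit false

namespace Cfsg.Agent.Lib.Helper13.G2

open Cfsg Cfsg.Lie Matrix Cfsg.Agent.Lib.Helper81.G2Base

universe u

theorem trans_aux1 {F : Type u} [Field F] (e : Fin 8 → F) (h7 : e 7 = 1 - e 0)
    (hq : e 0 * (1 - e 0) = e 1 * e 4 + e 2 * e 5 + e 3 * e 6) (ht : e 0 ≠ 0) :
    fS (fX ![e 4 / e 0, e 5 / e 0, e 6 / e 0] (fS (fX ![e 1, e 2, e 3] e0))) = e := by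
  ext i
  fin_cases i
  · simp [fS, fX, e0]
    field_simp
    linear_combination hq
  · simp [fS, fX, e0]
  · simp [fS, fX, e0]
  · simp [fS, fX, e0]
  · simp [fS, fX, e0]
    field_simp
    linear_combination (e 4) * hq
  · simp [fS, fX, e0]
    field_simp
    linear_combination (e 5) * hq
  · simp [fS, fX, e0]
    field_simp
    linear_combination (e 6) * hq
  · simp [fS, fX, e0]
    rw [h7]
    field_simp
    linear_combination (-1 : F) * hq

theorem trans_aux2 {F : Type u} [Field F] (e : Fin 8 → F) (h7 : e 7 = 1 - e 0)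
    (hq : e 0 * (1 - e 0) = e 1 * e 4 + e 2 * e 5 + e 3 * e 6) (ht : e 0 = 0) :
    fS (fX ![-e 4, -e 5, -e 6] (fS (fX ![-e 1, -e 2, -e 3] (fS e0)))) = e := by
  rw [ht] at h7 hq
  have hS : e 4 * e 1 + e 5 * e 2 + e 6 * e 3 = 0 := by linear_combination (-1 : F) * hq
  ext i
  fin_cases i
  · simp [fS, fX, e0]
    rw [ht]
    linear_combination hS
  · simp [fS, fX, e0]
  · simp [fS, fX, e0]
  · simp [fS, fX, e0]
  · simp [fS, fX, e0]
    exact Or.inl hS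
  · simp [fS, fX, e0]
    exact Or.inl hS
  · simp [fS, fX, e0]
    exact Or.inl hS
  · simp [fS, fX, e0]
    rw [h7]
    linear_combination (-1 : F) * hS

/-- Piece TRANS: `G₂(F)` is transitive on these idempotents. -/
theorem trans_idem {F : Type u} [Field F]
    (hS : ∃ g : Lie.G2 F, ∀ x, act g x = fS x)
    (hX : ∀ u : Fin 3 → F, ∃ g : Lie.G2 F, ∀ x, act g x = fX u x) :
    ∀ e ∈ idem (F := F), ∃ g : Lie.G2 F, act g e0 = e := by
  intro e he
  obtain ⟨h7, hq⟩ := (mem_idem_iff e).mp he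
  obtain ⟨σ, hσ⟩ := hS
  by_cases ht : e 0 = 0
  · obtain ⟨g1, hg1⟩ := hX ![-e 1, -e 2, -e 3]
    obtain ⟨g2, hg2⟩ := hX ![-e 4, -e 5, -e 6]
    refine ⟨σ * g2 * σ * g1 * σ, ?_⟩
    rw [act_mul, act_mul, act_mul, act_mul, hσ, hg1, hσ, hg2, hσ]
    exact trans_aux2 e h7 hq ht
  · obtain ⟨g1, hg1⟩ := hX ![e 1, e 2, e 3]
    obtain ⟨g2, hg2⟩ := hX ![e 4 / e 0, e 5 / e 0, e 6 / e 0]
    refine ⟨σ * g2 * σ * g1, ?_⟩
    rw [act_mul, act_mul, act_mul, hg1, hσ, hg2, hσ]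
    exact trans_aux1 e h7 hq ht

end Cfsg.Agent.Lib.Helper13.G2
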