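import Mathlib
import Cfsg.Agent.Lib.Helper81.OSum
import Cfsg.Agent.Lib.Helper81.DeltaGrp
import Cfsg.Agent.Lib.Helper51.DicksonTwo
import Cfsg.Agent.Lib.Helper52.OmegaGeom
import Cfsg.Agent.Lib.Helper34.OmegaGT
import Cfsg.Agent.Lib.Helper87.OStdE

/-!
# OMEGA-SYL project (helper81), piece ISOM (helper13)

A non-degenerate quadratic form of dimension `2n + 2` whose discriminant is that of
`quadFormMinus n F a b` is isometric to it.
-/

set_option autoImplicit false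
set_option linter.unusedSectionVars false
set_option linter.unusedVariables false

namespace Cfsg.Agent.Lib.Helper13.OIsoM

open Cfsg Cfsg.Agent.Lib.Helper51
open Cfsg.Agent.Lib.Helper34.OmegaGT (gram_det_transport)
open Cfsg.Agent.Lib.Helper87.OStdE (std_even)

section Bin

variable {F : Type*} [Field F]

/-- The change of the binary part: `(x, y) ↦ (x + μ y, lam y)`, the hyperbolic coordinates
being fixed. -/
def binFun (n : ℕ) (μ lam : F) (w : (Fin n ⊕ Fin n) ⊕ Fin 2 → F) :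
    (Fin n ⊕ Fin n) ⊕ Fin 2 → F :=
  Sum.elim (fun i => w (Sum.inl i)) ![w (Sum.inr 0) + μ * w (Sum.inr 1), lam * w (Sum.inr 1)]

theorem binFun_inl (n : ℕ) (μ lam : F) (w : (Fin n ⊕ Fin n) ⊕ Fin 2 → F) (i : Fin n ⊕ Fin n) :
    binFun n μ lam w (Sum.inl i) = w (Sum.inl i) := rfl

theorem binFun_zero (n : ℕ) (μ lam : F) (w : (Fin n ⊕ Fin n) ⊕ Fin 2 → F) :
    binFun n μ lam w (Sum.inr 0) = w (Sum.inr 0) + μ * w (Sum.inr 1) := rfl

theorem binFun_one (n : ℕ) (μ lam : F) (w : (Fin n ⊕ Fin n) ⊕ Fin 2 → F) :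
    binFun n μ lam w (Sum.inr 1) = lam * w (Sum.inr 1) := rfl

theorem binFun_ext (n : ℕ) {x y : (Fin n ⊕ Fin n) ⊕ Fin 2 → F}
    (hl : ∀ i, x (Sum.inl i) = y (Sum.inl i)) (h0 : x (Sum.inr 0) = y (Sum.inr 0))
    (h1 : x (Sum.inr 1) = y (Sum.inr 1)) : x = y := by
  funext k
  rcases k with i | j
  · exact hl i
  · fin_cases j
    · exact h0
    · exact h1

/-- `binFun` as a linear map. -/
def binLin (n : ℕ) (μ lam : F) :
    ((Fin n ⊕ Fin n) ⊕ Fin 2 → F) →ₗ[F] ((Fin n ⊕ Fin n) ⊕ Fin 2 → F) where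
  toFun := binFun n μ lam
  map_add' x y := by
    apply binFun_ext
    · intro i
      rfl
    · rw [binFun_zero, Pi.add_apply, Pi.add_apply, Pi.add_apply, binFun_zero, binFun_zero]
      ring
    · rw [binFun_one, Pi.add_apply, Pi.add_apply, binFun_one, binFun_one]
      ring
  map_smul' c x := by
    apply binFun_ext
    · intro i
      rfl
    · rw [binFun_zero, RingHom.id_apply, Pi.smul_apply, Pi.smul_apply, Pi.smul_apply, binFun_zero,
        smul_eq_mul, smul_eq_mul, smul_eq_mul]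
      ring
    · rw [binFun_one, RingHom.id_apply, Pi.smul_apply, Pi.smul_apply, binFun_one,
        smul_eq_mul, smul_eq_mul]
      ring

theorem binLin_apply (n : ℕ) (μ lam : F) (w : (Fin n ⊕ Fin n) ⊕ Fin 2 → F) :
    binLin n μ lam w = binFun n μ lam w := rfl

theorem binLin_injective (n : ℕ) (μ : F) {lam : F} (hlam : lam ≠ 0) :
    Function.Injective (binLin n μ lam) := by
  rw [← LinearMap.ker_eq_bot, LinearMap.ker_eq_bot']
  intro w hw
  rw [binLin_apply] at hw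
  have h1 : w (Sum.inr 1) = 0 := by
    have h := congrFun hw (Sum.inr 1)
    rw [binFun_one, Pi.zero_apply] at h
    exact (mul_eq_zero.mp h).resolve_left hlam
  have h0 : w (Sum.inr 0) = 0 := by
    have h := congrFun hw (Sum.inr 0)
    rw [binFun_zero, Pi.zero_apply, h1, mul_zero, add_zero] at h
    exact h
  apply binFun_ext
  · intro i
    have h := congrFun hw (Sum.inl i)
    rw [binFun_inl] at h
    exact h
  · exact h0
  · exact h1

theorem quadFormMinus_binFun (n : ℕ) (a b ζ μ lam : F) (h1 : 2 * μ + a * lam = 1)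
    (h2 : μ ^ 2 + a * lam * μ + b * lam ^ 2 = ζ) (w : (Fin n ⊕ Fin n) ⊕ Fin 2 → F) :
    quadFormMinus n F a b (binFun n μ lam w) = quadFormMinus n F 1 ζ w := by
  unfold quadFormMinus
  simp only [binFun_inl, binFun_zero, binFun_one]
  linear_combination (w (Sum.inr 0) * w (Sum.inr 1)) * h1 + (w (Sum.inr 1)) ^ 2 * h2

end Bin

section ISO

variable {ι : Type} [Fintype ι] [DecidableEq ι] {F : Type*} [Field F] [Fintype F]

theorem iso_minus (h2 : (2 : F) ≠ 0) (W : QuadraticForm F (ι → F))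
    (hW : (QuadraticMap.polarBilin W).Nondegenerate) (n : ℕ) (a b : F)
    (hab : ∀ z₁ z₂ : F, z₁ ^ 2 + a * z₁ * z₂ + b * z₂ ^ 2 = 0 → z₁ = 0 ∧ z₂ = 0)
    (hc : Fintype.card ι = 2 * n + 2)
    (hd : IsSquare ((-1) ^ n * (4 * b - a ^ 2) * (gram W).det)) :
    ∃ L : (ι → F) ≃ₗ[F] ((Fin n ⊕ Fin n) ⊕ Fin 2 → F),
      ∀ v, quadFormMinus n F a b (L v) = W v := by
  have hdisc : 4 * b - a ^ 2 ≠ 0 := by
    intro h0
    have := (hab (-a / 2) 1 (by field_simp; linear_combination h0)).2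
    exact one_ne_zero this
  have hsq : ((-1 : F) ^ n) * (-1) ^ n = 1 := by
    rw [← mul_pow]; simp
  rcases std_even h2 W hW (n + 1) (by omega) (by omega) with ⟨L, hL⟩ | ⟨L, ζ, hζ, hL⟩
  · exfalso
    obtain ⟨c, hc0, hdet⟩ := gram_det_transport W (QPlus (n + 1) F) L
      (fun v => by rw [coe_QPlus]; exact hL v)
    rw [det_gram_QPlus] at hdet
    rw [hdet] at hd
    obtain ⟨s, hs⟩ := hd
    have hs' : (s / c) ^ 2 = a ^ 2 - 4 * b := by
      field_simp
      linear_combination (-1 : F) * hs + (-(4 * b - a ^ 2) * c ^ 2) * hsq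
    obtain ⟨t, ht⟩ : ∃ t : F, t ^ 2 = a ^ 2 - 4 * b := ⟨s / c, hs'⟩
    have := (hab ((t - a) / 2) 1 (by field_simp; linear_combination ht)).2
    exact one_ne_zero this
  · obtain ⟨L', hL'⟩ : ∃ L' : (ι → F) ≃ₗ[F] ((Fin n ⊕ Fin n) ⊕ Fin 2 → F),
        ∀ v, quadFormMinus n F 1 ζ (L' v) = W v := ⟨L, hL⟩
    obtain ⟨c, hc0, hdet⟩ := gram_det_transport W (QMinus n F 1 ζ) L'
      (fun v => by rw [coe_QMinus]; exact hL' v)
    rw [det_gram_QMinus] at hdet
    rw [hdet] at hd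
    obtain ⟨s, hs⟩ := hd
    have hs' : (s / c) ^ 2 = (4 * b - a ^ 2) * (4 * ζ - 1) := by
      field_simp
      linear_combination (-1 : F) * hs + ((4 * b - a ^ 2) * c ^ 2 * (4 * ζ - 1)) * hsq
    obtain ⟨t, ht⟩ : ∃ t : F, t ^ 2 = (4 * b - a ^ 2) * (4 * ζ - 1) := ⟨s / c, hs'⟩
    have hζ' : 4 * ζ - 1 ≠ 0 := by
      intro h0
      exact hζ (-1 / 2) (by field_simp; linear_combination h0)
    have ht0 : t ≠ 0 := by
      rintro rfl
      have h0 : (4 * b - a ^ 2) * (4 * ζ - 1) = 0 := by rw [← ht]; ring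
      exact mul_ne_zero hdisc hζ' h0
    have hlam : t / (4 * b - a ^ 2) ≠ 0 := div_ne_zero ht0 hdisc
    have h1 : 2 * ((1 - a * (t / (4 * b - a ^ 2))) / 2) + a * (t / (4 * b - a ^ 2)) = 1 := by
      field_simp
      ring
    have h2' : ((1 - a * (t / (4 * b - a ^ 2))) / 2) ^ 2
        + a * (t / (4 * b - a ^ 2)) * ((1 - a * (t / (4 * b - a ^ 2))) / 2)
        + b * (t / (4 * b - a ^ 2)) ^ 2 = ζ := by
      field_simp
      linear_combination (4 * b - a ^ 2) * ht
    refine ⟨L'.trans (LinearEquiv.ofInjectiveEndo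
      (binLin n ((1 - a * (t / (4 * b - a ^ 2))) / 2) (t / (4 * b - a ^ 2)))
      (binLin_injective n _ hlam)), fun v => ?_⟩
    rw [LinearEquiv.trans_apply, LinearEquiv.coe_ofInjectiveEndo, binLin_apply,
      quadFormMinus_binFun n a b ζ _ _ h1 h2', hL']

end ISO

end Cfsg.Agent.Lib.Helper13.OIsoM
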