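import Mathlib
import Cfsg.Agent.Lib.Helper93.SUPair

set_option autoImplicit false
set_option linter.unusedSectionVars false
set_option linter.unusedVariables false

namespace Cfsg.Agent.Lib.Helper13.RU3

open Matrix Cfsg.Agent.Lib.Helper7 Cfsg.Agent.Lib.Helper18 Cfsg.Agent.Lib.Helper93

variable {F : Type*} [Field F] [Fintype F] {q : ℕ}

theorem MIn_of_mul_eq {n : ℕ} {M : Subgroup (GL (Fin n) F)} {T A B : Matrix (Fin n) (Fin n) F}
    (hA : MIn M A) (hB : MIn M B) (h : T * A = B) : MIn M T := by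
  obtain ⟨s, hs, rfl⟩ := hA
  obtain ⟨t, ht, rfl⟩ := hB
  refine ⟨t * s⁻¹, M.mul_mem ht (M.inv_mem hs), ?_⟩
  rw [Units.val_mul, ← h, mul_assoc, ← Units.val_mul, mul_inv_cancel, Units.val_one, mul_one]

/-- rescaling the centre of a Heisenberg element -/
theorem heis_smul_e (hF : Fintype.card F = q ^ 2) (n : ℕ) (e w : Fin n → F) (lam b : F) :
    heis q n (lam • e) w b = heis q n e (lam ^ q • w) (lam * lam ^ q * b) := by
  apply Matrix.mulVec_injective
  funext x
  rw [heis_mulVec, heis_mulVec]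
  simp only [hf_smul_right, herm_pow_pow hF]
  module

/-- **Piece TV**: conjugating a Heisenberg element by a homology gives explicit transvections. -/
theorem tv (hF : Fintype.card F = q ^ 2) {M : Subgroup (GL (Fin 3) F)}
    (hM : M ≤ Cfsg.GU 3 F q ⊓ Cfsg.Geo.specialLinear (Fin 3) F)
    {e W : Fin 3 → F} (hee : Cfsg.hermForm 3 F q e e = 0) (hWe : Cfsg.hermForm 3 F q W e = 0)
    (hWW : Cfsg.hermForm 3 F q W W = 1)
    {a b : F} (hab : b + b ^ q + a * a ^ q = 0)
    (hx : MIn M (heis q 3 e (a • W) b))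
    {C : Matrix (Fin 3) (Fin 3) F} (hC : MIn M C) {lam η : F}
    (hCe : C *ᵥ e = lam • e) (hCW : C *ᵥ W = η • W) (hlam : lam * lam ^ q = 1) :
    MIn M (heis q 3 e ((lam ^ q * η * a) • W) b) ∧
    MIn M (Cfsg.unitaryTransvection 3 q e
      (a * a ^ q * ((lam ^ q * η) ^ q - lam ^ q * η))) ∧
    (lam ^ q * η = -1 → MIn M (Cfsg.unitaryTransvection 3 q e (2 * b + a * a ^ q))) ∧
    ((2 : F) = 0 → MIn M (Cfsg.unitaryTransvection 3 q e (a * a ^ q))) := by
  have hCp : suPres q 3 C := hC.pres hM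
  have hvec : lam ^ q • (a • η • W) = (lam ^ q * η * a) • W := by
    rw [smul_smul, smul_smul]
    congr 1
    ring
  have h1 : C * heis q 3 e (a • W) b = heis q 3 e ((lam ^ q * η * a) • W) b * C := by
    rw [conj_heis hCp, hCe, Matrix.mulVec_smul, hCW, heis_smul_e hF, hlam, one_mul, hvec]
  have hx' : MIn M (heis q 3 e ((lam ^ q * η * a) • W) b) := MIn.conj hC hx h1
  have hwe : Cfsg.hermForm 3 F q (a • W) e = 0 := by rw [hf_smul_left, hWe, mul_zero]
  have hwe' : Cfsg.hermForm 3 F q ((lam ^ q * η * a) • W) e = 0 := by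
    rw [hf_smul_left, hWe, mul_zero]
  have hxx' : heis q 3 e (a • W) b * heis q 3 e ((lam ^ q * η * a) • W) b
      = heis q 3 e (a • W + (lam ^ q * η * a) • W) (b + b - (lam ^ q * η) * (a * a ^ q)) := by
    rw [heis_mul hF 3 e _ _ b b hee hwe hwe', hf_smul_left, hf_smul_right, hWW]
    congr 1
    ring
  have hx'x : heis q 3 e ((lam ^ q * η * a) • W) b * heis q 3 e (a • W) b
      = heis q 3 e (a • W + (lam ^ q * η * a) • W)
          (b + b - (lam ^ q * η) ^ q * (a * a ^ q)) := by
    rw [heis_mul hF 3 e _ _ b b hee hwe' hwe, hf_smul_left, hf_smul_right, hWW,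
      add_comm (a • W)]
    congr 1
    rw [mul_pow (lam ^ q * η) a q]
    ring
  have hT : Cfsg.unitaryTransvection 3 q e (a * a ^ q * ((lam ^ q * η) ^ q - lam ^ q * η))
      * (heis q 3 e ((lam ^ q * η * a) • W) b * heis q 3 e (a • W) b)
      = heis q 3 e (a • W) b * heis q 3 e ((lam ^ q * η * a) • W) b := by
    rw [hx'x, hxx', transvection_mul_heis hF 3 e _ _ _ hee
      (by rw [hf_add_left, hwe, hwe', add_zero])]
    congr 1
    ring
  refine ⟨hx', MIn_of_mul_eq (hx'.mul hx) (hx.mul hx') hT, ?_, ?_⟩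
  · intro hμ
    have h3 : heis q 3 e ((lam ^ q * η * a) • W) b * heis q 3 e (a • W) b
        = Cfsg.unitaryTransvection 3 q e (2 * b + a * a ^ q) := by
      rw [hx'x, hμ, ← heis_zero_w hF]
      have hv : a • W + (-1 * a) • W = 0 := by
        rw [← add_smul]
        simp
      rw [hv, herm_neg_pow hF, one_pow]
      congr 1
      ring
    rw [← h3]
    exact hx'.mul hx
  · intro h2
    have h4 : heis q 3 e (a • W) b * heis q 3 e (a • W) b
        = Cfsg.unitaryTransvection 3 q e (a * a ^ q) := by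
      rw [heis_mul hF 3 e _ _ b b hee hwe hwe, hf_smul_left, hf_smul_right, hWW,
        ← heis_zero_w hF]
      have hv : a • W + a • W = 0 := by rw [← two_smul F (a • W), h2, zero_smul]
      have hb : b + b - a * (a ^ q * 1) = a * a ^ q := by
        have h5 : (2 : F) * b = 0 := by rw [h2, zero_mul]
        have h6 : (2 : F) * (a * a ^ q) = 0 := by rw [h2, zero_mul]
        linear_combination h5 - h6
      rw [hv, hb]
    rw [← h4]
    exact hx.mul hx

end Cfsg.Agent.Lib.Helper13.RU3
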