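import Mathlib

set_option autoImplicit false

namespace Cfsg.Agent.Lib.Helper13.S2281Aux

open Polynomial

/-! ### Piece FLD (finite fields) -/

theorem sum_two_squares {F : Type*} [Field F] [Fintype F] (y : F) :
    ∃ u v : F, y = u ^ 2 + v ^ 2 := by
  classical
  by_cases h2 : ringChar F = 2
  · obtain ⟨u, hu⟩ := FiniteField.isSquare_of_char_two h2 y
    exact ⟨u, 0, by rw [hu]; ring⟩
  · have hodd : Fintype.card F % 2 = 1 := FiniteField.odd_card_of_char_ne_two h2
    have hf : degree (X ^ 2 : F[X]) = 2 := degree_X_pow 2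
    have hg : degree (X ^ 2 - C y : F[X]) = 2 := degree_X_pow_sub_C (by norm_num) y
    obtain ⟨a, b, hab⟩ := FiniteField.exists_root_sum_quadratic hf hg hodd
    refine ⟨a, b, ?_⟩
    simp only [eval_pow, eval_X, eval_sub, eval_C] at hab
    linear_combination -hab

theorem addSubgroup_eq_top_of_sq_mul {F : Type*} [Field F] [Fintype F] (c : F)
    (hc : ∀ x : F, x ≠ 0 → ∃ k : ℕ, c ^ k = x) (A : AddSubgroup F) (a₀ : F) (ha₀ : a₀ ∈ A)
    (h0 : a₀ ≠ 0) (hmul : ∀ a ∈ A, c ^ 2 * a ∈ A) : A = ⊤ := by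
  have hpow : ∀ k : ℕ, ∀ a ∈ A, (c ^ 2) ^ k * a ∈ A := by
    intro k
    induction k with
    | zero => intro a ha; simpa using ha
    | succ k ih =>
      intro a ha
      rw [pow_succ, mul_assoc]
      exact ih _ (hmul a ha)
  have hsq : ∀ x : F, ∀ a ∈ A, x ^ 2 * a ∈ A := by
    intro x a ha
    by_cases hx : x = 0
    · subst hx
      simp [A.zero_mem]
    · obtain ⟨k, rfl⟩ := hc x hx
      have h2 : (c ^ k) ^ 2 = (c ^ 2) ^ k := by rw [← pow_mul, ← pow_mul, mul_comm]
      rw [h2]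
      exact hpow k a ha
  rw [eq_top_iff]
  intro a _
  obtain ⟨u, v, huv⟩ := sum_two_squares (a / a₀)
  have h1 : a = u ^ 2 * a₀ + v ^ 2 * a₀ := by
    rw [← add_mul, ← huv, div_mul_cancel₀ a h0]
  rw [h1]
  exact A.add_mem (hsq u a₀ ha₀) (hsq v a₀ ha₀)

theorem exists_gen_add_one_sq {F : Type*} [Field F] [Fintype F] (h4 : 4 ≤ Fintype.card F) :
    ∃ c δ : F, (∀ x : F, x ≠ 0 → ∃ k : ℕ, c ^ k = x) ∧ δ ^ 2 = c + 1 ∧ δ ≠ 0 := by
  classical
  obtain ⟨g, hg⟩ := IsCyclic.exists_generator (α := Fˣ)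
  have hρ : ∀ x : F, x ≠ 0 → ∃ k : ℕ, (g : F) ^ k = x := by
    intro x hx
    have h1 := hg (Units.mk0 x hx)
    have h2 := mem_powers_iff_mem_zpowers.mpr h1
    obtain ⟨k, hk⟩ := (Submonoid.mem_powers_iff _ _).mp h2
    refine ⟨k, ?_⟩
    have := congrArg (fun u : Fˣ => (u : F)) hk
    simpa using this
  have hg0 : (g : F) ≠ 0 := g.ne_zero
  have hne : (g : F) + 1 ≠ 0 := by
    intro h
    have hg1 : (g : F) = -1 := eq_neg_of_add_eq_zero_left h
    have hsub : (Finset.univ : Finset F) ⊆ {0, 1, -1} := by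
      intro x _
      by_cases hx : x = 0
      · simp [hx]
      · obtain ⟨k, hk⟩ := hρ x hx
        rw [hg1] at hk
        rcases neg_one_pow_eq_or F k with h | h
        · rw [h] at hk; simp [← hk]
        · rw [h] at hk; simp [← hk]
    have hcard := Finset.card_le_card hsub
    rw [Finset.card_univ] at hcard
    have h3 : ({0, 1, -1} : Finset F).card ≤ 3 := Finset.card_le_three
    omega
  obtain ⟨j, hj⟩ := hρ _ hne
  rcases Nat.even_or_odd' j with ⟨i, rfl | rfl⟩
  · refine ⟨g, (g : F) ^ i, hρ, ?_, pow_ne_zero _ hg0⟩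
    rw [← hj, ← pow_mul, mul_comm]
  · refine ⟨(g : F)⁻¹, (g : F) ^ i, ?_, ?_, pow_ne_zero _ hg0⟩
    · intro x hx
      obtain ⟨k, hk⟩ := hρ x⁻¹ (inv_ne_zero hx)
      exact ⟨k, by rw [inv_pow, hk, inv_inv]⟩
    · have h1 : (g : F)⁻¹ + 1 = (g : F)⁻¹ * ((g : F) + 1) := by
        rw [mul_add, inv_mul_cancel₀ hg0, mul_one, add_comm]
      have h2 : (g : F) ^ (2 * i + 1) = (g : F) * ((g : F) ^ i) ^ 2 := by ring
      rw [h1, ← hj, h2, ← mul_assoc, inv_mul_cancel₀ hg0, one_mul]

/-! ### Piece NIL (strictly triangular matrices with respect to a rank function) -/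

theorem rank_key {ι : Type*} [Fintype ι] [DecidableEq ι] {F : Type*} [Field F]
    (N : Matrix ι ι F) (r : ι → ℕ) (hT : ∀ i j, N i j ≠ 0 → r i < r j) :
    ∀ k i j, (N ^ k) i j ≠ 0 → r i + k ≤ r j := by
  intro k
  induction k with
  | zero =>
    intro i j h
    rw [pow_zero, Matrix.one_apply] at h
    by_cases hij : i = j
    · subst hij; simp
    · simp [hij] at h
  | succ k ih =>
    intro i j h
    rw [pow_succ, Matrix.mul_apply] at h
    obtain ⟨x, -, hx⟩ := Finset.exists_ne_zero_of_sum_ne_zero h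
    have h1 : (N ^ k) i x ≠ 0 := left_ne_zero_of_mul hx
    have h2 : N x j ≠ 0 := right_ne_zero_of_mul hx
    have h3 := ih i x h1
    have h4 := hT x j h2
    omega

theorem rank_pow_eq_zero {ι : Type*} [Fintype ι] [DecidableEq ι] {F : Type*} [Field F]
    (N : Matrix ι ι F) (r : ι → ℕ) (m : ℕ) (hr : ∀ i, r i < m)
    (hT : ∀ i j, N i j ≠ 0 → r i < r j) : N ^ m = 0 := by
  ext i j
  by_contra h
  have h' : (N ^ m) i j ≠ 0 := by simpa using h
  have h1 := rank_key N r hT m i j h'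
  have h2 := hr j
  omega

theorem rank_pow_ne_zero {ι : Type*} [Fintype ι] [DecidableEq ι] {F : Type*} [Field F]
    (N : Matrix ι ι F) (r : ι → ℕ) (m : ℕ) (hinj : Function.Injective r)
    (hT : ∀ i j, N i j ≠ 0 → r i < r j) (l : ℕ → ι) (hl : ∀ k, k < m → r (l k) = k)
    (hD : ∀ k, k + 1 < m → N (l k) (l (k + 1)) ≠ 0) (hm : 0 < m) : N ^ (m - 1) ≠ 0 := by
  have key := rank_key N r hT
  have hmain : ∀ k, k < m → (N ^ k) (l 0) (l k) ≠ 0 := by
    intro k
    induction k with
    | zero => intro _; simp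
    | succ k ih =>
      intro hk
      have hk' : k < m := by omega
      rw [pow_succ, Matrix.mul_apply, Finset.sum_eq_single (l k)]
      · exact mul_ne_zero (ih hk') (hD k hk)
      · intro x _ hx
        by_contra hne
        have h1 : (N ^ k) (l 0) x ≠ 0 := left_ne_zero_of_mul hne
        have h2 : N x (l (k + 1)) ≠ 0 := right_ne_zero_of_mul hne
        have h3 := key k (l 0) x h1
        have h4 := hT x _ h2
        rw [hl (k + 1) hk] at h4
        have h5 : r x = r (l k) := by rw [hl k hk']; omega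
        exact hx (hinj h5)
      · intro h
        exact absurd (Finset.mem_univ _) h
  intro h0
  have h1 := hmain (m - 1) (by omega)
  rw [h0] at h1
  simp at h1

end Cfsg.Agent.Lib.Helper13.S2281Aux
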