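import Mathlib
import Cfsg.Agent.Lib.Helper17.PermMod3

/-!
# Project SC (S4560): three irreducible characters of a 4-transitive group — definitions

For a group `G` acting on `Ω`:
* `UP Ω`: unordered pairs of distinct points (non-diagonal elements of `Sym2 Ω`), with the
  induced action;
* `OP Ω`: ordered pairs of distinct points, with the induced action;
* `chi1 = π - 1`, `chi2 = π_UP - π`, `chi3 = π_OP - π_UP - π + 1`, where `π_X` is the
  permutation character (`Cfsg.Agent.Lib.Helper17.permChar G X g = Nat.card (fixedBy X g)`);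
* `P1 g`: exactly one fixed point; `P2 g`: no fixed point and no 2-cycle; `P3 g`: exactly two
  fixed points and no 2-cycle.
-/

set_option autoImplicit false

namespace Cfsg.Agent.Lib.Helper13.SC

open Cfsg
open Cfsg.Agent.Lib.Helper17 (permChar)

universe u v

/-- unordered pairs of distinct points -/
def UP (Ω : Type v) : Type v := {z : Sym2 Ω // ¬ z.IsDiag}

/-- ordered pairs of distinct points -/
def OP (Ω : Type v) : Type v := {p : Ω × Ω // p.1 ≠ p.2}

/-- four pairwise distinct points exist -/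
def Four (Ω : Type v) : Prop :=
  ∃ p₀ p₁ p₂ p₃ : Ω, p₀ ≠ p₁ ∧ p₀ ≠ p₂ ∧ p₀ ≠ p₃ ∧ p₁ ≠ p₂ ∧ p₁ ≠ p₃ ∧ p₂ ≠ p₃

section action

variable {G : Type u} [Group G] {Ω : Type v} [MulAction G Ω]

instance instMulActionUP : MulAction G (UP Ω) where
  smul g z := ⟨Sym2.map (fun a => g • a) z.1,
    fun h => z.2 ((Sym2.isDiag_map (MulAction.injective g)).1 h)⟩
  one_smul z := Subtype.ext (by
    show Sym2.map (fun a => (1 : G) • a) z.1 = z.1
    simp)
  mul_smul g h z := Subtype.ext (by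
    show Sym2.map (fun a => (g * h) • a) z.1 =
      Sym2.map (fun a => g • a) (Sym2.map (fun a => h • a) z.1)
    rw [Sym2.map_map]
    congr 1
    funext a
    exact mul_smul g h a)

instance instMulActionOP : MulAction G (OP Ω) where
  smul g p := ⟨(g • p.1.1, g • p.1.2), fun h => p.2 (MulAction.injective g h)⟩
  one_smul p := Subtype.ext (Prod.ext (one_smul G _) (one_smul G _))
  mul_smul g h p := Subtype.ext (Prod.ext (mul_smul g h _) (mul_smul g h _))

theorem UP_smul_val (g : G) (z : UP Ω) : (g • z).1 = Sym2.map (fun a => g • a) z.1 := rfl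

theorem OP_smul_val (g : G) (p : OP Ω) : (g • p).1 = (g • p.1.1, g • p.1.2) := rfl

/-- the unordered pair `{a, b}`, `a ≠ b` -/
def UP.mk {Ω : Type v} (a b : Ω) (h : a ≠ b) : UP Ω := ⟨s(a, b), h⟩

/-- the ordered pair `(a, b)`, `a ≠ b` -/
def OP.mk {Ω : Type v} (a b : Ω) (h : a ≠ b) : OP Ω := ⟨(a, b), h⟩

theorem UP.exists_mk (z : UP Ω) : ∃ (a b : Ω) (h : a ≠ b), z = UP.mk a b h := by
  obtain ⟨z, hz⟩ := z
  induction z using Sym2.ind with
  | _ a b => exact ⟨a, b, hz, rfl⟩

theorem OP.exists_mk (p : OP Ω) : ∃ (a b : Ω) (h : a ≠ b), p = OP.mk a b h :=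
  ⟨p.1.1, p.1.2, p.2, rfl⟩

theorem UP.mk_eq_mk_iff {a b c d : Ω} (h : a ≠ b) (h' : c ≠ d) :
    UP.mk a b h = UP.mk c d h' ↔ (a = c ∧ b = d) ∨ (a = d ∧ b = c) := by
  constructor
  · intro e
    have e' : s(a, b) = s(c, d) := congrArg Subtype.val e
    exact Sym2.eq_iff.1 e'
  · intro e
    exact (Subtype.ext (Sym2.eq_iff.2 e) :
      (⟨s(a, b), h⟩ : {z : Sym2 Ω // ¬ z.IsDiag}) = ⟨s(c, d), h'⟩)

theorem OP.mk_eq_mk_iff {a b c d : Ω} (h : a ≠ b) (h' : c ≠ d) :
    OP.mk a b h = OP.mk c d h' ↔ a = c ∧ b = d := by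
  constructor
  · intro e
    have e' : (a, b) = (c, d) := congrArg Subtype.val e
    exact Prod.mk.inj e'
  · rintro ⟨rfl, rfl⟩
    rfl

theorem UP.smul_mk (g : G) {a b : Ω} (h : a ≠ b) :
    g • UP.mk a b h = UP.mk (g • a) (g • b) (fun e => h (MulAction.injective g e)) := rfl

theorem OP.smul_mk (g : G) {a b : Ω} (h : a ≠ b) :
    g • OP.mk a b h = OP.mk (g • a) (g • b) (fun e => h (MulAction.injective g e)) := rfl

end action

noncomputable instance instFintypeUP (Ω : Type v) [Fintype Ω] [DecidableEq Ω] : Fintype (UP Ω) :=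
  inferInstanceAs (Fintype {z : Sym2 Ω // ¬ z.IsDiag})

noncomputable instance instFintypeOP (Ω : Type v) [Fintype Ω] [DecidableEq Ω] : Fintype (OP Ω) :=
  inferInstanceAs (Fintype {p : Ω × Ω // p.1 ≠ p.2})

section chars

variable (G : Type u) [Group G] (Ω : Type v) [MulAction G Ω]

/-- `π - 1` -/
noncomputable def chi1 : G → ℂ := fun g => permChar G Ω g - 1

/-- `π_UP - π` -/
noncomputable def chi2 : G → ℂ := fun g => permChar G (UP Ω) g - permChar G Ω g

/-- `π_OP - π_UP - π + 1` -/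
noncomputable def chi3 : G → ℂ :=
  fun g => permChar G (OP Ω) g - permChar G (UP Ω) g - permChar G Ω g + 1

end chars

section preds

variable {G : Type u} [Group G] {Ω : Type v} [MulAction G Ω]

/-- exactly one fixed point -/
def P1 (Ω : Type v) [MulAction G Ω] (g : G) : Prop :=
  ∃ a : Ω, g • a = a ∧ ∀ b : Ω, g • b = b → b = a

/-- no fixed point, no 2-cycle -/
def P2 (Ω : Type v) [MulAction G Ω] (g : G) : Prop :=
  (∀ a : Ω, g • a ≠ a) ∧ ∀ a : Ω, g • (g • a) ≠ a

/-- exactly two fixed points, no 2-cycle -/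
def P3 (Ω : Type v) [MulAction G Ω] (g : G) : Prop :=
  ∃ u v : Ω, u ≠ v ∧ g • u = u ∧ g • v = v ∧ (∀ a : Ω, g • a = a → a = u ∨ a = v) ∧
    ∀ a : Ω, g • a ≠ a → g • (g • a) ≠ a

end preds

end Cfsg.Agent.Lib.Helper13.SC
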