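import Mathlib
import Cfsg.Agent.Lib.Helper13.SCDefs

/-!
# Project SC (S4560), piece Burn (project of helper13; proofs by helper58)

Burnside's lemma for one action and for a product of two actions.
-/

set_option autoImplicit false

namespace Cfsg.Agent.Lib.Helper13.SC

open Cfsg MulAction
open Cfsg.Agent.Lib.Helper17 (permChar)

universe u v w

/-- Burnside: the sum of the permutation character is `#orbits * |G|`. -/
theorem burn1 {G : Type u} [Group G] [Fintype G] {X : Type v} [Fintype X] [MulAction G X] :
    ∑ g : G, permChar G X g =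
      (Nat.card (MulAction.orbitRel.Quotient G X) : ℂ) * (Nat.card G : ℂ) := by
  classical
  have hB := MulAction.sum_card_fixedBy_eq_card_orbits_mul_card_group G X
  have h3 : ∑ g : G, permChar G X g =
      ((∑ g : G, Fintype.card (MulAction.fixedBy X g) : ℕ) : ℂ) := by
    rw [Nat.cast_sum]
    refine Finset.sum_congr rfl fun g _ => ?_
    show (Nat.card (MulAction.fixedBy X g) : ℂ) = _
    rw [Nat.card_eq_fintype_card]
  rw [h3, hB, Nat.cast_mul, ← Nat.card_eq_fintype_card, ← Nat.card_eq_fintype_card]

/-- Burnside on a product: `∑ π_X π_Y = #orbits(X × Y) * |G|`. -/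
theorem burn2 {G : Type u} [Group G] [Fintype G] {X : Type v} {Y : Type w} [Fintype X]
    [Fintype Y] [MulAction G X] [MulAction G Y] :
    ∑ g : G, permChar G X g * permChar G Y g =
      (Nat.card (MulAction.orbitRel.Quotient G (X × Y)) : ℂ) * (Nat.card G : ℂ) := by
  classical
  have h1 : ∀ g : G, permChar G X g * permChar G Y g = permChar G (X × Y) g := by
    intro g
    have h2 : MulAction.fixedBy (X × Y) g = MulAction.fixedBy X g ×ˢ MulAction.fixedBy Y g := by
      ext ⟨x, y⟩
      simp [MulAction.mem_fixedBy, Prod.ext_iff]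
    show (Nat.card (MulAction.fixedBy X g) : ℂ) * (Nat.card (MulAction.fixedBy Y g) : ℂ)
      = (Nat.card (MulAction.fixedBy (X × Y) g) : ℂ)
    rw [Nat.card_coe_set_eq, Nat.card_coe_set_eq, Nat.card_coe_set_eq, h2, Set.ncard_prod,
      Nat.cast_mul]
  rw [Finset.sum_congr rfl (fun g _ => h1 g)]
  exact burn1

end Cfsg.Agent.Lib.Helper13.SC
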