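import Mathlib
import Cfsg.Agent.Lib.Helper13.SCDefs

/-!
# Project SC (S4560), piece Cyc (project of helper13; proofs by helper52)

Fixed-point structure, sign and order of a permutation from its cycle type.
-/

set_option autoImplicit false

namespace Cfsg.Agent.Lib.Helper13.SC

open Cfsg MulAction
open Cfsg.Agent.Lib.Helper17 (permChar)

universe u v w

variable {α : Type v} [Fintype α] [DecidableEq α]

/-- a point moved by `σ` and returning after two steps gives a 2-cycle -/
theorem sccyc_two_mem (σ : Equiv.Perm α) (a : α) (h1 : σ a ≠ a) (h2 : σ (σ a) = a) :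
    2 ∈ σ.cycleType := by
  have hc : (σ.cycleOf a).IsCycle := Equiv.Perm.isCycle_cycleOf σ h1
  have hmem : σ.cycleOf a ∈ σ.cycleFactorsFinset :=
    Equiv.Perm.cycleOf_mem_cycleFactorsFinset_iff.2 (Equiv.Perm.mem_support.2 h1)
  have hca : (σ.cycleOf a) a ≠ a := by
    rw [Equiv.Perm.cycleOf_apply_self]
    exact h1
  have hsq : (σ.cycleOf a) ^ 2 = 1 := by
    rw [hc.pow_eq_one_iff' hca, Equiv.Perm.cycleOf_pow_apply_self, pow_two, Equiv.Perm.mul_apply]
    exact h2
  have hne : σ.cycleOf a ≠ 1 := by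
    intro h
    apply hca
    rw [h]
    rfl
  have hord : orderOf (σ.cycleOf a) = 2 := orderOf_eq_prime hsq hne
  have hcard : (σ.cycleOf a).support.card = 2 := by
    rw [← hc.orderOf]
    exact hord
  rw [Equiv.Perm.cycleType_def]
  exact Multiset.mem_map.2 ⟨σ.cycleOf a, hmem, hcard⟩

theorem sccyc_card_compl (σ : Equiv.Perm α) :
    σ.supportᶜ.card + σ.cycleType.sum = Fintype.card α := by
  rw [Equiv.Perm.sum_cycleType, add_comm]
  exact Finset.card_add_card_compl σ.support

theorem sccyc_mem_compl (σ : Equiv.Perm α) (a : α) : a ∈ σ.supportᶜ ↔ σ a = a := by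
  rw [Finset.mem_compl, Equiv.Perm.mem_support, not_not]

theorem cyc_P1 (σ : Equiv.Perm α) (h : σ.cycleType.sum + 1 = Fintype.card α) : P1 α σ := by
  have hcard : σ.supportᶜ.card = 1 := by
    have := sccyc_card_compl σ
    omega
  obtain ⟨a, ha⟩ := Finset.card_eq_one.1 hcard
  refine ⟨a, ?_, ?_⟩
  · have : a ∈ σ.supportᶜ := by rw [ha]; exact Finset.mem_singleton_self a
    exact (sccyc_mem_compl σ a).1 this
  · intro b hb
    have : b ∈ σ.supportᶜ := (sccyc_mem_compl σ b).2 hb
    rw [ha] at this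
    exact Finset.mem_singleton.1 this

theorem cyc_P2 (σ : Equiv.Perm α) (h : σ.cycleType.sum = Fintype.card α)
    (h2 : 2 ∉ σ.cycleType) : P2 α σ := by
  have hcard : σ.supportᶜ.card = 0 := by
    have := sccyc_card_compl σ
    omega
  have hfix : ∀ a : α, σ a ≠ a := by
    intro a ha
    have : a ∈ σ.supportᶜ := (sccyc_mem_compl σ a).2 ha
    rw [Finset.card_eq_zero.1 hcard] at this
    exact absurd this (Finset.notMem_empty a)
  refine ⟨hfix, ?_⟩
  intro a ha
  exact h2 (sccyc_two_mem σ a (hfix a) ha)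

theorem cyc_P3 (σ : Equiv.Perm α) (h : σ.cycleType.sum + 2 = Fintype.card α)
    (h2 : 2 ∉ σ.cycleType) : P3 α σ := by
  have hcard : σ.supportᶜ.card = 2 := by
    have := sccyc_card_compl σ
    omega
  obtain ⟨x, y, hxy, hs⟩ := Finset.card_eq_two.1 hcard
  refine ⟨x, y, hxy, ?_, ?_, ?_, ?_⟩
  · have : x ∈ σ.supportᶜ := by rw [hs]; exact Finset.mem_insert_self x {y}
    exact (sccyc_mem_compl σ x).1 this
  · have : y ∈ σ.supportᶜ := by
      rw [hs]; exact Finset.mem_insert_of_mem (Finset.mem_singleton_self y)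
    exact (sccyc_mem_compl σ y).1 this
  · intro a ha
    have : a ∈ σ.supportᶜ := (sccyc_mem_compl σ a).2 ha
    rw [hs] at this
    rcases Finset.mem_insert.1 this with h' | h'
    · exact Or.inl h'
    · exact Or.inr (Finset.mem_singleton.1 h')
  · intro a ha ha2
    exact h2 (sccyc_two_mem σ a ha ha2)

theorem cyc_sign (σ : Equiv.Perm α) (h : Even (σ.cycleType.sum + σ.cycleType.card)) :
    Equiv.Perm.sign σ = 1 := by
  rw [Equiv.Perm.sign_of_cycleType]
  exact h.neg_one_pow

theorem cyc_pow (σ : Equiv.Perm α) (L : ℕ) (h : ∀ k ∈ σ.cycleType, k ∣ L) : σ ^ L = 1 := by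
  apply orderOf_dvd_iff_pow_eq_one.1
  rw [← Equiv.Perm.lcm_cycleType]
  exact Multiset.lcm_dvd.2 h

end Cfsg.Agent.Lib.Helper13.SC
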