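import Mathlib
import Cfsg.Agent.Lib.Helper13.SCDefs

/-!
# Project SC (S4560), piece Deg (placeholder; project of helper13)

The values at `1` are positive integers.
-/

set_option autoImplicit false

namespace Cfsg.Agent.Lib.Helper13.SC

open Cfsg MulAction
open Cfsg.Agent.Lib.Helper17 (permChar)

universe u v w

variable {G : Type u} [Group G] {Ω : Type v} [Fintype Ω] [DecidableEq Ω] [MulAction G Ω]

theorem scdeg_permChar_one (G : Type u) [Group G] (X : Type w) [MulAction G X] :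
    permChar G X 1 = (Nat.card X : ℂ) := by
  unfold permChar
  rw [MulAction.fixedBy_one_eq_univ, Nat.card_univ]

theorem scdeg_four_le (hfour : Four Ω) : 4 ≤ Fintype.card Ω := by
  obtain ⟨p0, p1, p2, p3, h01, h02, h03, h12, h13, h23⟩ := hfour
  have h4 : ({p0, p1, p2, p3} : Finset Ω).card = 4 := by
    rw [Finset.card_insert_of_notMem, Finset.card_insert_of_notMem,
      Finset.card_insert_of_notMem, Finset.card_singleton]
    · simp [h23]
    · simp [h12, h13]
    · simp [h01, h02, h03]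
  calc 4 = ({p0, p1, p2, p3} : Finset Ω).card := h4.symm
    _ ≤ Fintype.card Ω := Finset.card_le_univ _

theorem scdeg_card_UP : Nat.card (UP Ω) = (Fintype.card Ω).choose 2 := by
  have h1 : Nat.card (UP Ω) = Nat.card {z : Sym2 Ω // ¬ z.IsDiag} := rfl
  rw [h1, Nat.card_eq_fintype_card]
  exact Sym2.card_subtype_not_diag

theorem scdeg_card_OP : Nat.card (OP Ω) = Fintype.card Ω * (Fintype.card Ω - 1) := by
  have h1 : Nat.card (OP Ω) = Nat.card {p : Ω × Ω // p.1 ≠ p.2} := rfl
  rw [h1, Nat.card_eq_fintype_card,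
    Fintype.card_of_subtype ((Finset.univ : Finset Ω).offDiag)
      (by intro x; simp [Finset.mem_offDiag]),
    Finset.offDiag_card, Finset.card_univ, Nat.mul_sub_one]

theorem scdeg_choose_gt {n : ℕ} (hn : 4 ≤ n) : n < n.choose 2 := by
  rw [Nat.choose_two_right]
  have h1 : (n + 1) * 2 ≤ n * (n - 1) := by
    have h3 : 3 ≤ n - 1 := by omega
    calc (n + 1) * 2 ≤ n * 3 := by omega
      _ ≤ n * (n - 1) := Nat.mul_le_mul_left n h3
  have h2 := (Nat.le_div_iff_mul_le (by norm_num : 0 < 2)).mpr h1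
  omega

theorem deg1 (hfour : Four Ω) : ∃ k : ℕ, 0 < k ∧ chi1 G Ω 1 = (k : ℂ) := by
  have h4 := scdeg_four_le hfour
  refine ⟨Fintype.card Ω - 1, by omega, ?_⟩
  show permChar G Ω 1 - 1 = _
  rw [scdeg_permChar_one, Nat.card_eq_fintype_card, Nat.cast_sub (by omega)]
  simp

theorem deg2 (hfour : Four Ω) : ∃ k : ℕ, 0 < k ∧ chi2 G Ω 1 = (k : ℂ) := by
  have h4 := scdeg_four_le hfour
  have hgt := scdeg_choose_gt h4
  refine ⟨(Fintype.card Ω).choose 2 - Fintype.card Ω, by omega, ?_⟩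
  show permChar G (UP Ω) 1 - permChar G Ω 1 = _
  rw [scdeg_permChar_one, scdeg_permChar_one, scdeg_card_UP, Nat.card_eq_fintype_card,
    Nat.cast_sub hgt.le]

theorem deg3 (hfour : Four Ω) : ∃ k : ℕ, 0 < k ∧ chi3 G Ω 1 = (k : ℂ) := by
  have h4 := scdeg_four_le hfour
  have hgt := scdeg_choose_gt h4
  refine ⟨(Fintype.card Ω).choose 2 - Fintype.card Ω + 1, by omega, ?_⟩
  show permChar G (OP Ω) 1 - permChar G (UP Ω) 1 - permChar G Ω 1 + 1 = _
  rw [scdeg_permChar_one, scdeg_permChar_one, scdeg_permChar_one, scdeg_card_UP, scdeg_card_OP,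
    Nat.card_eq_fintype_card]
  have h2 : Fintype.card Ω * (Fintype.card Ω - 1) = 2 * (Fintype.card Ω).choose 2 := by
    rw [Nat.choose_two_right, Nat.mul_div_cancel' (Nat.even_mul_pred_self _).two_dvd]
  rw [h2, Nat.cast_add, Nat.cast_sub hgt.le]
  push_cast
  ring

end Cfsg.Agent.Lib.Helper13.SC
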