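import Mathlib
import Cfsg.Agent.Lib.Helper13.SCDefs
import Cfsg.Agent.Lib.Helper13.SCCyc

/-!
# Project SC (S4560), piece El2 (project of helper13; delivered by helper68)

Even permutations of 2-power order with prescribed fixed-point structure.
-/

set_option autoImplicit false

namespace Cfsg.Agent.Lib.Helper13.SC

open Cfsg MulAction
open Cfsg.Agent.Lib.Helper17 (permChar)

universe u v w

/-- an even permutation of `Fin n` with `a` cycles of length 2, `b` of length 4 and `c` of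
length 8 -/
theorem scel2_core (n a b c : ℕ) (hsum : 2 * a + 4 * b + 8 * c ≤ n) (hev : Even (a + b + c)) :
    ∃ x : alternatingGroup (Fin n), (∃ j : ℕ, orderOf x = 2 ^ j) ∧
      (x : Equiv.Perm (Fin n)).cycleType.sum = 2 * a + 4 * b + 8 * c ∧
      (a = 0 → 2 ∉ (x : Equiv.Perm (Fin n)).cycleType) := by
  obtain ⟨m, hm⟩ : ∃ m : Multiset ℕ,
      m = Multiset.replicate a 2 + Multiset.replicate b 4 + Multiset.replicate c 8 := ⟨_, rfl⟩
  have hmem : ∀ k ∈ m, k = 2 ∧ a ≠ 0 ∨ k = 4 ∨ k = 8 := by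
    intro k hk
    rw [hm, Multiset.mem_add, Multiset.mem_add] at hk
    rcases hk with (hk | hk) | hk
    · have h1 := Multiset.eq_of_mem_replicate hk
      refine Or.inl ⟨h1, ?_⟩
      rintro rfl
      simp at hk
    · exact Or.inr (Or.inl (Multiset.eq_of_mem_replicate hk))
    · exact Or.inr (Or.inr (Multiset.eq_of_mem_replicate hk))
  have hmsum : m.sum = 2 * a + 4 * b + 8 * c := by
    rw [hm, Multiset.sum_add, Multiset.sum_add, Multiset.sum_replicate, Multiset.sum_replicate,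
      Multiset.sum_replicate]
    simp only [smul_eq_mul]
    ring
  have hmcard : Multiset.card m = a + b + c := by
    rw [hm, Multiset.card_add, Multiset.card_add, Multiset.card_replicate,
      Multiset.card_replicate, Multiset.card_replicate]
  have h2le : ∀ k ∈ m, 2 ≤ k := by
    intro k hk
    rcases hmem k hk with ⟨h, -⟩ | h | h <;> omega
  obtain ⟨σ, hσ⟩ := (Equiv.Perm.exists_with_cycleType_iff (Fin n)).2
    ⟨by rw [hmsum, Fintype.card_fin]; exact hsum, h2le⟩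
  have hsign : Equiv.Perm.sign σ = 1 := by
    apply cyc_sign
    rw [hσ, hmsum, hmcard]
    have h1 : 2 * a + 4 * b + 8 * c + (a + b + c) = 2 * (a + 2 * b + 4 * c) + (a + b + c) := by
      ring
    rw [h1]
    exact Even.add (even_two_mul _) hev
  have hpow : σ ^ 8 = 1 := by
    apply cyc_pow
    intro k hk
    rw [hσ] at hk
    rcases hmem k hk with ⟨h, -⟩ | h | h <;> rw [h] <;> decide
  refine ⟨⟨σ, Equiv.Perm.mem_alternatingGroup.2 hsign⟩, ?_, ?_, ?_⟩
  · have h1 : orderOf (⟨σ, Equiv.Perm.mem_alternatingGroup.2 hsign⟩ : alternatingGroup (Fin n))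
        = orderOf σ := (Subgroup.orderOf_coe _).symm
    rw [h1]
    have h2 : orderOf σ ∣ 2 ^ 3 := orderOf_dvd_of_pow_eq_one hpow
    obtain ⟨j, -, hj⟩ := (Nat.dvd_prime_pow Nat.prime_two).1 h2
    exact ⟨j, hj⟩
  · show σ.cycleType.sum = _
    rw [hσ, hmsum]
  · intro ha
    show 2 ∉ σ.cycleType
    rw [hσ]
    intro h2
    rcases hmem 2 h2 with ⟨-, h⟩ | h | h
    · exact h ha
    · omega
    · omega

theorem scel2_P1 (n : ℕ) (x : alternatingGroup (Fin n))
    (h : P1 (Fin n) (x : Equiv.Perm (Fin n))) : P1 (Fin n) x := h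

theorem scel2_P2 (n : ℕ) (x : alternatingGroup (Fin n))
    (h : P2 (Fin n) (x : Equiv.Perm (Fin n))) : P2 (Fin n) x := h

theorem scel2_P3 (n : ℕ) (x : alternatingGroup (Fin n))
    (h : P3 (Fin n) (x : Equiv.Perm (Fin n))) : P3 (Fin n) x := h

theorem el2_odd (n : ℕ) (hn : 7 ≤ n) (h : n % 2 = 1) :
    ∃ x : alternatingGroup (Fin n), (∃ j : ℕ, orderOf x = 2 ^ j) ∧ P1 (Fin n) x := by
  by_cases h4 : n % 4 = 1
  · obtain ⟨x, hx, hs, -⟩ := scel2_core n 0 ((n - 1) / 4 - 2 * (((n - 1) / 4) % 2))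
      (((n - 1) / 4) % 2) (by omega) (by rw [Nat.even_iff]; omega)
    refine ⟨x, hx, scel2_P1 n x (cyc_P1 _ ?_)⟩
    rw [hs, Fintype.card_fin]
    omega
  · obtain ⟨x, hx, hs, -⟩ := scel2_core n 1 ((n - 3) / 4 - 2 * (((n - 3) / 4 + 1) % 2))
      (((n - 3) / 4 + 1) % 2) (by omega) (by rw [Nat.even_iff]; omega)
    refine ⟨x, hx, scel2_P1 n x (cyc_P1 _ ?_)⟩
    rw [hs, Fintype.card_fin]
    omega

theorem el2_zero (n : ℕ) (hn : 7 ≤ n) (h : n % 4 = 0) :
    ∃ x : alternatingGroup (Fin n), (∃ j : ℕ, orderOf x = 2 ^ j) ∧ P2 (Fin n) x := by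
  obtain ⟨x, hx, hs, h2⟩ := scel2_core n 0 (n / 4 - 2 * ((n / 4) % 2))
    ((n / 4) % 2) (by omega) (by rw [Nat.even_iff]; omega)
  refine ⟨x, hx, scel2_P2 n x (cyc_P2 _ ?_ (h2 rfl))⟩
  rw [hs, Fintype.card_fin]
  omega

theorem el2_two (n : ℕ) (hn : 7 ≤ n) (h : n % 4 = 2) :
    ∃ x : alternatingGroup (Fin n), (∃ j : ℕ, orderOf x = 2 ^ j) ∧ P3 (Fin n) x := by
  obtain ⟨x, hx, hs, h2⟩ := scel2_core n 0 ((n - 2) / 4 - 2 * (((n - 2) / 4) % 2))
    (((n - 2) / 4) % 2) (by omega) (by rw [Nat.even_iff]; omega)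
  refine ⟨x, hx, scel2_P3 n x (cyc_P3 _ ?_ (h2 rfl))⟩
  rw [hs, Fintype.card_fin]
  omega

end Cfsg.Agent.Lib.Helper13.SC
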