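import Mathlib
import Cfsg.Agent.Lib.Helper13.SCDefs
import Cfsg.Agent.Lib.Helper13.SCCyc

/-!
# Project SC (S4560), piece El3 (project of helper13; filled by helper17)

Elements of order 3 of the alternating group with prescribed fixed-point structure.
-/

set_option autoImplicit false

namespace Cfsg.Agent.Lib.Helper13.SC

open Cfsg MulAction
open Cfsg.Agent.Lib.Helper17 (permChar)

universe u v w

theorem scel3_exists (n : ℕ) :
    ∃ σ : Equiv.Perm (Fin n), σ.cycleType = Multiset.replicate (n / 3) 3 := by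
  rw [Equiv.Perm.exists_with_cycleType_iff]
  refine ⟨?_, ?_⟩
  · simp only [Multiset.sum_replicate, smul_eq_mul, Fintype.card_fin]
    omega
  · intro a ha
    rw [Multiset.eq_of_mem_replicate ha]
    norm_num

theorem scel3_alt (n : ℕ) (hn : 7 ≤ n) (σ : Equiv.Perm (Fin n))
    (hσ : σ.cycleType = Multiset.replicate (n / 3) 3) :
    σ ∈ alternatingGroup (Fin n) ∧ orderOf σ = 3 := by
  constructor
  · rw [Equiv.Perm.mem_alternatingGroup]
    apply cyc_sign
    rw [hσ]
    simp only [Multiset.sum_replicate, smul_eq_mul, Multiset.card_replicate]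
    refine ⟨2 * (n / 3), ?_⟩
    omega
  · have h3 : σ ^ 3 = 1 := cyc_pow σ 3 (by
      intro k hk
      rw [hσ] at hk
      rw [Multiset.eq_of_mem_replicate hk])
    have hne : σ ≠ 1 := by
      intro h1
      rw [h1, Equiv.Perm.cycleType_one] at hσ
      have h0 : n / 3 = 0 := by
        have := congrArg Multiset.card hσ
        simpa using this.symm
      omega
    have : Fact (Nat.Prime 3) := ⟨by norm_num⟩
    exact orderOf_eq_prime h3 hne

theorem scel3_two_notMem (n : ℕ) (σ : Equiv.Perm (Fin n))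
    (hσ : σ.cycleType = Multiset.replicate (n / 3) 3) : 2 ∉ σ.cycleType := by
  intro h2
  rw [hσ] at h2
  have := Multiset.eq_of_mem_replicate h2
  omega

theorem el3_one (n : ℕ) (hn : 7 ≤ n) (h : n % 3 = 1) :
    ∃ y : alternatingGroup (Fin n), orderOf y = 3 ∧ P1 (Fin n) y := by
  obtain ⟨σ, hσ⟩ := scel3_exists n
  obtain ⟨hmem, hord⟩ := scel3_alt n hn σ hσ
  refine ⟨⟨σ, hmem⟩, ?_, ?_⟩
  · rw [← hord]
    exact Subgroup.orderOf_mk σ hmem
  · have h1 : P1 (Fin n) σ := cyc_P1 σ (by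
      rw [hσ]
      simp only [Multiset.sum_replicate, smul_eq_mul, Fintype.card_fin]
      omega)
    exact h1

theorem el3_zero (n : ℕ) (hn : 7 ≤ n) (h : n % 3 = 0) :
    ∃ y : alternatingGroup (Fin n), orderOf y = 3 ∧ P2 (Fin n) y := by
  obtain ⟨σ, hσ⟩ := scel3_exists n
  obtain ⟨hmem, hord⟩ := scel3_alt n hn σ hσ
  refine ⟨⟨σ, hmem⟩, ?_, ?_⟩
  · rw [← hord]
    exact Subgroup.orderOf_mk σ hmem
  · have h1 : P2 (Fin n) σ := cyc_P2 σ (by
      rw [hσ]
      simp only [Multiset.sum_replicate, smul_eq_mul, Fintype.card_fin]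
      omega) (scel3_two_notMem n σ hσ)
    exact h1

theorem el3_two (n : ℕ) (hn : 7 ≤ n) (h : n % 3 = 2) :
    ∃ y : alternatingGroup (Fin n), orderOf y = 3 ∧ P3 (Fin n) y := by
  obtain ⟨σ, hσ⟩ := scel3_exists n
  obtain ⟨hmem, hord⟩ := scel3_alt n hn σ hσ
  refine ⟨⟨σ, hmem⟩, ?_, ?_⟩
  · rw [← hord]
    exact Subgroup.orderOf_mk σ hmem
  · have h1 : P3 (Fin n) σ := cyc_P3 σ (by
      rw [hσ]
      simp only [Multiset.sum_replicate, smul_eq_mul, Fintype.card_fin]
      omega) (scel3_two_notMem n σ hσ)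
    exact h1

end Cfsg.Agent.Lib.Helper13.SC
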