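import Mathlib
import Cfsg.Agent.Lib.Helper13.SCDefs

/-!
# Project SC (S4560), piece Fix (placeholder; project of helper13)

Vanishing of `chi1`, `chi2` at elements with prescribed fixed-point structure.
-/

set_option autoImplicit false

namespace Cfsg.Agent.Lib.Helper13.SC

open Cfsg MulAction
open Cfsg.Agent.Lib.Helper17 (permChar)

universe u v w

variable {G : Type u} [Group G] {Ω : Type v} [Fintype Ω] [DecidableEq Ω] [MulAction G Ω]

theorem fix1 (g : G) (h : P1 Ω g) : chi1 G Ω g = 0 := by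
  obtain ⟨a, ha, hb⟩ := h
  have hset : MulAction.fixedBy Ω g = {a} := by
    ext b
    rw [MulAction.mem_fixedBy, Set.mem_singleton_iff]
    exact ⟨hb b, fun e => by rw [e]; exact ha⟩
  show permChar G Ω g - 1 = 0
  unfold permChar
  rw [hset, Nat.card_coe_set_eq, Set.ncard_singleton]
  simp

theorem fix2 (g : G) (h : P2 Ω g) : chi2 G Ω g = 0 := by
  obtain ⟨h1, h2⟩ := h
  have hset : MulAction.fixedBy Ω g = ∅ := by
    ext b
    rw [MulAction.mem_fixedBy]
    simp only [Set.mem_empty_iff_false, iff_false]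
    exact h1 b
  have hset2 : MulAction.fixedBy (UP Ω) g = ∅ := by
    ext z
    rw [MulAction.mem_fixedBy]
    simp only [Set.mem_empty_iff_false, iff_false]
    obtain ⟨a, b, hab, rfl⟩ := UP.exists_mk z
    rw [UP.smul_mk, UP.mk_eq_mk_iff]
    rintro (⟨e1, _⟩ | ⟨e1, e2⟩)
    · exact h1 a e1
    · apply h2 a
      rw [e1, e2]
  show permChar G (UP Ω) g - permChar G Ω g = 0
  unfold permChar
  rw [hset, hset2, Nat.card_coe_set_eq, Nat.card_coe_set_eq, Set.ncard_empty, Set.ncard_empty]
  simp

end Cfsg.Agent.Lib.Helper13.SC
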