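import Mathlib
import Cfsg.Agent.Lib.Helper13.SCDefs

/-!
# Project SC (S4560), piece Fix3 (project of helper13; filled by helper14)

Vanishing of `chi3` at elements with exactly two fixed points and no 2-cycle.
-/

set_option autoImplicit false

namespace Cfsg.Agent.Lib.Helper13.SC

open Cfsg MulAction
open Cfsg.Agent.Lib.Helper17 (permChar)

universe u v w

variable {G : Type u} [Group G] {Ω : Type v} [Fintype Ω] [DecidableEq Ω] [MulAction G Ω]

omit [Fintype Ω] [DecidableEq Ω] in
theorem scfix3_pts (g : G) (u v : Ω) (huv : u ≠ v) (hu : g • u = u) (hv : g • v = v)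
    (hfix : ∀ a : Ω, g • a = a → a = u ∨ a = v) :
    Nat.card (MulAction.fixedBy Ω g) = 2 := by
  have e : MulAction.fixedBy Ω g = ({u, v} : Set Ω) := by
    ext a
    simp only [MulAction.mem_fixedBy, Set.mem_insert_iff, Set.mem_singleton_iff]
    constructor
    · exact hfix a
    · rintro (rfl | rfl)
      · exact hu
      · exact hv
  rw [e, Nat.card_coe_set_eq, Set.ncard_pair huv]

omit [Fintype Ω] [DecidableEq Ω] in
theorem scfix3_up (g : G) (u v : Ω) (huv : u ≠ v) (hu : g • u = u) (hv : g • v = v)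
    (hfix : ∀ a : Ω, g • a = a → a = u ∨ a = v)
    (h2 : ∀ a : Ω, g • a ≠ a → g • (g • a) ≠ a) :
    Nat.card (MulAction.fixedBy (UP Ω) g) = 1 := by
  have e : MulAction.fixedBy (UP Ω) g = ({UP.mk u v huv} : Set (UP Ω)) := by
    ext z
    obtain ⟨a, b, hab, rfl⟩ := UP.exists_mk z
    simp only [MulAction.mem_fixedBy, Set.mem_singleton_iff]
    rw [UP.smul_mk, UP.mk_eq_mk_iff, UP.mk_eq_mk_iff]
    constructor
    · rintro (⟨ha, hb⟩ | ⟨ha, hb⟩)
      · rcases hfix a ha with rfl | rfl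
        · rcases hfix b hb with rfl | rfl
          · exact absurd rfl hab
          · exact Or.inl ⟨rfl, rfl⟩
        · rcases hfix b hb with rfl | rfl
          · exact Or.inr ⟨rfl, rfl⟩
          · exact absurd rfl hab
      · exfalso
        have h1 : g • a ≠ a := fun h => hab (h.symm.trans ha)
        exact h2 a h1 (by rw [ha, hb])
    · rintro (⟨rfl, rfl⟩ | ⟨rfl, rfl⟩)
      · exact Or.inl ⟨hu, hv⟩
      · exact Or.inl ⟨hv, hu⟩
  rw [e, Nat.card_coe_set_eq, Set.ncard_singleton]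

omit [Fintype Ω] [DecidableEq Ω] in
theorem scfix3_op (g : G) (u v : Ω) (huv : u ≠ v) (hu : g • u = u) (hv : g • v = v)
    (hfix : ∀ a : Ω, g • a = a → a = u ∨ a = v) :
    Nat.card (MulAction.fixedBy (OP Ω) g) = 2 := by
  have e : MulAction.fixedBy (OP Ω) g =
      ({OP.mk u v huv, OP.mk v u huv.symm} : Set (OP Ω)) := by
    ext z
    obtain ⟨a, b, hab, rfl⟩ := OP.exists_mk z
    simp only [MulAction.mem_fixedBy, Set.mem_insert_iff, Set.mem_singleton_iff]
    rw [OP.smul_mk, OP.mk_eq_mk_iff, OP.mk_eq_mk_iff, OP.mk_eq_mk_iff]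
    constructor
    · rintro ⟨ha, hb⟩
      rcases hfix a ha with rfl | rfl
      · rcases hfix b hb with rfl | rfl
        · exact absurd rfl hab
        · exact Or.inl ⟨rfl, rfl⟩
      · rcases hfix b hb with rfl | rfl
        · exact Or.inr ⟨rfl, rfl⟩
        · exact absurd rfl hab
    · rintro (⟨rfl, rfl⟩ | ⟨rfl, rfl⟩)
      · exact ⟨hu, hv⟩
      · exact ⟨hv, hu⟩
  have hne : OP.mk u v huv ≠ OP.mk v u huv.symm := by
    intro h
    exact huv ((OP.mk_eq_mk_iff huv huv.symm).1 h).1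
  rw [e, Nat.card_coe_set_eq, Set.ncard_pair hne]

theorem fix3 (g : G) (h : P3 Ω g) : chi3 G Ω g = 0 := by
  obtain ⟨u, v, huv, hu, hv, hfix, h2⟩ := h
  have e1 := scfix3_pts g u v huv hu hv hfix
  have e2 := scfix3_up g u v huv hu hv hfix h2
  have e3 := scfix3_op g u v huv hu hv hfix
  show permChar G (OP Ω) g - permChar G (UP Ω) g - permChar G Ω g + 1 = 0
  unfold permChar
  rw [e1, e2, e3]
  norm_num

end Cfsg.Agent.Lib.Helper13.SC
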