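import Mathlib
import Cfsg.Agent.Lib.Helper13.SCDefs
import Cfsg.Agent.Lib.Helper4.BrSuz

/-!
# Project SC (S4560), piece Gen (placeholder; project of helper13)

Permutation characters are characters; the three functions are generalized characters.
-/

set_option autoImplicit false

namespace Cfsg.Agent.Lib.Helper13.SC

open Cfsg MulAction
open Cfsg.Agent.Lib.Helper17 (permChar)

universe u v w

/-- A permutation character is a character. -/
theorem isCharacter_permChar {G : Type u} [Group G] {X : Type v} [Fintype X] [DecidableEq X]
    [MulAction G X] : IsCharacter G (permChar G X) := by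
  have h := Cfsg.Agent.Lib.Helper4.isCharacter_of_rep (Representation.ofMulAction ℂ G X)
  convert h using 1
  funext g
  rw [Cfsg.Agent.Lib.Helper4.char_ofMulAction]
  unfold permChar
  congr 1
  rw [Nat.card_coe_set_eq, ← Set.ncard_coe_finset]
  congr 1
  ext x
  simp [MulAction.mem_fixedBy]

/-- the constant function `1` is a character -/
theorem scgen_one {G : Type u} [Group G] : IsCharacter G (fun _ : G => (1 : ℂ)) := by
  letI act : MulAction G PUnit.{1} :=
    { smul := fun _ x => x
      one_smul := fun _ => rfl
      mul_smul := fun _ _ _ => rfl }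
  have h := isCharacter_permChar (G := G) (X := PUnit.{1})
  convert h using 1
  funext g
  unfold permChar
  have : Nat.card (MulAction.fixedBy PUnit.{1} g) = 1 := by
    rw [Nat.card_eq_one_iff_unique]
    exact ⟨⟨fun a b => Subtype.ext rfl⟩, ⟨⟨PUnit.unit, rfl⟩⟩⟩
  rw [this]
  simp

variable {G : Type u} [Group G] {Ω : Type v} [Fintype Ω] [DecidableEq Ω] [MulAction G Ω]

theorem gen1 : IsGeneralizedCharacter G (chi1 G Ω) := by
  exact ⟨permChar G Ω, fun _ => 1, isCharacter_permChar, scgen_one, rfl⟩

theorem gen2 : IsGeneralizedCharacter G (chi2 G Ω) := by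
  classical
  exact ⟨permChar G (UP Ω), permChar G Ω, isCharacter_permChar, isCharacter_permChar, rfl⟩

theorem gen3 : IsGeneralizedCharacter G (chi3 G Ω) := by
  classical
  refine ⟨permChar G (OP Ω) + (fun _ => 1), permChar G (UP Ω) + permChar G Ω,
    Cfsg.Agent.Lib.Helper4.isCharacter_add _ _ isCharacter_permChar scgen_one,
    Cfsg.Agent.Lib.Helper4.isCharacter_add _ _ isCharacter_permChar isCharacter_permChar, ?_⟩
  funext g
  simp only [chi3, Pi.add_apply, Pi.sub_apply]
  ring

end Cfsg.Agent.Lib.Helper13.SC
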