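import Mathlib
import Cfsg.Agent.Lib.Helper13.SCDefs
import Cfsg.Agent.Lib.Helper13.SCBurn

/-!
# Project SC (S4560), piece Norm (helper1 for helper13)

The functions `chi1`, `chi2` have norm one, given the orbit numbers.
-/

set_option autoImplicit false

namespace Cfsg.Agent.Lib.Helper13.SC

open Cfsg MulAction
open Cfsg.Agent.Lib.Helper17 (permChar)

universe u v w

/-- permutation characters are real -/
theorem scnorm_conj (G : Type u) [Group G] (X : Type v) [MulAction G X] (g : G) :
    (starRingEnd ℂ) (permChar G X g) = permChar G X g := by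
  show (starRingEnd ℂ) ((Nat.card (MulAction.fixedBy X g) : ℂ)) = _
  rw [map_natCast]
  rfl

variable {G : Type u} [Group G] [Fintype G] {Ω : Type v} [Fintype Ω] [DecidableEq Ω]
  [MulAction G Ω]

theorem norm1 (h1 : Nat.card (MulAction.orbitRel.Quotient G Ω) = 1)
    (h11 : Nat.card (MulAction.orbitRel.Quotient G (Ω × Ω)) = 2) :
    classInner (chi1 G Ω) (chi1 G Ω) = 1 := by
  have hG : (Nat.card G : ℂ) ≠ 0 := by
    exact_mod_cast (Nat.card_pos (α := G)).ne'
  have hb1 := burn1 (G := G) (X := Ω)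
  have hb2 := burn2 (G := G) (X := Ω) (Y := Ω)
  rw [h1] at hb1
  rw [h11] at hb2
  rw [classInner]
  have hsum : ∑ g : G, chi1 G Ω g * (starRingEnd ℂ) (chi1 G Ω g) = (Nat.card G : ℂ) := by
    have hpt : ∀ g : G, chi1 G Ω g * (starRingEnd ℂ) (chi1 G Ω g) =
        permChar G Ω g * permChar G Ω g - 2 * permChar G Ω g + 1 := by
      intro g
      simp only [chi1, map_sub, map_one, scnorm_conj]
      ring
    rw [Finset.sum_congr rfl (fun g _ => hpt g), Finset.sum_add_distrib, Finset.sum_sub_distrib,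
      ← Finset.mul_sum, hb1, hb2]
    simp only [Finset.sum_const, Finset.card_univ, nsmul_eq_mul, mul_one]
    rw [← Nat.card_eq_fintype_card]
    push_cast
    ring
  rw [hsum, inv_mul_cancel₀ hG]

theorem norm2 (h11 : Nat.card (MulAction.orbitRel.Quotient G (Ω × Ω)) = 2)
    (h21 : Nat.card (MulAction.orbitRel.Quotient G (UP Ω × Ω)) = 2)
    (h22 : Nat.card (MulAction.orbitRel.Quotient G (UP Ω × UP Ω)) = 3) :
    classInner (chi2 G Ω) (chi2 G Ω) = 1 := by
  have hG : (Nat.card G : ℂ) ≠ 0 := by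
    exact_mod_cast (Nat.card_pos (α := G)).ne'
  have hb11 := burn2 (G := G) (X := Ω) (Y := Ω)
  have hb21 := burn2 (G := G) (X := UP Ω) (Y := Ω)
  have hb22 := burn2 (G := G) (X := UP Ω) (Y := UP Ω)
  rw [h11] at hb11
  rw [h21] at hb21
  rw [h22] at hb22
  rw [classInner]
  have hsum : ∑ g : G, chi2 G Ω g * (starRingEnd ℂ) (chi2 G Ω g) = (Nat.card G : ℂ) := by
    have hpt : ∀ g : G, chi2 G Ω g * (starRingEnd ℂ) (chi2 G Ω g) =
        permChar G (UP Ω) g * permChar G (UP Ω) g - 2 * (permChar G (UP Ω) g * permChar G Ω g)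
          + permChar G Ω g * permChar G Ω g := by
      intro g
      simp only [chi2, map_sub, scnorm_conj]
      ring
    rw [Finset.sum_congr rfl (fun g _ => hpt g), Finset.sum_add_distrib, Finset.sum_sub_distrib,
      ← Finset.mul_sum, hb11, hb21, hb22]
    push_cast
    ring
  rw [hsum, inv_mul_cancel₀ hG]

end Cfsg.Agent.Lib.Helper13.SC
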