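import Mathlib
import Cfsg.Agent.Lib.Helper13.SCDefs
import Cfsg.Agent.Lib.Helper13.SCBurn

/-!
# Project SC (S4560), piece Norm3 (placeholder; project of helper13)

The function `chi3` has norm one, given the orbit numbers.
-/

set_option autoImplicit false

namespace Cfsg.Agent.Lib.Helper13.SC

open Cfsg MulAction
open Cfsg.Agent.Lib.Helper17 (permChar)

universe u v w

variable {G : Type u} [Group G] [Fintype G] {Ω : Type v} [Fintype Ω] [DecidableEq Ω]
  [MulAction G Ω]

theorem norm3 (h1 : Nat.card (MulAction.orbitRel.Quotient G Ω) = 1)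
    (h2 : Nat.card (MulAction.orbitRel.Quotient G (UP Ω)) = 1)
    (h3 : Nat.card (MulAction.orbitRel.Quotient G (OP Ω)) = 1)
    (h11 : Nat.card (MulAction.orbitRel.Quotient G (Ω × Ω)) = 2)
    (h21 : Nat.card (MulAction.orbitRel.Quotient G (UP Ω × Ω)) = 2)
    (h22 : Nat.card (MulAction.orbitRel.Quotient G (UP Ω × UP Ω)) = 3)
    (h31 : Nat.card (MulAction.orbitRel.Quotient G (OP Ω × Ω)) = 3)
    (h32 : Nat.card (MulAction.orbitRel.Quotient G (OP Ω × UP Ω)) = 4)
    (h33 : Nat.card (MulAction.orbitRel.Quotient G (OP Ω × OP Ω)) = 7) :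
    classInner (chi3 G Ω) (chi3 G Ω) = 1 := by
  classical
  have hb1 := burn1 (G := G) (X := Ω)
  rw [h1] at hb1
  have hb2 := burn1 (G := G) (X := UP Ω)
  rw [h2] at hb2
  have hb3 := burn1 (G := G) (X := OP Ω)
  rw [h3] at hb3
  have hb11 := burn2 (G := G) (X := Ω) (Y := Ω)
  rw [h11] at hb11
  have hb21 := burn2 (G := G) (X := UP Ω) (Y := Ω)
  rw [h21] at hb21
  have hb22 := burn2 (G := G) (X := UP Ω) (Y := UP Ω)
  rw [h22] at hb22
  have hb31 := burn2 (G := G) (X := OP Ω) (Y := Ω)
  rw [h31] at hb31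
  have hb32 := burn2 (G := G) (X := OP Ω) (Y := UP Ω)
  rw [h32] at hb32
  have hb33 := burn2 (G := G) (X := OP Ω) (Y := OP Ω)
  rw [h33] at hb33
  have hN : (Nat.card G : ℂ) ≠ 0 := by
    have : Nat.card G ≠ 0 := Nat.card_pos.ne'
    exact_mod_cast this
  have hone : ∑ _g : G, (1 : ℂ) = (Nat.card G : ℂ) := by
    rw [Finset.sum_const, Finset.card_univ, nsmul_eq_mul, mul_one, Nat.card_eq_fintype_card]
  have hconj : ∀ g : G, (starRingEnd ℂ) (chi3 G Ω g) = chi3 G Ω g := by
    intro g
    simp [chi3, permChar]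
  have hexp : ∀ g : G, chi3 G Ω g * chi3 G Ω g =
      permChar G (OP Ω) g * permChar G (OP Ω) g + permChar G (UP Ω) g * permChar G (UP Ω) g
      + permChar G Ω g * permChar G Ω g + 1
      - 2 * (permChar G (OP Ω) g * permChar G (UP Ω) g)
      - 2 * (permChar G (OP Ω) g * permChar G Ω g) + 2 * permChar G (OP Ω) g
      + 2 * (permChar G (UP Ω) g * permChar G Ω g) - 2 * permChar G (UP Ω) g
      - 2 * permChar G Ω g := by
    intro g
    unfold chi3
    ring
  have hsum : ∑ g : G, chi3 G Ω g * (starRingEnd ℂ) (chi3 G Ω g) = (Nat.card G : ℂ) := by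
    calc ∑ g : G, chi3 G Ω g * (starRingEnd ℂ) (chi3 G Ω g)
        = ∑ g : G, (permChar G (OP Ω) g * permChar G (OP Ω) g
            + permChar G (UP Ω) g * permChar G (UP Ω) g
            + permChar G Ω g * permChar G Ω g + 1
            - 2 * (permChar G (OP Ω) g * permChar G (UP Ω) g)
            - 2 * (permChar G (OP Ω) g * permChar G Ω g) + 2 * permChar G (OP Ω) g
            + 2 * (permChar G (UP Ω) g * permChar G Ω g) - 2 * permChar G (UP Ω) g
            - 2 * permChar G Ω g) :=
          Finset.sum_congr rfl (fun g _ => by rw [hconj, hexp])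
      _ = (∑ g : G, permChar G (OP Ω) g * permChar G (OP Ω) g)
            + (∑ g : G, permChar G (UP Ω) g * permChar G (UP Ω) g)
            + (∑ g : G, permChar G Ω g * permChar G Ω g) + (∑ _g : G, (1 : ℂ))
            - 2 * (∑ g : G, permChar G (OP Ω) g * permChar G (UP Ω) g)
            - 2 * (∑ g : G, permChar G (OP Ω) g * permChar G Ω g)
            + 2 * (∑ g : G, permChar G (OP Ω) g)
            + 2 * (∑ g : G, permChar G (UP Ω) g * permChar G Ω g)
            - 2 * (∑ g : G, permChar G (UP Ω) g)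
            - 2 * (∑ g : G, permChar G Ω g) := by
          simp only [Finset.sum_add_distrib, Finset.sum_sub_distrib, ← Finset.mul_sum]
      _ = (Nat.card G : ℂ) := by
          rw [hb33, hb22, hb11, hone, hb32, hb31, hb3, hb21, hb2, hb1]
          push_cast
          ring
  unfold classInner
  rw [hsum, inv_mul_cancel₀ hN]

end Cfsg.Agent.Lib.Helper13.SC
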