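import Mathlib
import Cfsg.Agent.Lib.Helper13.SCDefs

/-!
# Project SC (S4560), piece Tool (project of helper13)

Counting orbits by an invariant, and 4-transitivity in explicit forms.
-/

set_option autoImplicit false

namespace Cfsg.Agent.Lib.Helper13.SC

open Cfsg MulAction
open Cfsg.Agent.Lib.Helper17 (permChar)

universe u v w

/-- Orbits are counted by a surjective invariant that separates them. -/
theorem card_orbits_of_type {G : Type u} [Group G] {X : Type v} [MulAction G X] {T : Type w}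
    [Fintype T] (ty : X → T) (hinv : ∀ (g : G) (x : X), ty (g • x) = ty x)
    (hsurj : Function.Surjective ty) (htr : ∀ x y : X, ty x = ty y → ∃ g : G, g • x = y) :
    Nat.card (MulAction.orbitRel.Quotient G X) = Fintype.card T := by
  rw [← Nat.card_eq_fintype_card]
  apply Nat.card_congr
  have hwd : ∀ a b : X, (MulAction.orbitRel G X) a b → ty a = ty b := by
    intro a b hab
    obtain ⟨g, rfl⟩ := (MulAction.orbitRel_apply.mp hab)
    exact hinv g b
  refine Equiv.ofBijective (Quotient.lift ty hwd) ⟨?_, ?_⟩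
  · intro x y
    induction x using Quotient.inductionOn with
    | _ x =>
      induction y using Quotient.inductionOn with
      | _ y =>
        intro h
        apply Quotient.sound
        obtain ⟨g, hg⟩ := htr y x (Eq.symm h)
        exact MulAction.orbitRel_apply.mpr ⟨g, hg⟩
  · intro t
    obtain ⟨x, rfl⟩ := hsurj t
    exact ⟨Quotient.mk _ x, rfl⟩

theorem sctool_emb_inj {Ω : Type v} {a b c d : Ω} (hab : a ≠ b) (hac : a ≠ c) (had : a ≠ d)
    (hbc : b ≠ c) (hbd : b ≠ d) (hcd : c ≠ d) : Function.Injective ![a, b, c, d] := by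
  intro i j h
  fin_cases i <;> fin_cases j <;>
    first
      | rfl
      | exact absurd h (by simpa using hab)
      | exact absurd h (by simpa using hac)
      | exact absurd h (by simpa using had)
      | exact absurd h (by simpa using hbc)
      | exact absurd h (by simpa using hbd)
      | exact absurd h (by simpa using hcd)
      | exact absurd h (by simpa using hab.symm)
      | exact absurd h (by simpa using hac.symm)
      | exact absurd h (by simpa using had.symm)
      | exact absurd h (by simpa using hbc.symm)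
      | exact absurd h (by simpa using hbd.symm)
      | exact absurd h (by simpa using hcd.symm)

theorem sctool_exists_ne {Ω : Type v} (hfour : Four Ω) (a b c : Ω) :
    ∃ d : Ω, d ≠ a ∧ d ≠ b ∧ d ≠ c := by
  classical
  obtain ⟨p₀, p₁, p₂, p₃, h01, h02, h03, h12, h13, h23⟩ := hfour
  have h4 : ({p₀, p₁, p₂, p₃} : Finset Ω).card = 4 := by
    rw [Finset.card_insert_of_notMem (by simp [h01, h02, h03]),
      Finset.card_insert_of_notMem (by simp [h12, h13]),
      Finset.card_insert_of_notMem (by simp [h23]), Finset.card_singleton]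
  have h3 : ({a, b, c} : Finset Ω).card ≤ 3 := Finset.card_le_three
  obtain ⟨d, hd, hd'⟩ := Finset.exists_mem_notMem_of_card_lt_card
    (by omega : ({a, b, c} : Finset Ω).card < ({p₀, p₁, p₂, p₃} : Finset Ω).card)
  refine ⟨d, ?_, ?_, ?_⟩
  · rintro rfl
    exact hd' (by simp)
  · rintro rfl
    exact hd' (by simp)
  · rintro rfl
    exact hd' (by simp)

section tr

variable {G : Type u} [Group G] {Ω : Type v} [MulAction G Ω]

theorem tr4 (h4 : IsMultiplyPretransitive G Ω 4) {a b c d a' b' c' d' : Ω}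
    (hab : a ≠ b) (hac : a ≠ c) (had : a ≠ d) (hbc : b ≠ c) (hbd : b ≠ d) (hcd : c ≠ d)
    (hab' : a' ≠ b') (hac' : a' ≠ c') (had' : a' ≠ d') (hbc' : b' ≠ c')
    (hbd' : b' ≠ d') (hcd' : c' ≠ d') :
    ∃ g : G, g • a = a' ∧ g • b = b' ∧ g • c = c' ∧ g • d = d' := by
  have : IsPretransitive G (Fin 4 ↪ Ω) := h4
  obtain ⟨g, hg⟩ := MulAction.exists_smul_eq G
    (⟨![a, b, c, d], sctool_emb_inj hab hac had hbc hbd hcd⟩ : Fin 4 ↪ Ω)
    (⟨![a', b', c', d'], sctool_emb_inj hab' hac' had' hbc' hbd' hcd'⟩ : Fin 4 ↪ Ω)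
  refine ⟨g, ?_, ?_, ?_, ?_⟩
  · have := DFunLike.congr_fun hg 0
    simpa [Function.Embedding.smul_apply] using this
  · have := DFunLike.congr_fun hg 1
    simpa [Function.Embedding.smul_apply] using this
  · have := DFunLike.congr_fun hg 2
    simpa [Function.Embedding.smul_apply] using this
  · have := DFunLike.congr_fun hg 3
    simpa [Function.Embedding.smul_apply] using this

theorem tr3 (h4 : IsMultiplyPretransitive G Ω 4) (hfour : Four Ω) {a b c a' b' c' : Ω}
    (hab : a ≠ b) (hac : a ≠ c) (hbc : b ≠ c) (hab' : a' ≠ b') (hac' : a' ≠ c')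
    (hbc' : b' ≠ c') : ∃ g : G, g • a = a' ∧ g • b = b' ∧ g • c = c' := by
  obtain ⟨d, hda, hdb, hdc⟩ := sctool_exists_ne hfour a b c
  obtain ⟨d', hda', hdb', hdc'⟩ := sctool_exists_ne hfour a' b' c'
  obtain ⟨g, h1, h2, h3, -⟩ := tr4 h4 hab hac hda.symm hbc hdb.symm hdc.symm
    hab' hac' hda'.symm hbc' hdb'.symm hdc'.symm
  exact ⟨g, h1, h2, h3⟩

theorem tr2 (h4 : IsMultiplyPretransitive G Ω 4) (hfour : Four Ω) {a b a' b' : Ω}
    (hab : a ≠ b) (hab' : a' ≠ b') : ∃ g : G, g • a = a' ∧ g • b = b' := by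
  obtain ⟨c, hca, hcb, -⟩ := sctool_exists_ne hfour a b b
  obtain ⟨c', hca', hcb', -⟩ := sctool_exists_ne hfour a' b' b'
  obtain ⟨g, h1, h2, -⟩ := tr3 h4 hfour hab hca.symm hcb.symm hab' hca'.symm hcb'.symm
  exact ⟨g, h1, h2⟩

theorem tr1 (h4 : IsMultiplyPretransitive G Ω 4) (hfour : Four Ω) (a a' : Ω) :
    ∃ g : G, g • a = a' := by
  obtain ⟨b, hba, -, -⟩ := sctool_exists_ne hfour a a a
  obtain ⟨b', hba', -, -⟩ := sctool_exists_ne hfour a' a' a'
  obtain ⟨g, h1, -⟩ := tr2 h4 hfour hba.symm hba'.symm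
  exact ⟨g, h1⟩

end tr

end Cfsg.Agent.Lib.Helper13.SC
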