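import Mathlib
import Cfsg.Agent.Lib.Helper13.SCDefs
import Cfsg.Agent.Lib.Helper13.SCTool

/-!
# Project SC (S4560), piece OrbA (project of helper13; proofs by helper58)

Transitivity on points, unordered pairs and ordered pairs.
-/

set_option autoImplicit false

namespace Cfsg.Agent.Lib.Helper13.SC

open Cfsg MulAction
open Cfsg.Agent.Lib.Helper17 (permChar)

universe u v w

variable {G : Type u} [Group G] {Ω : Type v} [MulAction G Ω]

/-- one orbit on points -/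
theorem orb_pt (h4 : IsMultiplyPretransitive G Ω 4) (hfour : Four Ω) :
    Nat.card (MulAction.orbitRel.Quotient G (Ω)) = 1 := by
  obtain ⟨p₀, p₁, p₂, p₃, h01, h02, h03, h12, h13, h23⟩ := hfour
  have h := card_orbits_of_type (G := G) (fun _ : Ω => ()) (fun _ _ => rfl)
    (fun _ => ⟨p₀, rfl⟩)
    (fun x y _ => tr1 h4 ⟨p₀, p₁, p₂, p₃, h01, h02, h03, h12, h13, h23⟩ x y)
  rw [h, Fintype.card_unit]

/-- one orbit on unordered pairs -/
theorem orb_up (h4 : IsMultiplyPretransitive G Ω 4) (hfour : Four Ω) :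
    Nat.card (MulAction.orbitRel.Quotient G (UP Ω)) = 1 := by
  obtain ⟨p₀, p₁, p₂, p₃, h01, h02, h03, h12, h13, h23⟩ := hfour
  have h := card_orbits_of_type (G := G) (fun _ : UP Ω => ()) (fun _ _ => rfl)
    (fun _ => ⟨UP.mk p₀ p₁ h01, rfl⟩)
    (fun x y _ => by
      obtain ⟨a, b, hab, rfl⟩ := UP.exists_mk x
      obtain ⟨a', b', hab', rfl⟩ := UP.exists_mk y
      obtain ⟨g, hga, hgb⟩ := tr2 h4 ⟨p₀, p₁, p₂, p₃, h01, h02, h03, h12, h13, h23⟩ hab hab'
      refine ⟨g, ?_⟩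
      rw [UP.smul_mk, UP.mk_eq_mk_iff]
      exact Or.inl ⟨hga, hgb⟩)
  rw [h, Fintype.card_unit]

/-- one orbit on ordered pairs -/
theorem orb_op (h4 : IsMultiplyPretransitive G Ω 4) (hfour : Four Ω) :
    Nat.card (MulAction.orbitRel.Quotient G (OP Ω)) = 1 := by
  obtain ⟨p₀, p₁, p₂, p₃, h01, h02, h03, h12, h13, h23⟩ := hfour
  have h := card_orbits_of_type (G := G) (fun _ : OP Ω => ()) (fun _ _ => rfl)
    (fun _ => ⟨OP.mk p₀ p₁ h01, rfl⟩)
    (fun x y _ => by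
      obtain ⟨a, b, hab, rfl⟩ := OP.exists_mk x
      obtain ⟨a', b', hab', rfl⟩ := OP.exists_mk y
      obtain ⟨g, hga, hgb⟩ := tr2 h4 ⟨p₀, p₁, p₂, p₃, h01, h02, h03, h12, h13, h23⟩ hab hab'
      refine ⟨g, ?_⟩
      rw [OP.smul_mk, OP.mk_eq_mk_iff]
      exact ⟨hga, hgb⟩)
  rw [h, Fintype.card_unit]

end Cfsg.Agent.Lib.Helper13.SC
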