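import Mathlib
import Cfsg.Agent.Lib.Helper13.SCDefs
import Cfsg.Agent.Lib.Helper13.SCTool

/-!
# Project SC (S4560), piece OrbB (placeholder; project of helper13)

Orbits on `Ω × Ω` (2: equal / distinct) and on `UP Ω × Ω` (2: point in the pair / not).
-/

set_option autoImplicit false

namespace Cfsg.Agent.Lib.Helper13.SC

open Cfsg MulAction
open Cfsg.Agent.Lib.Helper17 (permChar)

universe u v w

variable {G : Type u} [Group G] {Ω : Type v} [MulAction G Ω]

theorem scorbb_up_smul (g : G) {a b a' b' : Ω} (hab : a ≠ b) (hab' : a' ≠ b')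
    (h : (g • a = a' ∧ g • b = b') ∨ (g • a = b' ∧ g • b = a')) :
    g • UP.mk a b hab = UP.mk a' b' hab' := by
  rw [UP.smul_mk]
  exact (UP.mk_eq_mk_iff _ _).2 h

theorem scorbb_mem_mk {a b : Ω} (hab : a ≠ b) (c : Ω) :
    c ∈ (UP.mk a b hab).1 ↔ c = a ∨ c = b := Sym2.mem_iff

/-- two orbits on pairs of points -/
theorem orb_pt_pt (h4 : IsMultiplyPretransitive G Ω 4) (hfour : Four Ω) :
    Nat.card (MulAction.orbitRel.Quotient G (Ω × Ω)) = 2 := by
  classical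
  refine (card_orbits_of_type (G := G) (T := Bool) (fun x : Ω × Ω => decide (x.1 = x.2))
    ?_ ?_ ?_).trans Fintype.card_bool
  · intro g x
    rw [decide_eq_decide]
    exact smul_left_cancel_iff g
  · intro t
    obtain ⟨p₀, p₁, p₂, p₃, h01, h02, h03, h12, h13, h23⟩ := hfour
    cases t
    · exact ⟨(p₀, p₁), decide_eq_false h01⟩
    · exact ⟨(p₀, p₀), decide_eq_true rfl⟩
  · rintro ⟨a, b⟩ ⟨a', b'⟩ hty
    rw [decide_eq_decide] at hty
    by_cases hab : a = b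
    · have hab' : a' = b' := hty.1 hab
      obtain ⟨g, hg⟩ := tr1 h4 hfour a a'
      refine ⟨g, Prod.ext hg ?_⟩
      show g • b = b'
      rw [← hab, ← hab', hg]
    · have hab' : a' ≠ b' := fun h => hab (hty.2 h)
      obtain ⟨g, hg1, hg2⟩ := tr2 h4 hfour hab hab'
      exact ⟨g, Prod.ext hg1 hg2⟩

/-- two orbits on (unordered pair, point) -/
theorem orb_up_pt (h4 : IsMultiplyPretransitive G Ω 4) (hfour : Four Ω) :
    Nat.card (MulAction.orbitRel.Quotient G (UP Ω × Ω)) = 2 := by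
  classical
  refine (card_orbits_of_type (G := G) (T := Bool) (fun x : UP Ω × Ω => decide (x.2 ∈ x.1.1))
    ?_ ?_ ?_).trans Fintype.card_bool
  · intro g x
    rw [decide_eq_decide]
    show g • x.2 ∈ (g • x.1).1 ↔ x.2 ∈ x.1.1
    rw [UP_smul_val, Sym2.mem_map]
    constructor
    · rintro ⟨a, ha, hga⟩
      have h1 : a = x.2 := MulAction.injective g hga
      rwa [← h1]
    · intro h
      exact ⟨x.2, h, rfl⟩
  · intro t
    obtain ⟨p₀, p₁, p₂, p₃, h01, h02, h03, h12, h13, h23⟩ := hfour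
    cases t
    · refine ⟨(UP.mk p₀ p₁ h01, p₂), decide_eq_false ?_⟩
      show ¬ p₂ ∈ (UP.mk p₀ p₁ h01).1
      rw [scorbb_mem_mk]
      rintro (h | h)
      · exact h02 h.symm
      · exact h12 h.symm
    · refine ⟨(UP.mk p₀ p₁ h01, p₀), decide_eq_true ?_⟩
      show p₀ ∈ (UP.mk p₀ p₁ h01).1
      rw [scorbb_mem_mk]
      exact Or.inl rfl
  · rintro ⟨z, c⟩ ⟨z', c'⟩ hty
    obtain ⟨a, b, hab, rfl⟩ := UP.exists_mk z
    obtain ⟨a', b', hab', rfl⟩ := UP.exists_mk z'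
    rw [decide_eq_decide] at hty
    have hty' : (c = a ∨ c = b) ↔ (c' = a' ∨ c' = b') := by
      rw [← scorbb_mem_mk hab, ← scorbb_mem_mk hab']
      exact hty
    by_cases hc : c = a ∨ c = b
    · have hc' := hty'.1 hc
      rcases hc with h1 | h1 <;> rcases hc' with h2 | h2
      · obtain ⟨g, hg1, hg2⟩ := tr2 h4 hfour hab hab'
        refine ⟨g, Prod.ext (scorbb_up_smul g hab hab' (Or.inl ⟨hg1, hg2⟩)) ?_⟩
        show g • c = c'
        rw [h1, h2, hg1]
      · obtain ⟨g, hg1, hg2⟩ := tr2 h4 hfour hab hab'.symm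
        refine ⟨g, Prod.ext (scorbb_up_smul g hab hab' (Or.inr ⟨hg1, hg2⟩)) ?_⟩
        show g • c = c'
        rw [h1, h2, hg1]
      · obtain ⟨g, hg1, hg2⟩ := tr2 h4 hfour hab hab'.symm
        refine ⟨g, Prod.ext (scorbb_up_smul g hab hab' (Or.inr ⟨hg1, hg2⟩)) ?_⟩
        show g • c = c'
        rw [h1, h2, hg2]
      · obtain ⟨g, hg1, hg2⟩ := tr2 h4 hfour hab hab'
        refine ⟨g, Prod.ext (scorbb_up_smul g hab hab' (Or.inl ⟨hg1, hg2⟩)) ?_⟩
        show g • c = c'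
        rw [h1, h2, hg2]
    · have hc' : ¬ (c' = a' ∨ c' = b') := fun h => hc (hty'.2 h)
      push Not at hc hc'
      obtain ⟨g, hg1, hg2, hg3⟩ := tr3 h4 hfour hab (Ne.symm hc.1) (Ne.symm hc.2) hab'
        (Ne.symm hc'.1) (Ne.symm hc'.2)
      exact ⟨g, Prod.ext (scorbb_up_smul g hab hab' (Or.inl ⟨hg1, hg2⟩)) hg3⟩

end Cfsg.Agent.Lib.Helper13.SC
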