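import Mathlib
import Cfsg.Agent.Lib.Helper13.SCDefs
import Cfsg.Agent.Lib.Helper13.SCTool

/-!
# Project SC (S4560), piece OrbC (project of helper13; proved by helper84)

Orbits on `UP Ω × UP Ω`: 3 (equal / meeting in one point / disjoint).
-/

set_option autoImplicit false

namespace Cfsg.Agent.Lib.Helper13.SC

open Cfsg MulAction
open Cfsg.Agent.Lib.Helper17 (permChar)

universe u v w

variable {G : Type u} [Group G] {Ω : Type v} [MulAction G Ω]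

theorem scorbc_mem_mk {Ω : Type v} {a x y : Ω} (h : x ≠ y) :
    a ∈ (UP.mk x y h).1 ↔ a = x ∨ a = y := Sym2.mem_iff

theorem scorbc_exists_mk_of_mem {Ω : Type v} (z : UP Ω) {e : Ω} (he : e ∈ z.1) :
    ∃ (b : Ω) (h : e ≠ b), z = UP.mk e b h := by
  obtain ⟨c, hc⟩ := Sym2.mem_iff_exists.1 he
  have hne : e ≠ c := by
    intro h
    apply z.2
    rw [hc]
    exact Sym2.mk_isDiag_iff.2 h
  exact ⟨c, hne, Subtype.ext hc⟩

theorem scorbc_mem_smul (g : G) (z : UP Ω) (a : Ω) : g • a ∈ (g • z).1 ↔ a ∈ z.1 := by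
  rw [UP_smul_val, Sym2.mem_map]
  constructor
  · rintro ⟨b, hb, hba⟩
    rwa [← MulAction.injective g hba]
  · intro h
    exact ⟨a, h, rfl⟩

theorem scorbc_meet_smul (g : G) (z w : UP Ω) :
    (∃ a, a ∈ (g • z).1 ∧ a ∈ (g • w).1) ↔ (∃ a, a ∈ z.1 ∧ a ∈ w.1) := by
  constructor
  · rintro ⟨a, h1, h2⟩
    refine ⟨g⁻¹ • a, ?_, ?_⟩
    · rw [← scorbc_mem_smul g, smul_inv_smul]
      exact h1
    · rw [← scorbc_mem_smul g, smul_inv_smul]
      exact h2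
  · rintro ⟨a, h1, h2⟩
    exact ⟨g • a, (scorbc_mem_smul g z a).2 h1, (scorbc_mem_smul g w a).2 h2⟩

theorem scorbc_smul_mk_eq (g : G) {a b a' b' : Ω} (hab : a ≠ b) (hab' : a' ≠ b')
    (h1 : g • a = a') (h2 : g • b = b') : g • UP.mk a b hab = UP.mk a' b' hab' := by
  rw [UP.smul_mk]
  exact (UP.mk_eq_mk_iff _ _).2 (Or.inl ⟨h1, h2⟩)

open Classical in
/-- the type of a pair of unordered pairs: equal / meeting / disjoint -/
noncomputable def scorbc_ty {Ω : Type v} (x : UP Ω × UP Ω) : Fin 3 :=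
  if x.1 = x.2 then 0 else if ∃ a, a ∈ x.1.1 ∧ a ∈ x.2.1 then 1 else 2

theorem scorbc_ty_eq0 {Ω : Type v} {x : UP Ω × UP Ω} (h : x.1 = x.2) : scorbc_ty x = 0 := by
  unfold scorbc_ty
  rw [if_pos h]

theorem scorbc_ty_eq1 {Ω : Type v} {x : UP Ω × UP Ω} (h : x.1 ≠ x.2)
    (hm : ∃ a, a ∈ x.1.1 ∧ a ∈ x.2.1) : scorbc_ty x = 1 := by
  unfold scorbc_ty
  rw [if_neg h, if_pos hm]

theorem scorbc_ty_eq2 {Ω : Type v} {x : UP Ω × UP Ω} (h : x.1 ≠ x.2)
    (hm : ¬ ∃ a, a ∈ x.1.1 ∧ a ∈ x.2.1) : scorbc_ty x = 2 := by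
  unfold scorbc_ty
  rw [if_neg h, if_neg hm]

theorem scorbc_ty_cases {Ω : Type v} (x : UP Ω × UP Ω) :
    (x.1 = x.2 ∧ scorbc_ty x = 0) ∨
    (x.1 ≠ x.2 ∧ (∃ a, a ∈ x.1.1 ∧ a ∈ x.2.1) ∧ scorbc_ty x = 1) ∨
    (x.1 ≠ x.2 ∧ (¬ ∃ a, a ∈ x.1.1 ∧ a ∈ x.2.1) ∧ scorbc_ty x = 2) := by
  by_cases h : x.1 = x.2
  · exact Or.inl ⟨h, scorbc_ty_eq0 h⟩
  · by_cases hm : ∃ a, a ∈ x.1.1 ∧ a ∈ x.2.1
    · exact Or.inr (Or.inl ⟨h, hm, scorbc_ty_eq1 h hm⟩)
    · exact Or.inr (Or.inr ⟨h, hm, scorbc_ty_eq2 h hm⟩)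

/-- three orbits on pairs of unordered pairs -/
theorem orb_up_up (h4 : IsMultiplyPretransitive G Ω 4) (hfour : Four Ω) :
    Nat.card (MulAction.orbitRel.Quotient G (UP Ω × UP Ω)) = 3 := by
  classical
  have hinv : ∀ (g : G) (x : UP Ω × UP Ω), scorbc_ty (g • x) = scorbc_ty x := by
    intro g x
    obtain ⟨z, w⟩ := x
    show scorbc_ty (g • z, g • w) = scorbc_ty (z, w)
    by_cases h : z = w
    · rw [scorbc_ty_eq0 (x := (g • z, g • w)) (by rw [h]), scorbc_ty_eq0 (x := (z, w)) h]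
    · have h' : g • z ≠ g • w := fun e => h (MulAction.injective g e)
      by_cases hm : ∃ a, a ∈ z.1 ∧ a ∈ w.1
      · rw [scorbc_ty_eq1 (x := (g • z, g • w)) h' ((scorbc_meet_smul g z w).2 hm),
          scorbc_ty_eq1 (x := (z, w)) h hm]
      · rw [scorbc_ty_eq2 (x := (g • z, g • w)) h' (fun e => hm ((scorbc_meet_smul g z w).1 e)),
          scorbc_ty_eq2 (x := (z, w)) h hm]
  have hsurj : Function.Surjective (scorbc_ty (Ω := Ω)) := by
    obtain ⟨p0, p1, p2, p3, h01, h02, h03, h12, h13, h23⟩ := hfour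
    intro i
    fin_cases i
    · exact ⟨(UP.mk p0 p1 h01, UP.mk p0 p1 h01), scorbc_ty_eq0 rfl⟩
    · refine ⟨(UP.mk p0 p1 h01, UP.mk p0 p2 h02), scorbc_ty_eq1 ?_ ?_⟩
      · intro e
        rcases (UP.mk_eq_mk_iff h01 h02).1 e with ⟨-, e2⟩ | ⟨e1, -⟩
        · exact h12 e2
        · exact h02 e1
      · exact ⟨p0, (scorbc_mem_mk h01).2 (Or.inl rfl), (scorbc_mem_mk h02).2 (Or.inl rfl)⟩
    · refine ⟨(UP.mk p0 p1 h01, UP.mk p2 p3 h23), scorbc_ty_eq2 ?_ ?_⟩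
      · intro e
        rcases (UP.mk_eq_mk_iff h01 h23).1 e with ⟨e1, -⟩ | ⟨e1, -⟩
        · exact h02 e1
        · exact h03 e1
      · rintro ⟨a, ha1, ha2⟩
        rcases (scorbc_mem_mk h01).1 ha1 with rfl | rfl <;>
          rcases (scorbc_mem_mk h23).1 ha2 with e | e
        · exact h02 e
        · exact h03 e
        · exact h12 e
        · exact h13 e
  have htr : ∀ x y : UP Ω × UP Ω, scorbc_ty x = scorbc_ty y → ∃ g : G, g • x = y := by
    intro x y hxy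
    rcases scorbc_ty_cases x with ⟨hx, tx⟩ | ⟨hx, mx, tx⟩ | ⟨hx, mx, tx⟩ <;>
      rcases scorbc_ty_cases y with ⟨hy, t_y⟩ | ⟨hy, my, t_y⟩ | ⟨hy, my, t_y⟩ <;>
      rw [tx, t_y] at hxy
    · obtain ⟨z, w⟩ := x
      obtain ⟨z', w'⟩ := y
      simp only at hx hy
      subst hx
      subst hy
      obtain ⟨a, b, hab, rfl⟩ := UP.exists_mk z
      obtain ⟨a', b', hab', rfl⟩ := UP.exists_mk z'
      obtain ⟨g, hg1, hg2⟩ := tr2 h4 hfour hab hab'
      refine ⟨g, ?_⟩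
      show (g • UP.mk a b hab, g • UP.mk a b hab) = _
      rw [scorbc_smul_mk_eq g hab hab' hg1 hg2]
    · exact absurd hxy (by decide)
    · exact absurd hxy (by decide)
    · exact absurd hxy (by decide)
    · obtain ⟨z, w⟩ := x
      obtain ⟨z', w'⟩ := y
      simp only at hx hy mx my
      obtain ⟨e, he1, he2⟩ := mx
      obtain ⟨e', he1', he2'⟩ := my
      obtain ⟨b, heb, rfl⟩ := scorbc_exists_mk_of_mem z he1
      obtain ⟨c, hec, rfl⟩ := scorbc_exists_mk_of_mem w he2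
      obtain ⟨b', heb', rfl⟩ := scorbc_exists_mk_of_mem z' he1'
      obtain ⟨c', hec', rfl⟩ := scorbc_exists_mk_of_mem w' he2'
      have hbc : b ≠ c := by
        rintro rfl
        exact hx rfl
      have hbc' : b' ≠ c' := by
        rintro rfl
        exact hy rfl
      obtain ⟨g, hg1, hg2, hg3⟩ := tr3 h4 hfour heb hec hbc heb' hec' hbc'
      refine ⟨g, ?_⟩
      show (g • UP.mk e b heb, g • UP.mk e c hec) = _
      rw [scorbc_smul_mk_eq g heb heb' hg1 hg2, scorbc_smul_mk_eq g hec hec' hg1 hg3]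
    · exact absurd hxy (by decide)
    · exact absurd hxy (by decide)
    · exact absurd hxy (by decide)
    · obtain ⟨z, w⟩ := x
      obtain ⟨z', w'⟩ := y
      simp only at hx hy mx my
      obtain ⟨a, b, hab, rfl⟩ := UP.exists_mk z
      obtain ⟨c, d, hcd, rfl⟩ := UP.exists_mk w
      obtain ⟨a', b', hab', rfl⟩ := UP.exists_mk z'
      obtain ⟨c', d', hcd', rfl⟩ := UP.exists_mk w'
      have hac : a ≠ c := fun e => mx ⟨a, (scorbc_mem_mk hab).2 (Or.inl rfl),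
        (scorbc_mem_mk hcd).2 (Or.inl e)⟩
      have had : a ≠ d := fun e => mx ⟨a, (scorbc_mem_mk hab).2 (Or.inl rfl),
        (scorbc_mem_mk hcd).2 (Or.inr e)⟩
      have hbc : b ≠ c := fun e => mx ⟨b, (scorbc_mem_mk hab).2 (Or.inr rfl),
        (scorbc_mem_mk hcd).2 (Or.inl e)⟩
      have hbd : b ≠ d := fun e => mx ⟨b, (scorbc_mem_mk hab).2 (Or.inr rfl),
        (scorbc_mem_mk hcd).2 (Or.inr e)⟩
      have hac' : a' ≠ c' := fun e => my ⟨a', (scorbc_mem_mk hab').2 (Or.inl rfl),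
        (scorbc_mem_mk hcd').2 (Or.inl e)⟩
      have had' : a' ≠ d' := fun e => my ⟨a', (scorbc_mem_mk hab').2 (Or.inl rfl),
        (scorbc_mem_mk hcd').2 (Or.inr e)⟩
      have hbc' : b' ≠ c' := fun e => my ⟨b', (scorbc_mem_mk hab').2 (Or.inr rfl),
        (scorbc_mem_mk hcd').2 (Or.inl e)⟩
      have hbd' : b' ≠ d' := fun e => my ⟨b', (scorbc_mem_mk hab').2 (Or.inr rfl),
        (scorbc_mem_mk hcd').2 (Or.inr e)⟩
      obtain ⟨g, hg1, hg2, hg3, hg4⟩ :=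
        tr4 h4 hab hac had hbc hbd hcd hab' hac' had' hbc' hbd' hcd'
      refine ⟨g, ?_⟩
      show (g • UP.mk a b hab, g • UP.mk c d hcd) = _
      rw [scorbc_smul_mk_eq g hab hab' hg1 hg2, scorbc_smul_mk_eq g hcd hcd' hg3 hg4]
  rw [card_orbits_of_type (G := G) scorbc_ty hinv hsurj htr]
  rfl

end Cfsg.Agent.Lib.Helper13.SC
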