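import Mathlib
import Cfsg.Agent.Lib.Helper13.SCDefs
import Cfsg.Agent.Lib.Helper13.SCTool

/-!
# Project SC (S4560), piece OrbD (placeholder; project of helper13)

Orbits on `OP Ω × Ω`: 3 (point = first / point = second / neither).
-/

set_option autoImplicit false

namespace Cfsg.Agent.Lib.Helper13.SC

open Cfsg MulAction
open Cfsg.Agent.Lib.Helper17 (permChar)

universe u v w

variable {G : Type u} [Group G] {Ω : Type v} [MulAction G Ω]

/-- three orbits on (ordered pair, point) -/
theorem orb_op_pt (h4 : IsMultiplyPretransitive G Ω 4) (hfour : Four Ω) :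
    Nat.card (MulAction.orbitRel.Quotient G (OP Ω × Ω)) = 3 := by
  classical
  obtain ⟨p₀, p₁, p₂, p₃, h01, h02, h03, h12, h13, h23⟩ := hfour
  have hfour' : Four Ω := ⟨p₀, p₁, p₂, p₃, h01, h02, h03, h12, h13, h23⟩
  have key := card_orbits_of_type (G := G) (X := OP Ω × Ω) (T := Fin 3)
    (fun x => if x.2 = x.1.1.1 then (0 : Fin 3) else if x.2 = x.1.1.2 then 1 else 2) ?_ ?_ ?_
  · rw [key, Fintype.card_fin]
  · -- invariance
    rintro g ⟨p, c⟩
    obtain ⟨a, b, hab, rfl⟩ := OP.exists_mk p
    have e1 : (g • c = g • a) ↔ c = a :=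
      ⟨fun h => MulAction.injective g h, fun h => by rw [h]⟩
    have e2 : (g • c = g • b) ↔ c = b :=
      ⟨fun h => MulAction.injective g h, fun h => by rw [h]⟩
    show (if g • c = g • a then (0 : Fin 3) else if g • c = g • b then 1 else 2) =
      if c = a then (0 : Fin 3) else if c = b then 1 else 2
    simp only [e1, e2]
  · -- surjectivity
    intro t
    fin_cases t
    · refine ⟨(OP.mk p₀ p₁ h01, p₀), ?_⟩
      show (if p₀ = p₀ then (0 : Fin 3) else if p₀ = p₁ then 1 else 2) = 0
      rw [if_pos rfl]
    · refine ⟨(OP.mk p₀ p₁ h01, p₁), ?_⟩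
      show (if p₁ = p₀ then (0 : Fin 3) else if p₁ = p₁ then 1 else 2) = 1
      rw [if_neg (Ne.symm h01), if_pos rfl]
    · refine ⟨(OP.mk p₀ p₁ h01, p₂), ?_⟩
      show (if p₂ = p₀ then (0 : Fin 3) else if p₂ = p₁ then 1 else 2) = 2
      rw [if_neg (Ne.symm h02), if_neg (Ne.symm h12)]
  · -- same type implies same orbit
    rintro ⟨p, c⟩ ⟨p', c'⟩ hty
    obtain ⟨a, b, hab, rfl⟩ := OP.exists_mk p
    obtain ⟨a', b', hab', rfl⟩ := OP.exists_mk p'
    have hty' : (if c = a then (0 : Fin 3) else if c = b then 1 else 2) =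
        if c' = a' then (0 : Fin 3) else if c' = b' then 1 else 2 := hty
    by_cases hca : c = a
    · rw [if_pos hca] at hty'
      have hca' : c' = a' := by
        by_contra hne
        rw [if_neg hne] at hty'
        by_cases hcb' : c' = b'
        · rw [if_pos hcb'] at hty'
          exact absurd hty' (by decide)
        · rw [if_neg hcb'] at hty'
          exact absurd hty' (by decide)
      obtain ⟨g, hga, hgb⟩ := tr2 h4 hfour' hab hab'
      refine ⟨g, ?_⟩
      rw [hca, hca']
      show (g • OP.mk a b hab, g • a) = (OP.mk a' b' hab', a')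
      rw [OP.smul_mk]
      exact Prod.ext ((OP.mk_eq_mk_iff _ _).2 ⟨hga, hgb⟩) hga
    · rw [if_neg hca] at hty'
      by_cases hcb : c = b
      · rw [if_pos hcb] at hty'
        have hca' : c' ≠ a' := by
          intro h
          rw [if_pos h] at hty'
          exact absurd hty' (by decide)
        rw [if_neg hca'] at hty'
        have hcb' : c' = b' := by
          by_contra hne
          rw [if_neg hne] at hty'
          exact absurd hty' (by decide)
        obtain ⟨g, hga, hgb⟩ := tr2 h4 hfour' hab hab'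
        refine ⟨g, ?_⟩
        rw [hcb, hcb']
        show (g • OP.mk a b hab, g • b) = (OP.mk a' b' hab', b')
        rw [OP.smul_mk]
        exact Prod.ext ((OP.mk_eq_mk_iff _ _).2 ⟨hga, hgb⟩) hgb
      · rw [if_neg hcb] at hty'
        have hca' : c' ≠ a' := by
          intro h
          rw [if_pos h] at hty'
          exact absurd hty' (by decide)
        rw [if_neg hca'] at hty'
        have hcb' : c' ≠ b' := by
          intro h
          rw [if_pos h] at hty'
          exact absurd hty' (by decide)
        obtain ⟨g, hga, hgb, hgc⟩ := tr3 h4 hfour' hab (Ne.symm hca) (Ne.symm hcb) hab'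
          (Ne.symm hca') (Ne.symm hcb')
        refine ⟨g, ?_⟩
        show (g • OP.mk a b hab, g • c) = (OP.mk a' b' hab', c')
        rw [OP.smul_mk]
        exact Prod.ext ((OP.mk_eq_mk_iff _ _).2 ⟨hga, hgb⟩) hgc

end Cfsg.Agent.Lib.Helper13.SC
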