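import Mathlib
import Cfsg.Agent.Lib.Helper13.SCDefs
import Cfsg.Agent.Lib.Helper13.SCTool

/-!
# Project SC (S4560), piece OrbE (placeholder; project of helper13)

Orbits on `OP Ω × UP Ω`: 4 (same support / only the first in the pair / only the second / disjoint).
-/

set_option autoImplicit false

namespace Cfsg.Agent.Lib.Helper13.SC

open Cfsg MulAction
open Cfsg.Agent.Lib.Helper17 (permChar)

universe u v w

variable {G : Type u} [Group G] {Ω : Type v} [MulAction G Ω]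

/-- an unordered pair containing `a` is `{a, w}` -/
theorem scorbe_mem (z : UP Ω) (a : Ω) (ha : a ∈ z.1) :
    ∃ (w : Ω) (h : a ≠ w), z = UP.mk a w h := by
  obtain ⟨w, hw⟩ := Sym2.mem_iff_exists.mp ha
  have h : a ≠ w := by
    intro e
    apply z.2
    rw [hw, e]
    exact Sym2.mk_isDiag_iff.mpr rfl
  exact ⟨w, h, Subtype.ext hw⟩

/-- membership in `UP.mk` -/
theorem scorbe_mem_mk (a c d : Ω) (h : c ≠ d) : a ∈ (UP.mk c d h).1 ↔ a = c ∨ a = d :=
  Sym2.mem_iff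

/-- membership is invariant -/
theorem scorbe_smul_mem (g : G) (z : UP Ω) (a : Ω) : g • a ∈ (g • z).1 ↔ a ∈ z.1 := by
  rw [UP_smul_val, Sym2.mem_map]
  constructor
  · rintro ⟨b, hb, hgb⟩
    rw [← MulAction.injective g hgb]
    exact hb
  · intro h
    exact ⟨a, h, rfl⟩

/-- four orbits on (ordered pair, unordered pair) -/
theorem orb_op_up (h4 : IsMultiplyPretransitive G Ω 4) (hfour : Four Ω) :
    Nat.card (MulAction.orbitRel.Quotient G (OP Ω × UP Ω)) = 4 := by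
  classical
  obtain ⟨p₀, p₁, p₂, p₃, h01, h02, h03, h12, h13, h23⟩ := hfour
  have hfour' : Four Ω := ⟨p₀, p₁, p₂, p₃, h01, h02, h03, h12, h13, h23⟩
  have key := card_orbits_of_type (G := G) (X := OP Ω × UP Ω) (T := Bool × Bool)
    (fun x => (decide (x.1.1.1 ∈ x.2.1), decide (x.1.1.2 ∈ x.2.1))) ?_ ?_ ?_
  · rw [key]
    rfl
  · -- invariance
    rintro g ⟨p, z⟩
    obtain ⟨a, b, hab, rfl⟩ := OP.exists_mk p
    show (decide (g • a ∈ (g • z).1), decide (g • b ∈ (g • z).1)) =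
      (decide (a ∈ z.1), decide (b ∈ z.1))
    simp only [scorbe_smul_mem]
  · -- surjectivity
    rintro ⟨t₁, t₂⟩
    cases t₁ <;> cases t₂
    · refine ⟨(OP.mk p₀ p₁ h01, UP.mk p₂ p₃ h23), ?_⟩
      show (decide (p₀ ∈ (UP.mk p₂ p₃ h23).1), decide (p₁ ∈ (UP.mk p₂ p₃ h23).1)) = (false, false)
      rw [Prod.mk.injEq, decide_eq_false_iff_not, decide_eq_false_iff_not, scorbe_mem_mk,
        scorbe_mem_mk]
      exact ⟨fun h => h.elim h02 h03, fun h => h.elim h12 h13⟩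
    · refine ⟨(OP.mk p₀ p₁ h01, UP.mk p₁ p₂ h12), ?_⟩
      show (decide (p₀ ∈ (UP.mk p₁ p₂ h12).1), decide (p₁ ∈ (UP.mk p₁ p₂ h12).1)) = (false, true)
      rw [Prod.mk.injEq, decide_eq_false_iff_not, decide_eq_true_iff, scorbe_mem_mk,
        scorbe_mem_mk]
      exact ⟨fun h => h.elim h01 h02, Or.inl rfl⟩
    · refine ⟨(OP.mk p₀ p₁ h01, UP.mk p₀ p₂ h02), ?_⟩
      show (decide (p₀ ∈ (UP.mk p₀ p₂ h02).1), decide (p₁ ∈ (UP.mk p₀ p₂ h02).1)) = (true, false)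
      rw [Prod.mk.injEq, decide_eq_true_iff, decide_eq_false_iff_not, scorbe_mem_mk,
        scorbe_mem_mk]
      exact ⟨Or.inl rfl, fun h => h.elim (Ne.symm h01) h12⟩
    · refine ⟨(OP.mk p₀ p₁ h01, UP.mk p₀ p₁ h01), ?_⟩
      show (decide (p₀ ∈ (UP.mk p₀ p₁ h01).1), decide (p₁ ∈ (UP.mk p₀ p₁ h01).1)) = (true, true)
      rw [Prod.mk.injEq, decide_eq_true_iff, decide_eq_true_iff, scorbe_mem_mk, scorbe_mem_mk]
      exact ⟨Or.inl rfl, Or.inr rfl⟩
  · -- same type implies same orbit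
    rintro ⟨p, z⟩ ⟨p', z'⟩ hty
    obtain ⟨a, b, hab, rfl⟩ := OP.exists_mk p
    obtain ⟨a', b', hab', rfl⟩ := OP.exists_mk p'
    have hty' : (decide (a ∈ z.1), decide (b ∈ z.1)) = (decide (a' ∈ z'.1), decide (b' ∈ z'.1)) :=
      hty
    rw [Prod.mk.injEq, decide_eq_decide, decide_eq_decide] at hty'
    obtain ⟨hA, hB⟩ := hty'
    by_cases ha : a ∈ z.1
    · have ha' := hA.mp ha
      obtain ⟨w, haw, rfl⟩ := scorbe_mem z a ha
      obtain ⟨w', haw', rfl⟩ := scorbe_mem z' a' ha'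
      by_cases hb : b ∈ (UP.mk a w haw).1
      · have hb' := hB.mp hb
        rw [scorbe_mem_mk] at hb hb'
        have hbw : b = w := hb.resolve_left (Ne.symm hab)
        have hbw' : b' = w' := hb'.resolve_left (Ne.symm hab')
        subst hbw
        subst hbw'
        obtain ⟨g, hga, hgb⟩ := tr2 h4 hfour' hab hab'
        refine ⟨g, ?_⟩
        show (g • OP.mk a b hab, g • UP.mk a b haw) = (OP.mk a' b' hab', UP.mk a' b' haw')
        rw [OP.smul_mk, UP.smul_mk]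
        exact Prod.ext ((OP.mk_eq_mk_iff _ _).2 ⟨hga, hgb⟩)
          ((UP.mk_eq_mk_iff _ _).2 (Or.inl ⟨hga, hgb⟩))
      · have hb' : b' ∉ (UP.mk a' w' haw').1 := fun h => hb (hB.mpr h)
        rw [scorbe_mem_mk] at hb hb'
        have hbw : b ≠ w := fun h => hb (Or.inr h)
        have hbw' : b' ≠ w' := fun h => hb' (Or.inr h)
        obtain ⟨g, hga, hgb, hgw⟩ := tr3 h4 hfour' hab haw hbw hab' haw' hbw'
        refine ⟨g, ?_⟩
        show (g • OP.mk a b hab, g • UP.mk a w haw) = (OP.mk a' b' hab', UP.mk a' w' haw')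
        rw [OP.smul_mk, UP.smul_mk]
        exact Prod.ext ((OP.mk_eq_mk_iff _ _).2 ⟨hga, hgb⟩)
          ((UP.mk_eq_mk_iff _ _).2 (Or.inl ⟨hga, hgw⟩))
    · have ha' : a' ∉ z'.1 := fun h => ha (hA.mpr h)
      by_cases hb : b ∈ z.1
      · have hb' := hB.mp hb
        obtain ⟨w, hbw, rfl⟩ := scorbe_mem z b hb
        obtain ⟨w', hbw', rfl⟩ := scorbe_mem z' b' hb'
        rw [scorbe_mem_mk] at ha ha'
        have haw : a ≠ w := fun h => ha (Or.inr h)
        have haw' : a' ≠ w' := fun h => ha' (Or.inr h)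
        obtain ⟨g, hga, hgb, hgw⟩ := tr3 h4 hfour' hab haw hbw hab' haw' hbw'
        refine ⟨g, ?_⟩
        show (g • OP.mk a b hab, g • UP.mk b w hbw) = (OP.mk a' b' hab', UP.mk b' w' hbw')
        rw [OP.smul_mk, UP.smul_mk]
        exact Prod.ext ((OP.mk_eq_mk_iff _ _).2 ⟨hga, hgb⟩)
          ((UP.mk_eq_mk_iff _ _).2 (Or.inl ⟨hgb, hgw⟩))
      · have hb' : b' ∉ z'.1 := fun h => hb (hB.mpr h)
        obtain ⟨c, d, hcd, rfl⟩ := UP.exists_mk z
        obtain ⟨c', d', hcd', rfl⟩ := UP.exists_mk z'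
        rw [scorbe_mem_mk] at ha ha' hb hb'
        obtain ⟨g, hga, hgb, hgc, hgd⟩ := tr4 h4 hab (fun h => ha (Or.inl h))
          (fun h => ha (Or.inr h)) (fun h => hb (Or.inl h)) (fun h => hb (Or.inr h)) hcd hab'
          (fun h => ha' (Or.inl h)) (fun h => ha' (Or.inr h)) (fun h => hb' (Or.inl h))
          (fun h => hb' (Or.inr h)) hcd'
        refine ⟨g, ?_⟩
        show (g • OP.mk a b hab, g • UP.mk c d hcd) = (OP.mk a' b' hab', UP.mk c' d' hcd')
        rw [OP.smul_mk, UP.smul_mk]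
        exact Prod.ext ((OP.mk_eq_mk_iff _ _).2 ⟨hga, hgb⟩)
          ((UP.mk_eq_mk_iff _ _).2 (Or.inl ⟨hgc, hgd⟩))

end Cfsg.Agent.Lib.Helper13.SC
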