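import Mathlib
import Cfsg.Agent.Lib.Helper13.SCDefs
import Cfsg.Agent.Lib.Helper13.SCTool

/-!
# Project SC (S4560), piece OrbF (helper1 for helper13)

Orbits on `OP Ω × OP Ω`: 7.
-/

set_option autoImplicit false

namespace Cfsg.Agent.Lib.Helper13.SC

open Cfsg MulAction
open Cfsg.Agent.Lib.Helper17 (permChar)

universe u v w

open Classical in
/-- the type (pattern of coincidences) of a pair of ordered pairs `(a, b)`, `(c, d)` -/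
noncomputable def scorbf_ty4 {Ω : Type v} (a b c d : Ω) : Fin 7 :=
  if a = c then (if b = d then 0 else 2)
  else if a = d then (if b = c then 1 else 4)
  else if b = d then 3
  else if b = c then 5
  else 6

/-- the type of an element of `OP Ω × OP Ω` -/
noncomputable def scorbf_ty {Ω : Type v} (x : OP Ω × OP Ω) : Fin 7 :=
  scorbf_ty4 x.1.1.1 x.1.1.2 x.2.1.1 x.2.1.2

theorem scorbf_spec {Ω : Type v} (a b c d : Ω) :
    (scorbf_ty4 a b c d = 0 ∧ a = c ∧ b = d) ∨ (scorbf_ty4 a b c d = 1 ∧ a = d ∧ b = c) ∨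
    (scorbf_ty4 a b c d = 2 ∧ a = c ∧ b ≠ d) ∨ (scorbf_ty4 a b c d = 3 ∧ b = d ∧ a ≠ c) ∨
    (scorbf_ty4 a b c d = 4 ∧ a = d ∧ b ≠ c) ∨ (scorbf_ty4 a b c d = 5 ∧ b = c ∧ a ≠ d) ∨
    (scorbf_ty4 a b c d = 6 ∧ a ≠ c ∧ a ≠ d ∧ b ≠ c ∧ b ≠ d) := by
  unfold scorbf_ty4
  by_cases h1 : a = c
  · by_cases h2 : b = d
    · rw [if_pos h1, if_pos h2]
      exact Or.inl ⟨rfl, h1, h2⟩
    · rw [if_pos h1, if_neg h2]
      exact Or.inr (Or.inr (Or.inl ⟨rfl, h1, h2⟩))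
  · by_cases h3 : a = d
    · by_cases h4 : b = c
      · rw [if_neg h1, if_pos h3, if_pos h4]
        exact Or.inr (Or.inl ⟨rfl, h3, h4⟩)
      · rw [if_neg h1, if_pos h3, if_neg h4]
        exact Or.inr (Or.inr (Or.inr (Or.inr (Or.inl ⟨rfl, h3, h4⟩))))
    · by_cases h2 : b = d
      · rw [if_neg h1, if_neg h3, if_pos h2]
        exact Or.inr (Or.inr (Or.inr (Or.inl ⟨rfl, h2, h1⟩)))
      · by_cases h4 : b = c
        · rw [if_neg h1, if_neg h3, if_neg h2, if_pos h4]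
          exact Or.inr (Or.inr (Or.inr (Or.inr (Or.inr (Or.inl ⟨rfl, h4, h3⟩)))))
        · rw [if_neg h1, if_neg h3, if_neg h2, if_neg h4]
          exact Or.inr (Or.inr (Or.inr (Or.inr (Or.inr (Or.inr ⟨rfl, h1, h3, h4, h2⟩)))))

theorem scorbf_inv0 {Ω : Type v} {a b c d : Ω} (h : scorbf_ty4 a b c d = 0) : a = c ∧ b = d := by
  rcases scorbf_spec a b c d with ⟨h0, p⟩ | ⟨h0, p⟩ | ⟨h0, p⟩ | ⟨h0, p⟩ | ⟨h0, p⟩ | ⟨h0, p⟩ |
    ⟨h0, p⟩ <;>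
  first
    | exact p
    | (rw [h0] at h; exact absurd h (by decide))

theorem scorbf_inv1 {Ω : Type v} {a b c d : Ω} (h : scorbf_ty4 a b c d = 1) : a = d ∧ b = c := by
  rcases scorbf_spec a b c d with ⟨h0, p⟩ | ⟨h0, p⟩ | ⟨h0, p⟩ | ⟨h0, p⟩ | ⟨h0, p⟩ | ⟨h0, p⟩ |
    ⟨h0, p⟩ <;>
  first
    | exact p
    | (rw [h0] at h; exact absurd h (by decide))

theorem scorbf_inv2 {Ω : Type v} {a b c d : Ω} (h : scorbf_ty4 a b c d = 2) : a = c ∧ b ≠ d := by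
  rcases scorbf_spec a b c d with ⟨h0, p⟩ | ⟨h0, p⟩ | ⟨h0, p⟩ | ⟨h0, p⟩ | ⟨h0, p⟩ | ⟨h0, p⟩ |
    ⟨h0, p⟩ <;>
  first
    | exact p
    | (rw [h0] at h; exact absurd h (by decide))

theorem scorbf_inv3 {Ω : Type v} {a b c d : Ω} (h : scorbf_ty4 a b c d = 3) : b = d ∧ a ≠ c := by
  rcases scorbf_spec a b c d with ⟨h0, p⟩ | ⟨h0, p⟩ | ⟨h0, p⟩ | ⟨h0, p⟩ | ⟨h0, p⟩ | ⟨h0, p⟩ |
    ⟨h0, p⟩ <;>
  first
    | exact p
    | (rw [h0] at h; exact absurd h (by decide))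

theorem scorbf_inv4 {Ω : Type v} {a b c d : Ω} (h : scorbf_ty4 a b c d = 4) : a = d ∧ b ≠ c := by
  rcases scorbf_spec a b c d with ⟨h0, p⟩ | ⟨h0, p⟩ | ⟨h0, p⟩ | ⟨h0, p⟩ | ⟨h0, p⟩ | ⟨h0, p⟩ |
    ⟨h0, p⟩ <;>
  first
    | exact p
    | (rw [h0] at h; exact absurd h (by decide))

theorem scorbf_inv5 {Ω : Type v} {a b c d : Ω} (h : scorbf_ty4 a b c d = 5) : b = c ∧ a ≠ d := by
  rcases scorbf_spec a b c d with ⟨h0, p⟩ | ⟨h0, p⟩ | ⟨h0, p⟩ | ⟨h0, p⟩ | ⟨h0, p⟩ | ⟨h0, p⟩ |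
    ⟨h0, p⟩ <;>
  first
    | exact p
    | (rw [h0] at h; exact absurd h (by decide))

theorem scorbf_inv6 {Ω : Type v} {a b c d : Ω} (h : scorbf_ty4 a b c d = 6) :
    a ≠ c ∧ a ≠ d ∧ b ≠ c ∧ b ≠ d := by
  rcases scorbf_spec a b c d with ⟨h0, p⟩ | ⟨h0, p⟩ | ⟨h0, p⟩ | ⟨h0, p⟩ | ⟨h0, p⟩ | ⟨h0, p⟩ |
    ⟨h0, p⟩ <;>
  first
    | exact p
    | (rw [h0] at h; exact absurd h (by decide))

variable {G : Type u} [Group G] {Ω : Type v} [MulAction G Ω]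

theorem scorbf_ext (g : G) {a b c d a' b' c' d' : Ω} (hab : a ≠ b) (hcd : c ≠ d)
    (hab' : a' ≠ b') (hcd' : c' ≠ d') (h1 : g • a = a') (h2 : g • b = b') (h3 : g • c = c')
    (h4 : g • d = d') :
    g • (((⟨(a, b), hab⟩ : OP Ω), (⟨(c, d), hcd⟩ : OP Ω)) : OP Ω × OP Ω) =
      ((⟨(a', b'), hab'⟩ : OP Ω), (⟨(c', d'), hcd'⟩ : OP Ω)) :=
  Prod.ext (Subtype.ext (Prod.ext h1 h2)) (Subtype.ext (Prod.ext h3 h4))

/-- seven orbits on pairs of ordered pairs -/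
theorem orb_op_op (h4 : IsMultiplyPretransitive G Ω 4) (hfour : Four Ω) :
    Nat.card (MulAction.orbitRel.Quotient G (OP Ω × OP Ω)) = 7 := by
  classical
  have key := card_orbits_of_type (G := G) (X := OP Ω × OP Ω) (T := Fin 7) scorbf_ty ?_ ?_ ?_
  · rw [key, Fintype.card_fin]
  · -- invariance
    rintro g ⟨⟨⟨a, b⟩, hab⟩, ⟨⟨c, d⟩, hcd⟩⟩
    show scorbf_ty4 (g • a) (g • b) (g • c) (g • d) = scorbf_ty4 a b c d
    simp only [scorbf_ty4, smul_left_cancel_iff]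
  · -- surjectivity
    obtain ⟨p0, p1, p2, p3, h01, h02, h03, h12, h13, h23⟩ := hfour
    intro t
    fin_cases t
    · exact ⟨(OP.mk p0 p1 h01, OP.mk p0 p1 h01), by simp [scorbf_ty, scorbf_ty4, OP.mk]⟩
    · exact ⟨(OP.mk p0 p1 h01, OP.mk p1 p0 h01.symm), by simp [scorbf_ty, scorbf_ty4, OP.mk, h01]⟩
    · exact ⟨(OP.mk p0 p1 h01, OP.mk p0 p2 h02), by simp [scorbf_ty, scorbf_ty4, OP.mk, h12]⟩
    · exact ⟨(OP.mk p0 p1 h01, OP.mk p2 p1 h12.symm),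
        by simp [scorbf_ty, scorbf_ty4, OP.mk, h01, h02]⟩
    · exact ⟨(OP.mk p0 p1 h01, OP.mk p2 p0 h02.symm),
        by simp [scorbf_ty, scorbf_ty4, OP.mk, h02, h12]⟩
    · exact ⟨(OP.mk p0 p1 h01, OP.mk p1 p2 h12),
        by simp [scorbf_ty, scorbf_ty4, OP.mk, h01, h02, h12]⟩
    · exact ⟨(OP.mk p0 p1 h01, OP.mk p2 p3 h23),
        by simp [scorbf_ty, scorbf_ty4, OP.mk, h02, h03, h12, h13]⟩
  · -- same type implies same orbit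
    rintro ⟨⟨⟨a, b⟩, hab⟩, ⟨⟨c, d⟩, hcd⟩⟩ ⟨⟨⟨a', b'⟩, hab'⟩, ⟨⟨c', d'⟩, hcd'⟩⟩ h
    replace h : scorbf_ty4 a b c d = scorbf_ty4 a' b' c' d' := h
    replace hab : a ≠ b := hab
    replace hcd : c ≠ d := hcd
    replace hab' : a' ≠ b' := hab'
    replace hcd' : c' ≠ d' := hcd'
    rcases scorbf_spec a b c d with ⟨h0, p⟩ | ⟨h0, p⟩ | ⟨h0, p⟩ | ⟨h0, p⟩ | ⟨h0, p⟩ | ⟨h0, p⟩ |
      ⟨h0, p⟩
    · obtain ⟨e1, e2⟩ := p
      obtain ⟨e1', e2'⟩ := scorbf_inv0 (h ▸ h0 : scorbf_ty4 a' b' c' d' = 0)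
      obtain ⟨g, g1, g2⟩ := tr2 h4 hfour hab hab'
      exact ⟨g, scorbf_ext g hab hcd hab' hcd' g1 g2 (by rw [← e1, g1]; exact e1')
        (by rw [← e2, g2]; exact e2')⟩
    · obtain ⟨e1, e2⟩ := p
      obtain ⟨e1', e2'⟩ := scorbf_inv1 (h ▸ h0 : scorbf_ty4 a' b' c' d' = 1)
      obtain ⟨g, g1, g2⟩ := tr2 h4 hfour hab hab'
      exact ⟨g, scorbf_ext g hab hcd hab' hcd' g1 g2 (by rw [← e2, g2]; exact e2')
        (by rw [← e1, g1]; exact e1')⟩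
    · obtain ⟨e1, e2⟩ := p
      obtain ⟨e1', e2'⟩ := scorbf_inv2 (h ▸ h0 : scorbf_ty4 a' b' c' d' = 2)
      have had : a ≠ d := fun e => hcd (e1.symm.trans e)
      have had' : a' ≠ d' := fun e => hcd' (e1'.symm.trans e)
      obtain ⟨g, g1, g2, g3⟩ := tr3 h4 hfour hab had e2 hab' had' e2'
      exact ⟨g, scorbf_ext g hab hcd hab' hcd' g1 g2 (by rw [← e1, g1]; exact e1') g3⟩
    · obtain ⟨e1, e2⟩ := p
      obtain ⟨e1', e2'⟩ := scorbf_inv3 (h ▸ h0 : scorbf_ty4 a' b' c' d' = 3)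
      have hbc : b ≠ c := fun e => hcd (e.symm.trans e1)
      have hbc' : b' ≠ c' := fun e => hcd' (e.symm.trans e1')
      obtain ⟨g, g1, g2, g3⟩ := tr3 h4 hfour hab e2 hbc hab' e2' hbc'
      exact ⟨g, scorbf_ext g hab hcd hab' hcd' g1 g2 g3 (by rw [← e1, g2]; exact e1')⟩
    · obtain ⟨e1, e2⟩ := p
      obtain ⟨e1', e2'⟩ := scorbf_inv4 (h ▸ h0 : scorbf_ty4 a' b' c' d' = 4)
      have hac : a ≠ c := fun e => hcd (e.symm.trans e1)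
      have hac' : a' ≠ c' := fun e => hcd' (e.symm.trans e1')
      obtain ⟨g, g1, g2, g3⟩ := tr3 h4 hfour hab hac e2 hab' hac' e2'
      exact ⟨g, scorbf_ext g hab hcd hab' hcd' g1 g2 g3 (by rw [← e1, g1]; exact e1')⟩
    · obtain ⟨e1, e2⟩ := p
      obtain ⟨e1', e2'⟩ := scorbf_inv5 (h ▸ h0 : scorbf_ty4 a' b' c' d' = 5)
      have hbd : b ≠ d := fun e => hcd (e1.symm.trans e)
      have hbd' : b' ≠ d' := fun e => hcd' (e1'.symm.trans e)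
      obtain ⟨g, g1, g2, g3⟩ := tr3 h4 hfour hab e2 hbd hab' e2' hbd'
      exact ⟨g, scorbf_ext g hab hcd hab' hcd' g1 g2 (by rw [← e1, g2]; exact e1') g3⟩
    · obtain ⟨e1, e2, e3, e4⟩ := p
      obtain ⟨e1', e2', e3', e4'⟩ := scorbf_inv6 (h ▸ h0 : scorbf_ty4 a' b' c' d' = 6)
      obtain ⟨g, g1, g2, g3, g4⟩ := tr4 h4 hab e1 e2 e3 e4 hcd hab' e1' e2' e3' e4' hcd'
      exact ⟨g, scorbf_ext g hab hcd hab' hcd' g1 g2 g3 g4⟩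

end Cfsg.Agent.Lib.Helper13.SC
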