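import Mathlib
import Cfsg.Agent.Lib.Helper13.SCDefs
import Cfsg.Agent.Lib.Helper4.BrSuz
import Cfsg.Agent.Lib.Helper13.SCOrbA
import Cfsg.Agent.Lib.Helper13.SCOrbB
import Cfsg.Agent.Lib.Helper13.SCOrbC
import Cfsg.Agent.Lib.Helper13.SCOrbD
import Cfsg.Agent.Lib.Helper13.SCOrbE
import Cfsg.Agent.Lib.Helper13.SCOrbF
import Cfsg.Agent.Lib.Helper13.SCNorm
import Cfsg.Agent.Lib.Helper13.SCNorm3
import Cfsg.Agent.Lib.Helper13.SCGen
import Cfsg.Agent.Lib.Helper13.SCDeg

/-!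
# Project SC (S4560), piece Irr (assembly; helper13)

Assembly: the three functions are irreducible characters of a 4-transitive group.
-/

set_option autoImplicit false

namespace Cfsg.Agent.Lib.Helper13.SC

open Cfsg MulAction
open Cfsg.Agent.Lib.Helper17 (permChar)

universe u v w

variable {G : Type u} [Group G] [Fintype G] {Ω : Type v} [Fintype Ω] [DecidableEq Ω]
  [MulAction G Ω]

theorem irr1 (h4 : IsMultiplyPretransitive G Ω 4) (hfour : Four Ω) :
    IsIrrCharacter G (chi1 G Ω) :=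
  Cfsg.Agent.Lib.Helper4.isIrrCharacter_of_genChar_norm_one _ gen1
    (norm1 (orb_pt h4 hfour) (orb_pt_pt h4 hfour)) (deg1 hfour)

theorem irr2 (h4 : IsMultiplyPretransitive G Ω 4) (hfour : Four Ω) :
    IsIrrCharacter G (chi2 G Ω) :=
  Cfsg.Agent.Lib.Helper4.isIrrCharacter_of_genChar_norm_one _ gen2
    (norm2 (orb_pt_pt h4 hfour) (orb_up_pt h4 hfour) (orb_up_up h4 hfour)) (deg2 hfour)

theorem irr3 (h4 : IsMultiplyPretransitive G Ω 4) (hfour : Four Ω) :
    IsIrrCharacter G (chi3 G Ω) :=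
  Cfsg.Agent.Lib.Helper4.isIrrCharacter_of_genChar_norm_one _ gen3
    (norm3 (orb_pt h4 hfour) (orb_up h4 hfour) (orb_op h4 hfour) (orb_pt_pt h4 hfour)
      (orb_up_pt h4 hfour) (orb_up_up h4 hfour) (orb_op_pt h4 hfour) (orb_op_up h4 hfour)
      (orb_op_op h4 hfour)) (deg3 hfour)

end Cfsg.Agent.Lib.Helper13.SC
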