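import Mathlib
import Cfsg.Agent.Lib.Helper18.SLMDefs

/-!
S2332 piece SLM-LEVELC (helper18's project SLM; proved by helper13): from the multiplicity formula
and the values of the trace on the `x1 u`, all non-zero weights have multiplicity one and
`D = d0 + (q ^ k - 1)`.
-/

set_option autoImplicit false

namespace Cfsg.Agent.Lib.Helper18.SLM

open Matrix

universe u

variable {F : Type u} [Field F] [Fintype F]

theorem levelc_sum (ψ : AddChar F ℂ) (hψ : ψ ≠ 1) {k : ℕ} (l : Fin k → F) (hl : l ≠ 0) :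
    ∑ u : Fin k → F, ψ (-(l ⬝ᵥ u)) = 0 := by
  classical
  obtain ⟨i, hi⟩ : ∃ i, l i ≠ 0 := by
    by_contra hcon
    push Not at hcon
    exact hl (funext hcon)
  obtain ⟨c, hc⟩ := (AddChar.ne_one_iff).mp hψ
  have h0 : -(l ⬝ᵥ (Pi.single i (-c / l i) : Fin k → F)) = c := by
    rw [dotProduct_single]
    field_simp
  have h1 : ∑ u : Fin k → F, ψ c * ψ (-(l ⬝ᵥ u)) = ∑ u : Fin k → F, ψ (-(l ⬝ᵥ u)) := by
    refine Fintype.sum_equiv (Equiv.addRight (Pi.single i (-c / l i) : Fin k → F)) _ _ ?_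
    intro u
    rw [Equiv.coe_addRight, dotProduct_add, neg_add, AddChar.map_add_eq_mul, h0, mul_comm]
  rw [← Finset.mul_sum] at h1
  have h2 : (ψ c - 1) * ∑ u : Fin k → F, ψ (-(l ⬝ᵥ u)) = 0 := by
    rw [sub_mul, one_mul, h1, sub_self]
  rcases mul_eq_zero.mp h2 with h3 | h3
  · exact absurd (sub_eq_zero.mp h3) hc
  · exact h3

-- piece LEVELC
theorem level_calc {W : Type*} [AddCommGroup W] [Module ℂ W] [FiniteDimensional ℂ W]
    (ψ : AddChar F ℂ) (hψ : ψ ≠ 1) {k : ℕ}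
    (σ : Representation ℂ (Matrix.SpecialLinearGroup (Fin (k + 1)) F) W) (D : ℕ)
    (hD : Module.finrank ℂ W = D)
    (hmult : ∀ l : Fin k → F, (Module.finrank ℂ (wt ψ σ l) : ℂ) = ((Fintype.card F : ℂ) ^ k)⁻¹ *
      ∑ u : Fin k → F, ψ (-(l ⬝ᵥ u)) * LinearMap.trace ℂ W (σ (x1 u)))
    (htr : ∀ u : Fin k → F, u ≠ 0 →
      LinearMap.trace ℂ W (σ (x1 u)) = (D : ℂ) - (Fintype.card F : ℂ) ^ k) :
    M1 ψ σ ∧ D = d0 ψ σ + (Fintype.card F ^ k - 1) := by
  classical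
  have hq0 : ((Fintype.card F : ℂ) ^ k) ≠ 0 := by
    apply pow_ne_zero
    exact_mod_cast Fintype.card_ne_zero
  have hT0 : LinearMap.trace ℂ W (σ (x1 0)) = (D : ℂ) := by
    have e : (x1 (0 : Fin k → F) : Matrix.SpecialLinearGroup (Fin (k + 1)) F) = 1 := by
      apply Subtype.ext
      rw [x1_val]
      have e0 : (Fin.cons 0 (0 : Fin k → F) : Fin (k + 1) → F) = 0 := by
        ext j
        refine Fin.cases ?_ (fun j' => ?_) j <;> simp
      rw [e0]
      simp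
    rw [e, map_one, LinearMap.trace_one, hD]
  have hT : ∀ u : Fin k → F, LinearMap.trace ℂ W (σ (x1 u)) =
      ((D : ℂ) - (Fintype.card F : ℂ) ^ k) +
        (if u = 0 then (Fintype.card F : ℂ) ^ k else 0) := by
    intro u
    by_cases hu : u = 0
    · rw [if_pos hu, hu, hT0]
      ring
    · rw [if_neg hu, htr u hu, add_zero]
  have hsum : ∀ l : Fin k → F,
      ∑ u : Fin k → F, ψ (-(l ⬝ᵥ u)) * LinearMap.trace ℂ W (σ (x1 u)) =
      ((D : ℂ) - (Fintype.card F : ℂ) ^ k) * ∑ u : Fin k → F, ψ (-(l ⬝ᵥ u)) +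
        (Fintype.card F : ℂ) ^ k := by
    intro l
    have e1 : ∀ u : Fin k → F, ψ (-(l ⬝ᵥ u)) * LinearMap.trace ℂ W (σ (x1 u)) =
        ((D : ℂ) - (Fintype.card F : ℂ) ^ k) * ψ (-(l ⬝ᵥ u)) +
          (if u = 0 then ψ (-(l ⬝ᵥ u)) * (Fintype.card F : ℂ) ^ k else 0) := by
      intro u
      rw [hT u]
      split_ifs <;> ring
    rw [Finset.sum_congr rfl (fun u _ => e1 u), Finset.sum_add_distrib, ← Finset.mul_sum,
      Finset.sum_ite_eq', if_pos (Finset.mem_univ _), dotProduct_zero, neg_zero,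
      AddChar.map_zero_eq_one, one_mul]
  constructor
  · intro l hl
    have e := hmult l
    rw [hsum l, levelc_sum ψ hψ l hl, mul_zero, zero_add, inv_mul_cancel₀ hq0] at e
    exact_mod_cast e
  · have e := hmult 0
    rw [hsum 0] at e
    have e2 : ∑ u : Fin k → F, ψ (-((0 : Fin k → F) ⬝ᵥ u)) = (Fintype.card F : ℂ) ^ k := by
      simp
    rw [e2] at e
    have e3 : (d0 ψ σ : ℂ) = (D : ℂ) - (Fintype.card F : ℂ) ^ k + 1 := by
      show (Module.finrank ℂ (wt ψ σ 0) : ℂ) = _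
      rw [e]
      field_simp
    have hq1 : 1 ≤ Fintype.card F ^ k := Nat.one_le_pow _ _ Fintype.card_pos
    have e4 : ((D : ℕ) : ℂ) = ((d0 ψ σ + (Fintype.card F ^ k - 1) : ℕ) : ℂ) := by
      rw [Nat.cast_add, Nat.cast_sub hq1, e3]
      push_cast
      ring
    exact_mod_cast e4

end Cfsg.Agent.Lib.Helper18.SLM
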