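import Mathlib
import Cfsg.Agent.Lib.Helper93.Sp4Defs
import Cfsg.Agent.Lib.Helper87.SpRoot
import Cfsg.Agent.Lib.Helper23.PresSURJ

/-!
S2293 piece SP4-MATGEN: the six matrices `sX 1, sHa ζ, sTa, sY 1, sHb ζ, sTb` generate `Sp₄(F)`
when `ζ` generates the multiplicative group of `F`.
-/

set_option autoImplicit false

namespace Cfsg.Agent.Lib.Helper93.Sp4

open Matrix Cfsg.Agent.Lib.Helper87

section h13matgen

variable {F : Type*} [Field F]

/-- A vector of `F⁴` in coordinates `e₁, e₂, f₁, f₂`. -/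
def h13_vec (a b c d : F) : Fin 2 ⊕ Fin 2 → F := Sum.elim ![a, b] ![c, d]

theorem h13_vec_eta (p : Fin 2 ⊕ Fin 2 → F) :
    p = h13_vec (p (Sum.inl 0)) (p (Sum.inl 1)) (p (Sum.inr 0)) (p (Sum.inr 1)) := by
  funext i
  rcases i with i | i <;> fin_cases i <;> rfl

theorem h13_sf (u v : Fin 2 ⊕ Fin 2 → F) :
    sf u v = - (u (Sum.inl 0) * v (Sum.inr 0)) - u (Sum.inl 1) * v (Sum.inr 1) +
      u (Sum.inr 0) * v (Sum.inl 0) + u (Sum.inr 1) * v (Sum.inl 1) := by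
  simp [sf, Matrix.J, dotProduct, Matrix.mulVec, Fintype.sum_sum_type, Matrix.fromBlocks,
    Fin.sum_univ_two]
  ring

theorem h13_vec_add (a b c d a' b' c' d' : F) :
    h13_vec a b c d + h13_vec a' b' c' d' = h13_vec (a + a') (b + b') (c + c') (d + d') := by
  funext i
  rcases i with i | i <;> fin_cases i <;> rfl

theorem h13_vec_smul (x a b c d : F) :
    x • h13_vec a b c d = h13_vec (x * a) (x * b) (x * c) (x * d) := by
  funext i
  rcases i with i | i <;> fin_cases i <;> rfl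

theorem h13_mulVec (A B C D : Matrix (Fin 2) (Fin 2) F) (a b c d : F) :
    fromBlocks A B C D *ᵥ h13_vec a b c d =
      h13_vec (A 0 0 * a + A 0 1 * b + (B 0 0 * c + B 0 1 * d))
        (A 1 0 * a + A 1 1 * b + (B 1 0 * c + B 1 1 * d))
        (C 0 0 * a + C 0 1 * b + (D 0 0 * c + D 0 1 * d))
        (C 1 0 * a + C 1 1 * b + (D 1 0 * c + D 1 1 * d)) := by
  unfold h13_vec
  rw [Matrix.fromBlocks_mulVec]
  funext i
  rcases i with i | i <;> fin_cases i <;>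
    simp [Matrix.mulVec, dotProduct, Fin.sum_univ_two]

/-- The sweep lemma: a set of vectors closed under the transvection moves contains a whole
affine plane minus a point. -/
theorem h13_sweep {m : ℕ} (S : Set (Fin m ⊕ Fin m → F))
    (hadd : ∀ p q, p ∈ S → q ∈ S → sf p q ≠ 0 → ∀ d : F, p + d • q ∈ S)
    (e f w : Fin m ⊕ Fin m → F) (he : e ∈ S) (hf : f ∈ S) (hef : sf e f ≠ 0)
    (hwe : sf w e = 0) (hwf : sf w f = 0) (hew : e + w ∈ S) :
    ∀ x y : F, (x ≠ 0 ∨ y ≠ 0) → x • e + y • f + w ∈ S := by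
  have hfe : sf f e ≠ 0 := by
    rw [sf_swap]
    exact neg_ne_zero.mpr hef
  have step2 : ∀ x y : F, y ≠ 0 → x • e + y • f + w ∈ S := by
    intro x y hy
    have h1 : e + w + y • f ∈ S := by
      apply hadd _ _ hew hf
      rw [sf_add_left, hwf, add_zero]
      exact hef
    have h2 : sf (e + w + y • f) e ≠ 0 := by
      rw [sf_add_left, sf_add_left, sf_self, hwe, sf_smul_left, zero_add, zero_add]
      exact mul_ne_zero hy hfe
    have h3 := hadd _ _ h1 he h2 (x - 1)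
    have h4 : e + w + y • f + (x - 1) • e = x • e + y • f + w := by
      rw [sub_smul, one_smul]
      abel
    rw [h4] at h3
    exact h3
  intro x y hxy
  by_cases hy : y = 0
  · have hx : x ≠ 0 := by
      rcases hxy with h | h
      · exact h
      · exact absurd hy h
    have h1 := step2 x 1 one_ne_zero
    have h2 : sf (x • e + (1 : F) • f + w) f ≠ 0 := by
      rw [sf_add_left, sf_add_left, sf_smul_left, sf_smul_left, sf_self, hwf, mul_zero, add_zero,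
        add_zero]
      exact mul_ne_zero hx hef
    have h3 := hadd _ _ h1 hf h2 (-1)
    have h4 : x • e + (1 : F) • f + w + (-1 : F) • f = x • e + y • f + w := by
      rw [hy, zero_smul, one_smul, neg_smul, one_smul]
      abel
    rw [h4] at h3
    exact h3
  · exact step2 x y hy

theorem h13_finite (ζ : F) (hζ0 : ζ ≠ 0) (hζ : ∀ a : F, a ≠ 0 → ∃ j : ℕ, a = ζ ^ j) :
    Finite F := by
  obtain ⟨j, hj⟩ := hζ ζ⁻¹ (inv_ne_zero hζ0)
  have h1 : ζ ^ (j + 1) = 1 := by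
    rw [pow_succ, ← hj, inv_mul_cancel₀ hζ0]
  have hsurj : Function.Surjective
      (fun o : Option (Fin (j + 1)) => (Option.elim o (0 : F) (fun i => ζ ^ (i : ℕ)))) := by
    intro a
    by_cases ha : a = 0
    · exact ⟨none, ha.symm⟩
    · obtain ⟨k, hk⟩ := hζ a ha
      refine ⟨some ⟨k % (j + 1), Nat.mod_lt _ (Nat.succ_pos _)⟩, ?_⟩
      show ζ ^ (k % (j + 1)) = a
      rw [hk]
      conv_rhs => rw [← Nat.div_add_mod k (j + 1)]
      rw [pow_add, pow_mul, h1, one_pow, one_mul]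
  exact Finite.of_surjective _ hsurj

theorem h13_sY_eq (b : F) : sY b = tS (h13_vec (0 : F) 1 0 0) b := by
  apply sp_ext
  intro v
  rw [tS_mulVec, h13_sf, h13_vec_eta v]
  show (sY b).1 *ᵥ _ = _
  rw [sY_val, h13_mulVec, h13_vec_smul, h13_vec_add]
  simp [h13_vec]

theorem h13_sHa_e2 (ζ : F) (hζ0 : ζ ≠ 0) :
    ((sHa ζ hζ0 : symplecticGroup (Fin 2) F) : Matrix (Fin 2 ⊕ Fin 2) (Fin 2 ⊕ Fin 2) F) *ᵥ
      h13_vec (0 : F) 1 0 0 = ζ • h13_vec (0 : F) 1 0 0 := by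
  show (sHa ζ hζ0).1 *ᵥ _ = _
  rw [sHa_val, h13_mulVec, h13_vec_smul]
  simp

theorem h13_sTb_e2 :
    ((sTb F : symplecticGroup (Fin 2) F) : Matrix (Fin 2 ⊕ Fin 2) (Fin 2 ⊕ Fin 2) F) *ᵥ
      h13_vec (0 : F) 1 0 0 = (-1 : F) • h13_vec (0 : F) 0 0 1 := by
  show (sTb F).1 *ᵥ _ = _
  rw [sTb_val, h13_mulVec, h13_vec_smul]
  simp

theorem h13_sTa_e2 :
    ((sTa F : symplecticGroup (Fin 2) F) : Matrix (Fin 2 ⊕ Fin 2) (Fin 2 ⊕ Fin 2) F) *ᵥ
      h13_vec (0 : F) 1 0 0 = h13_vec (1 : F) 0 0 0 := by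
  show (sTa F).1 *ᵥ _ = _
  rw [sTa_val, h13_mulVec]
  simp

theorem h13_sTa_f2 :
    ((sTa F : symplecticGroup (Fin 2) F) : Matrix (Fin 2 ⊕ Fin 2) (Fin 2 ⊕ Fin 2) F) *ᵥ
      h13_vec (0 : F) 0 0 1 = h13_vec (0 : F) 0 1 0 := by
  show (sTa F).1 *ᵥ _ = _
  rw [sTa_val, h13_mulVec]
  simp

theorem h13_sX_e2 :
    ((sX (1 : F) : symplecticGroup (Fin 2) F) : Matrix (Fin 2 ⊕ Fin 2) (Fin 2 ⊕ Fin 2) F) *ᵥ
      h13_vec (0 : F) 1 0 0 = h13_vec (1 : F) 1 0 0 := by
  show (sX (1 : F)).1 *ᵥ _ = _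
  rw [sX_val, h13_mulVec]
  simp

/-- MATGEN -/
theorem mat_gen_sp (ζ : F) (hζ0 : ζ ≠ 0) (hζ : ∀ a : F, a ≠ 0 → ∃ j : ℕ, a = ζ ^ j) :
    Subgroup.closure {sX (1 : F), sHa ζ hζ0, sTa F, sY (1 : F), sHb ζ hζ0, sTb F} = ⊤ := by
  classical
  haveI : Finite F := h13_finite ζ hζ0 hζ
  haveI : Fintype F := Fintype.ofFinite F
  set H : Subgroup (symplecticGroup (Fin 2) F) :=
    Subgroup.closure {sX (1 : F), sHa ζ hζ0, sTa F, sY (1 : F), sHb ζ hζ0, sTb F} with hH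
  have hX : sX (1 : F) ∈ H := Subgroup.subset_closure (by simp)
  have hHa : sHa ζ hζ0 ∈ H := Subgroup.subset_closure (by simp)
  have hTa : sTa F ∈ H := Subgroup.subset_closure (by simp)
  have hY : sY (1 : F) ∈ H := Subgroup.subset_closure (by simp)
  have hTb : sTb F ∈ H := Subgroup.subset_closure (by simp)
  -- the set of good vectors
  let S : Set (Fin 2 ⊕ Fin 2 → F) := {p | ∀ c : F, tS p c ∈ H}
  have hact : ∀ g ∈ H, ∀ p ∈ S,
      (g : Matrix (Fin 2 ⊕ Fin 2) (Fin 2 ⊕ Fin 2) F) *ᵥ p ∈ S := by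
    intro g hg p hp c
    rw [← tS_conj]
    exact H.mul_mem (H.mul_mem hg (hp c)) (H.inv_mem hg)
  have hsmul : ∀ (a : F), ∀ p ∈ S, a • p ∈ S := by
    intro a p hp c
    rw [tS_smul]
    exact hp _
  have hadd : ∀ p q, p ∈ S → q ∈ S → sf p q ≠ 0 → ∀ d : F, p + d • q ∈ S := by
    intro p q hp hq hpq d
    have h1 := hact (tS q (d / sf p q)) (hq _) p hp
    rw [tS_mulVec, div_mul_cancel₀ d hpq] at h1
    exact h1
  -- e₂ is good
  have hpow : ∀ j : ℕ, ((sHa ζ hζ0 ^ j : symplecticGroup (Fin 2) F) :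
      Matrix (Fin 2 ⊕ Fin 2) (Fin 2 ⊕ Fin 2) F) *ᵥ h13_vec (0 : F) 1 0 0 =
      ζ ^ j • h13_vec (0 : F) 1 0 0 := by
    intro j
    induction j with
    | zero => rw [pow_zero, pow_zero, one_smul, sp_coe_one, Matrix.one_mulVec]
    | succ j ih =>
      rw [pow_succ, sp_mul_mulVec, h13_sHa_e2, Matrix.mulVec_smul, ih, smul_smul, pow_succ,
        mul_comm]
  have hsq : ∀ s : F, tS (h13_vec (0 : F) 1 0 0) (s ^ 2) ∈ H := by
    intro s
    by_cases hs : s = 0
    · rw [hs, zero_pow (by norm_num), tS_zero]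
      exact H.one_mem
    · obtain ⟨j, hj⟩ := hζ s hs
      have h1 : tS (h13_vec (0 : F) 1 0 0) (s ^ 2) = tS (s • h13_vec (0 : F) 1 0 0) 1 := by
        rw [tS_smul, mul_one]
      rw [h1, hj, ← hpow j, ← tS_conj, ← h13_sY_eq]
      exact H.mul_mem (H.mul_mem (H.pow_mem hHa j) hY) (H.inv_mem (H.pow_mem hHa j))
  have he2 : h13_vec (0 : F) 1 0 0 ∈ S := by
    intro c
    obtain ⟨a, b, hab⟩ := Cfsg.Agent.Lib.Helper93.Pres.h23_sum_two_sq c
    rw [← hab, ← tS_mul]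
    exact H.mul_mem (hsq a) (hsq b)
  have hf2 : h13_vec (0 : F) 0 0 1 ∈ S := by
    have h1 := hsmul (-1) _ (hact _ hTb _ he2)
    rw [h13_sTb_e2, smul_smul] at h1
    simpa using h1
  have he1 : h13_vec (1 : F) 0 0 0 ∈ S := by
    have h1 := hact _ hTa _ he2
    rw [h13_sTa_e2] at h1
    exact h1
  have hf1 : h13_vec (0 : F) 0 1 0 ∈ S := by
    have h1 := hact _ hTa _ hf2
    rw [h13_sTa_f2] at h1
    exact h1
  have he12 : h13_vec (1 : F) 1 0 0 ∈ S := by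
    have h1 := hact _ hX _ he2
    rw [h13_sX_e2] at h1
    exact h1
  -- the second plane
  have hplane2 : ∀ x y : F, (x ≠ 0 ∨ y ≠ 0) → h13_vec (0 : F) x 0 y ∈ S := by
    intro x y hxy
    have h1 := h13_sweep S hadd (h13_vec (0 : F) 1 0 0) (h13_vec (0 : F) 0 0 1) 0 he2 hf2
      (by rw [h13_sf]; simp [h13_vec]) (by rw [h13_sf]; simp)
      (by rw [h13_sf]; simp) (by rw [add_zero]; exact he2) x y hxy
    rw [add_zero, h13_vec_smul, h13_vec_smul, h13_vec_add] at h1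
    simpa using h1
  -- e₁ + w for w in the second plane
  have hmix : ∀ x y : F, h13_vec (1 : F) x 0 y ∈ S := by
    intro x y
    by_cases hxy : x ≠ 0 ∨ y ≠ 0
    · have h1 := h13_sweep S hadd (h13_vec (0 : F) 1 0 0) (h13_vec (0 : F) 0 0 1)
        (h13_vec (1 : F) 0 0 0) he2 hf2
        (by rw [h13_sf]; simp [h13_vec]) (by rw [h13_sf]; simp [h13_vec])
        (by rw [h13_sf]; simp [h13_vec])
        (by rw [h13_vec_add]; simpa using he12) x y hxy
      rw [h13_vec_smul, h13_vec_smul, h13_vec_add, h13_vec_add] at h1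
      simpa using h1
    · push Not at hxy
      rw [hxy.1, hxy.2]
      exact he1
  -- everything
  have hall : ∀ p : Fin 2 ⊕ Fin 2 → F, p ≠ 0 → p ∈ S := by
    intro p hp
    rw [h13_vec_eta p] at hp ⊢
    by_cases h1 : p (Sum.inl 0) ≠ 0 ∨ p (Sum.inr 0) ≠ 0
    · have h2 := h13_sweep S hadd (h13_vec (1 : F) 0 0 0) (h13_vec (0 : F) 0 1 0)
        (h13_vec (0 : F) (p (Sum.inl 1)) 0 (p (Sum.inr 1))) he1 hf1
        (by rw [h13_sf]; simp [h13_vec]) (by rw [h13_sf]; simp [h13_vec])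
        (by rw [h13_sf]; simp [h13_vec])
        (by rw [h13_vec_add]; simpa using hmix (p (Sum.inl 1)) (p (Sum.inr 1)))
        (p (Sum.inl 0)) (p (Sum.inr 0)) h1
      rw [h13_vec_smul, h13_vec_smul, h13_vec_add, h13_vec_add] at h2
      simpa using h2
    · push Not at h1
      rw [h1.1, h1.2] at hp ⊢
      apply hplane2
      by_contra hcon
      push Not at hcon
      apply hp
      rw [hcon.1, hcon.2]
      funext i
      rcases i with i | i <;> fin_cases i <;> rfl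
  rw [eq_top_iff, ← Cfsg.Agent.Lib.Helper18.closure_sympTransvection_eq_top 2,
    Subgroup.closure_le]
  rintro g ⟨w, c, hg⟩
  have hg' : g = tS w c := Subtype.ext hg
  by_cases hw : w = 0
  · rw [hg', hw, tS_zero_vec]
    exact H.one_mem
  · rw [hg']
    exact hall w hw c

end h13matgen

end Cfsg.Agent.Lib.Helper93.Sp4
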