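import Mathlib

/-!
# Piece H for S4130 (helper13, for helper66)

`commutator_le_of_centralize`: if the `q'`-elements centralize a normal Sylow `q`-subgroup `Q`
containing `G'`, then `G' ≤ [Q, Q]`.
-/

set_option autoImplicit false

namespace Cfsg.Agent.Lib.Helper13.SqfH

open scoped commutatorElement

/-- `q`-part / `q'`-part decomposition of an element of a finite group. -/
theorem exists_qdecomp {G : Type*} [Group G] [Finite G] (q : ℕ) (hq : q.Prime) (x : G) :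
    ∃ a b : G, x = a * b ∧ a * b = b * a ∧ (∃ k : ℕ, a ^ (q ^ k) = 1) ∧
      (orderOf b).Coprime q := by
  have hn : orderOf x ≠ 0 := (orderOf_pos x).ne'
  obtain ⟨k, n', hpn', hn'⟩ := Nat.exists_eq_pow_mul_and_not_dvd hn q hq.ne_one
  have hcop : Nat.Coprime (q ^ k) n' :=
    Nat.Coprime.pow_left _ ((Nat.Prime.coprime_iff_not_dvd hq).mpr hpn')
  have hb := Nat.gcd_eq_gcd_ab (q ^ k) n'
  rw [hcop.gcd_eq_one] at hb
  refine ⟨x ^ ((n' : ℤ) * Nat.gcdB (q ^ k) n'), x ^ (((q ^ k : ℕ) : ℤ) * Nat.gcdA (q ^ k) n'),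
    ?_, ?_, ⟨k, ?_⟩, ?_⟩
  · rw [← zpow_add]
    have : (n' : ℤ) * Nat.gcdB (q ^ k) n' + ((q ^ k : ℕ) : ℤ) * Nat.gcdA (q ^ k) n' = 1 := by
      rw [add_comm]; exact_mod_cast hb.symm
    rw [this, zpow_one]
  · rw [← zpow_add, ← zpow_add, add_comm]
  · rw [← zpow_natCast, ← zpow_mul]
    have : (n' : ℤ) * Nat.gcdB (q ^ k) n' * ((q ^ k : ℕ) : ℤ)
        = (orderOf x : ℤ) * Nat.gcdB (q ^ k) n' := by
      rw [hn']; push_cast; ring
    rw [this, zpow_mul, zpow_natCast, pow_orderOf_eq_one, one_zpow]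
  · have h1 : (x ^ (((q ^ k : ℕ) : ℤ) * Nat.gcdA (q ^ k) n')) ^ n' = 1 := by
      rw [← zpow_natCast, ← zpow_mul]
      have : ((q ^ k : ℕ) : ℤ) * Nat.gcdA (q ^ k) n' * (n' : ℤ)
          = (orderOf x : ℤ) * Nat.gcdA (q ^ k) n' := by
        rw [hn']; push_cast; ring
      rw [this, zpow_mul, zpow_natCast, pow_orderOf_eq_one, one_zpow]
    have h2 := orderOf_dvd_of_pow_eq_one h1
    exact Nat.Coprime.coprime_dvd_left h2 ((Nat.Prime.coprime_iff_not_dvd hq).mpr hpn').symm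

theorem commutator_le_of_centralize {G : Type*} [Group G] [Finite G] (q : ℕ) [Fact q.Prime]
    (Q : Subgroup G) [Q.Normal] (hQ : IsPGroup q Q)
    (hall : ∀ g : G, (∃ k : ℕ, g ^ (q ^ k) = 1) → g ∈ Q)
    (hD : commutator G ≤ Q)
    (hc : ∀ y : G, (orderOf y).Coprime q → ∀ u ∈ Q, y * u = u * y) :
    commutator G ≤ ⁅Q, Q⁆ := by
  have hq : q.Prime := Fact.out
  rw [commutator_def, Subgroup.commutator_le]
  intro g _ h _
  obtain ⟨a, b, rfl, hab, hak, hb⟩ := exists_qdecomp q hq g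
  obtain ⟨c, d, rfl, hcd, hck, hd⟩ := exists_qdecomp q hq h
  have haQ : a ∈ Q := hall a hak
  have hcQ : c ∈ Q := hall c hck
  -- the commutator of the two `q'`-parts is trivial
  have hbd : b * d * b⁻¹ * d⁻¹ = 1 := by
    set e := b * d * b⁻¹ * d⁻¹ with he
    have heQ : e ∈ Q := hD (by
      rw [commutator_def, he, ← commutatorElement_def]
      exact Subgroup.commutator_mem_commutator (Subgroup.mem_top b) (Subgroup.mem_top d))
    have hbe : b * e = e * b := hc b hb e heQ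
    have h1 : d * b⁻¹ * d⁻¹ = b⁻¹ * e := by rw [he]; group
    have h2 : (b⁻¹ * e) ^ orderOf b = e ^ orderOf b := by
      have hcomm : Commute b⁻¹ e := Commute.inv_left hbe
      rw [hcomm.mul_pow, inv_pow, pow_orderOf_eq_one, inv_one, one_mul]
    have h3 : (d * b⁻¹ * d⁻¹) ^ orderOf b = 1 := by
      rw [conj_pow, inv_pow, pow_orderOf_eq_one, inv_one, mul_one, mul_inv_cancel]
    rw [h1, h2] at h3
    obtain ⟨k, hk⟩ := hQ ⟨e, heQ⟩
    have hk' : e ^ q ^ k = 1 := by simpa using congrArg Subtype.val hk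
    have ho1 : orderOf e ∣ orderOf b := orderOf_dvd_of_pow_eq_one h3
    have ho2 : orderOf e ∣ q ^ k := orderOf_dvd_of_pow_eq_one hk'
    have ho : orderOf e = 1 := Nat.eq_one_of_dvd_coprimes (hb.pow_right k) ho1 ho2
    exact orderOf_eq_one_iff.mp ho
  have e3 : b * d = d * b := by
    rw [mul_inv_eq_one, mul_inv_eq_iff_eq_mul] at hbd
    exact hbd
  have e5 : d * b⁻¹ = b⁻¹ * d := (Commute.inv_right (show Commute d b from e3.symm)).eq
  have e1 : b * c = c * b := hc b hb c hcQ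
  have e2 : d * a⁻¹ = a⁻¹ * d := hc d hd a⁻¹ (Q.inv_mem haQ)
  have key : ⁅a * b, c * d⁆ = ⁅a, c⁆ := by
    rw [commutatorElement_def, commutatorElement_def, mul_inv_rev, mul_inv_rev]
    calc a * b * (c * d) * (b⁻¹ * a⁻¹) * (d⁻¹ * c⁻¹)
        = a * (b * c) * (d * b⁻¹) * a⁻¹ * d⁻¹ * c⁻¹ := by group
      _ = a * (c * b) * (b⁻¹ * d) * a⁻¹ * d⁻¹ * c⁻¹ := by rw [e1, e5]
      _ = a * c * (d * a⁻¹) * d⁻¹ * c⁻¹ := by group
      _ = a * c * (a⁻¹ * d) * d⁻¹ * c⁻¹ := by rw [e2]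
      _ = a * c * a⁻¹ * c⁻¹ := by group
  rw [key]
  exact Subgroup.commutator_mem_commutator haQ hcQ

end Cfsg.Agent.Lib.Helper13.SqfH
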