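import Mathlib

set_option autoImplicit false

namespace Cfsg.Agent.Lib.Helper99.T2

open scoped commutatorElement

theorem t2trans_stab {Γ : Type*} [Group Γ] {Ω : Type*}
    [MulAction Γ Ω] (T P : Subgroup Γ) (n : ℕ) (u : Fin n → Γ) (ω : Ω) (i0 : Fin n)
    (h0 : u i0 = 1)
    (hdec : ∀ g ∈ T, ∃ i, ∃ k ∈ P, g = u i * k) (hfix : ∀ k ∈ P, k • ω = ω)
    (hinj : ∀ i j, u i • ω = u j • ω → i = j) (g : Γ) (hg : g ∈ T) (hgω : g • ω = ω) :
    g ∈ P := by
  obtain ⟨i, k, hk, rfl⟩ := hdec g hg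
  rw [mul_smul, hfix k hk] at hgω
  have : i = i0 := hinj i i0 (by rw [hgω, h0, one_smul])
  rw [this, h0, one_mul]
  exact hk

/-- the subgroup `N * P` -/
def t2trans_M {Γ : Type*} [Group Γ] (T P N : Subgroup Γ) (hPT : P ≤ T)
    (hN : ∀ g ∈ T, ∀ x ∈ N, g * x * g⁻¹ ∈ N) : Subgroup Γ where
  carrier := {g | ∃ x ∈ N, ∃ k ∈ P, g = x * k}
  mul_mem' := by
    rintro _ _ ⟨x, hx, k, hk, rfl⟩ ⟨x', hx', k', hk', rfl⟩
    refine ⟨x * (k * x' * k⁻¹), N.mul_mem hx (hN k (hPT hk) x' hx'), k * k', P.mul_mem hk hk', ?_⟩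
    group
  one_mem' := ⟨1, N.one_mem, 1, P.one_mem, (mul_one 1).symm⟩
  inv_mem' := by
    rintro _ ⟨x, hx, k, hk, rfl⟩
    refine ⟨k⁻¹ * x⁻¹ * k⁻¹⁻¹, hN k⁻¹ (hPT (P.inv_mem hk)) x⁻¹ (N.inv_mem hx), k⁻¹,
      P.inv_mem hk, ?_⟩
    group

theorem t2trans_card {Γ : Type*} [Group Γ] [Finite Γ] {Ω : Type*}
    [MulAction Γ Ω] (P S : Subgroup Γ) (n : ℕ) (u : Fin n → Γ) (ω : Ω)
    (hfix : ∀ k ∈ P, k • ω = ω)
    (hinj : ∀ i j, u i • ω = u j • ω → i = j)
    (O : Finset (Fin n))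
    (hmem : ∀ i ∈ O, ∀ k ∈ P, u i * k ∈ S)
    (hdec : ∀ g ∈ S, ∃ i ∈ O, ∃ k ∈ P, g = u i * k) :
    Nat.card S = O.card * Nat.card P := by
  have e : (O × P) ≃ S := Equiv.ofBijective
    (fun p => ⟨u p.1.1 * p.2.1, hmem p.1.1 p.1.2 p.2.1 p.2.2⟩) ⟨?_, ?_⟩
  · rw [← Nat.card_congr e, Nat.card_prod, Nat.card_eq_fintype_card, Fintype.card_coe]
  · rintro ⟨⟨i, hi⟩, ⟨k, hk⟩⟩ ⟨⟨j, hj⟩, ⟨k', hk'⟩⟩ h
    have h1 : u i * k = u j * k' := congrArg Subtype.val h
    have h2 : u i • ω = u j • ω := by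
      have := congrArg (fun g => g • ω) h1
      simp only [mul_smul] at this
      rw [hfix k hk, hfix k' hk'] at this
      exact this
    have h3 : i = j := hinj i j h2
    subst h3
    have h4 : k = k' := mul_left_cancel h1
    subst h4
    rfl
  · rintro ⟨g, hg⟩
    obtain ⟨i, hi, k, hk, he⟩ := hdec g hg
    exact ⟨⟨⟨i, hi⟩, ⟨k, hk⟩⟩, Subtype.ext he.symm⟩

theorem t2_normal_transitive_of_suborbits {Γ : Type*} [Group Γ] [Finite Γ] {Ω : Type*}
    [MulAction Γ Ω] (T P : Subgroup Γ) (n : ℕ) (u : Fin n → Γ) (ω : Ω) (i0 : Fin n)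
    (h0 : u i0 = 1) (hPT : P ≤ T) (hu : ∀ i, u i ∈ T)
    (hdec : ∀ g ∈ T, ∃ i, ∃ k ∈ P, g = u i * k) (hfix : ∀ k ∈ P, k • ω = ω)
    (hinj : ∀ i j, u i • ω = u j • ω → i = j)
    (hfaith : ∀ x ∈ T, (∀ i, x • (u i • ω) = u i • ω) → x = 1)
    (r : ℕ) (c : Fin n → Fin r) (sz : Fin r → ℕ)
    (hsz : ∀ q, (Finset.univ.filter (fun i => c i = q)).card = sz q)
    (hconn : ∀ i j, c i = c j → ∃ k ∈ P, k • (u i • ω) = u j • ω)
    (harith : ∀ C : Finset (Fin r), c i0 ∈ C → (∑ q ∈ C, sz q) ∣ n →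
      (∑ q ∈ C, sz q) = 1 ∨ (∑ q ∈ C, sz q) = n) :
    ∀ N : Subgroup Γ, N ≤ T → (∀ g ∈ T, ∀ x ∈ N, g * x * g⁻¹ ∈ N) → N ≠ ⊥ →
      ∀ i, ∃ x ∈ N, x • ω = u i • ω := by
  classical
  intro N hNT hNn hNbot
  have hstab : ∀ g ∈ T, g • ω = ω → g ∈ P := fun g hg hgω =>
    t2trans_stab T P n u ω i0 h0 hdec hfix hinj g hg hgω
  set O : Finset (Fin n) := Finset.univ.filter (fun i => ∃ x ∈ N, x • ω = u i • ω) with hO
  have memO : ∀ i, i ∈ O ↔ ∃ x ∈ N, x • ω = u i • ω := by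
    intro i
    rw [hO, Finset.mem_filter]
    simp
  have hi0 : i0 ∈ O := (memO i0).2 ⟨1, N.one_mem, by rw [h0]⟩
  have hclos : ∀ i j, i ∈ O → c i = c j → j ∈ O := by
    intro i j hi hc
    obtain ⟨x, hx, hxω⟩ := (memO i).1 hi
    obtain ⟨k, hk, hkω⟩ := hconn i j hc
    refine (memO j).2 ⟨k * x * k⁻¹, hNn k (hPT hk) x hx, ?_⟩
    rw [mul_smul, mul_smul, hfix k⁻¹ (P.inv_mem hk), hxω, hkω]
  set C : Finset (Fin r) := O.image c with hC
  have hcard : O.card = ∑ q ∈ C, sz q := by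
    rw [Finset.card_eq_sum_card_fiberwise (f := c) (t := C)
      (fun i hi => Finset.mem_image_of_mem c hi)]
    refine Finset.sum_congr rfl (fun q hq => ?_)
    rw [← hsz q]
    congr 1
    ext i
    simp only [Finset.mem_filter, Finset.mem_univ, true_and]
    constructor
    · exact fun h => h.2
    · intro h
      obtain ⟨j, hj, hjq⟩ := Finset.mem_image.1 hq
      exact ⟨hclos j i hj (hjq.trans h.symm), h⟩
  have hi0C : c i0 ∈ C := Finset.mem_image_of_mem c hi0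
  have hdvd : O.card ∣ n := by
    have hMT : t2trans_M T P N hPT hNn ≤ T := by
      rintro _ ⟨x, hx, k, hk, rfl⟩
      exact T.mul_mem (hNT hx) (hPT hk)
    have c1 : Nat.card (t2trans_M T P N hPT hNn) = O.card * Nat.card P := by
      apply t2trans_card P (t2trans_M T P N hPT hNn) n u ω hfix hinj O
      · intro i hi k hk
        obtain ⟨x, hx, hxω⟩ := (memO i).1 hi
        have : x⁻¹ * u i ∈ P := hstab _ (T.mul_mem (T.inv_mem (hNT hx)) (hu i))
          (by rw [mul_smul, ← hxω, inv_smul_smul])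
        exact ⟨x, hx, (x⁻¹ * u i) * k, P.mul_mem this hk, by group⟩
      · rintro _ ⟨x, hx, k, hk, rfl⟩
        obtain ⟨i, k', hk', he⟩ := hdec (x * k) (T.mul_mem (hNT hx) (hPT hk))
        refine ⟨i, (memO i).2 ⟨x, hx, ?_⟩, k', hk', he⟩
        have := congrArg (fun g => g • ω) he
        simp only [mul_smul] at this
        rw [hfix k hk, hfix k' hk'] at this
        exact this
    have c2 : Nat.card T = n * Nat.card P := by
      have := t2trans_card P T n u ω hfix hinj Finset.univ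
        (fun i _ k hk => T.mul_mem (hu i) (hPT hk)) (fun g hg => by
          obtain ⟨i, k, hk, he⟩ := hdec g hg
          exact ⟨i, Finset.mem_univ i, k, hk, he⟩)
      rw [this, Finset.card_univ, Fintype.card_fin]
    have hd : Nat.card (t2trans_M T P N hPT hNn) ∣ Nat.card T := Subgroup.card_dvd_of_le hMT
    rw [c1, c2] at hd
    exact Nat.dvd_of_mul_dvd_mul_right Nat.card_pos hd
  rw [hcard] at hdvd
  rcases harith C hi0C hdvd with h1 | hn
  · exfalso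
    rw [← hcard] at h1
    obtain ⟨a, ha⟩ := Finset.card_eq_one.1 h1
    have ha0 : a = i0 := by
      have := hi0
      rw [ha, Finset.mem_singleton] at this
      exact this.symm
    have hfixN : ∀ x ∈ N, x • ω = ω := by
      intro x hx
      obtain ⟨i, k, hk, he⟩ := hdec x (hNT hx)
      have hxω : x • ω = u i • ω := by rw [he, mul_smul, hfix k hk]
      have : i ∈ O := (memO i).2 ⟨x, hx, hxω⟩
      rw [ha, Finset.mem_singleton, ha0] at this
      rw [hxω, this, h0, one_smul]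
    apply hNbot
    rw [eq_bot_iff]
    intro x hx
    rw [Subgroup.mem_bot]
    apply hfaith x (hNT hx)
    intro i
    have h2 : (u i)⁻¹ * x * (u i)⁻¹⁻¹ ∈ N := hNn _ (T.inv_mem (hu i)) x hx
    have h3 := hfixN _ h2
    rw [inv_inv, mul_smul, mul_smul, inv_smul_eq_iff] at h3
    exact h3
  · intro i
    rw [← hcard] at hn
    have : O = Finset.univ := Finset.eq_univ_of_card O (by rw [hn, Fintype.card_fin])
    exact (memO i).1 (by rw [this]; exact Finset.mem_univ i)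

end Cfsg.Agent.Lib.Helper99.T2
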