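import Mathlib
import Cfsg.Agent.Lib.Helper18.LSDefs
import Cfsg.Agent.Lib.Helper18.WRDefs

/-!
S2347 piece WR-LEVELODD (helper18's project WR; proved by helper13): in odd characteristic the
level set `{u | qf M u = qf M u₀}` (with `qf M u₀ ≠ 0`) has at most `2 |u₀^⊥|` elements
(decompose `u = w + a • u₀` with `w ⟂ u₀`; then `a` solves `a² = (c - qf w) / c`).
-/

set_option autoImplicit false

namespace Cfsg.Agent.Lib.Helper18.WR

open Matrix

universe u

variable {F : Type u} [Field F] {n : ℕ}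

-- piece LEVELODD
theorem card_level_odd [Fintype F] (h2 : (2 : F) ≠ 0) (M : Matrix (Fin n) (Fin n) F)
    (u₀ : Fin n → F) (hα : LS.qf M u₀ ≠ 0) :
    Nat.card {u : Fin n → F | LS.qf M u = LS.qf M u₀} ≤
      2 * Nat.card {w : Fin n → F | LS.bl M w u₀ = 0} := by
  classical
  have hbb : LS.bl M u₀ u₀ = 2 * LS.qf M u₀ := by
    rw [LS.bl_eq]
    unfold LS.qf
    ring
  have hbb0 : LS.bl M u₀ u₀ ≠ 0 := by
    rw [hbb]
    exact mul_ne_zero h2 hα
  have key : ∀ u : Fin n → F,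
      LS.bl M (u - (LS.bl M u u₀ / LS.bl M u₀ u₀) • u₀) u₀ = 0 := by
    intro u
    have h1 := LS.bl_add_left M (u - (LS.bl M u u₀ / LS.bl M u₀ u₀) • u₀)
      ((LS.bl M u u₀ / LS.bl M u₀ u₀) • u₀) u₀
    rw [sub_add_cancel, LS.bl_smul_left, div_mul_cancel₀ _ hbb0] at h1
    linear_combination -h1
  have hfib : ∀ (w : Fin n → F) (a : F), LS.bl M w u₀ = 0 →
      LS.qf M (w + a • u₀) = LS.qf M u₀ →
      a * a = (LS.qf M u₀ - LS.qf M w) / LS.qf M u₀ := by
    intro w a hw0 hu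
    have h1 : LS.qf M (w + a • u₀) = LS.qf M w + a * a * LS.qf M u₀ := by
      rw [LS.qf_add, LS.qf_smul, LS.bl_smul_right, hw0]
      ring
    rw [hu] at h1
    rw [eq_div_iff hα]
    linear_combination -h1
  let r : F → F := fun d => if h : ∃ a : F, a * a = d then h.choose else 0
  have hr : ∀ d a : F, a * a = d → r d * r d = d := by
    intro d a ha
    have h : ∃ a : F, a * a = d := ⟨a, ha⟩
    simp only [r, dif_pos h]
    exact h.choose_spec
  let f : {u : Fin n → F | LS.qf M u = LS.qf M u₀} →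
      {w : Fin n → F | LS.bl M w u₀ = 0} × Bool := fun u =>
    (⟨u.1 - (LS.bl M u.1 u₀ / LS.bl M u₀ u₀) • u₀, key u.1⟩,
      decide (LS.bl M u.1 u₀ / LS.bl M u₀ u₀ =
        r ((LS.qf M u₀ - LS.qf M (u.1 - (LS.bl M u.1 u₀ / LS.bl M u₀ u₀) • u₀)) / LS.qf M u₀)))
  have hf : Function.Injective f := by
    rintro ⟨u, hu⟩ ⟨u', hu'⟩ h
    have h1 : u - (LS.bl M u u₀ / LS.bl M u₀ u₀) • u₀ =
        u' - (LS.bl M u' u₀ / LS.bl M u₀ u₀) • u₀ :=
      congrArg (fun p => (p.1 : Fin n → F)) h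
    have h2 : decide (LS.bl M u u₀ / LS.bl M u₀ u₀ =
        r ((LS.qf M u₀ - LS.qf M (u - (LS.bl M u u₀ / LS.bl M u₀ u₀) • u₀)) / LS.qf M u₀)) =
        decide (LS.bl M u' u₀ / LS.bl M u₀ u₀ =
        r ((LS.qf M u₀ - LS.qf M (u' - (LS.bl M u' u₀ / LS.bl M u₀ u₀) • u₀)) / LS.qf M u₀)) :=
      congrArg Prod.snd h
    have e1 := hfib _ (LS.bl M u u₀ / LS.bl M u₀ u₀) (key u) (by rw [sub_add_cancel]; exact hu)
    have e2 := hfib _ (LS.bl M u' u₀ / LS.bl M u₀ u₀) (key u')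
      (by rw [sub_add_cancel]; exact hu')
    rw [← h1] at h2 e2
    rw [decide_eq_decide] at h2
    have h3 : LS.bl M u u₀ / LS.bl M u₀ u₀ = LS.bl M u' u₀ / LS.bl M u₀ u₀ := by
      have hrr := hr _ _ e1
      by_cases ha : LS.bl M u u₀ / LS.bl M u₀ u₀ =
          r ((LS.qf M u₀ - LS.qf M (u - (LS.bl M u u₀ / LS.bl M u₀ u₀) • u₀)) / LS.qf M u₀)
      · rw [h2.1 ha, ← ha]
      · have ha' := fun h' => ha (h2.2 h')
        have q1 : ∀ a : F, a * a = (LS.qf M u₀ -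
            LS.qf M (u - (LS.bl M u u₀ / LS.bl M u₀ u₀) • u₀)) / LS.qf M u₀ →
            a ≠ r ((LS.qf M u₀ - LS.qf M (u - (LS.bl M u u₀ / LS.bl M u₀ u₀) • u₀)) /
              LS.qf M u₀) →
            a = - r ((LS.qf M u₀ - LS.qf M (u - (LS.bl M u u₀ / LS.bl M u₀ u₀) • u₀)) /
              LS.qf M u₀) := by
          intro a haa hne
          have hz : (a - r ((LS.qf M u₀ - LS.qf M (u - (LS.bl M u u₀ / LS.bl M u₀ u₀) • u₀)) /
              LS.qf M u₀)) * (a + r ((LS.qf M u₀ -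
              LS.qf M (u - (LS.bl M u u₀ / LS.bl M u₀ u₀) • u₀)) / LS.qf M u₀)) = 0 := by
            linear_combination haa - hrr
          rcases mul_eq_zero.1 hz with h' | h'
          · exact absurd (sub_eq_zero.1 h') hne
          · exact eq_neg_of_add_eq_zero_left h'
        rw [q1 _ e1 ha, q1 _ e2 ha']
    apply Subtype.ext
    show u = u'
    have h4 : u = (u - (LS.bl M u u₀ / LS.bl M u₀ u₀) • u₀) +
        (LS.bl M u u₀ / LS.bl M u₀ u₀) • u₀ := by rw [sub_add_cancel]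
    have h5 : u' = (u' - (LS.bl M u' u₀ / LS.bl M u₀ u₀) • u₀) +
        (LS.bl M u' u₀ / LS.bl M u₀ u₀) • u₀ := by rw [sub_add_cancel]
    rw [h4, h5, ← h1, h3]
  have h6 := Nat.card_le_card_of_injective f hf
  rw [Nat.card_prod, Nat.card_eq_fintype_card (α := Bool), Fintype.card_bool,
    mul_comm] at h6
  exact h6

end Cfsg.Agent.Lib.Helper18.WR
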