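import Mathlib
import Cfsg.Agent.Lib.Helper59.XS0
import Cfsg.Agent.Lib.Helper75.XST
import Cfsg.Agent.Lib.Helper92.XSL

/-!
# S3054 / S3055 (helper59's project), piece M (helper13): the matrix core

A `p'`-subgroup `W` of `GL₂(𝔽_p)` containing, for `k` pairwise distinct lines, an element with
eigenvalue `1/lam` on the line and determinant `lam` (`lam` a primitive root) has `k ≤ 2` if
`p = 11` or `p ≥ 17`, and `k ≤ 12` if `p = 13`.
-/

set_option autoImplicit false

namespace Cfsg.Agent.Lib.Helper13.XSM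

open scoped LinearAlgebra.Projectivization Matrix

section

variable {p : ℕ} [Fact p.Prime]

/-- Extension of scalars of a vector. -/
def extV (K : Type*) [Field K] [Algebra (ZMod p) K] (u : Fin 2 → ZMod p) : Fin 2 → K :=
  fun j => algebraMap (ZMod p) K (u j)

/-- Extension of scalars of an invertible matrix. -/
noncomputable def extG (K : Type*) [Field K] [Algebra (ZMod p) K] :
    Matrix.GeneralLinearGroup (Fin 2) (ZMod p) →* Matrix.GeneralLinearGroup (Fin 2) K :=
  Matrix.GeneralLinearGroup.map (algebraMap (ZMod p) K)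

/-- The permutation representation of `W` on the projective line over `K`. -/
noncomputable def permHom (K : Type*) [Field K] [Algebra (ZMod p) K]
    (W : Subgroup (Matrix.GeneralLinearGroup (Fin 2) (ZMod p))) :
    ↥W →* Equiv.Perm (ℙ K (Fin 2 → K)) :=
  (MulAction.toPermHom (Matrix.GeneralLinearGroup (Fin 2) K) (ℙ K (Fin 2 → K))).comp
    ((extG K).comp W.subtype)

variable {K : Type*} [Field K] [Algebra (ZMod p) K]

theorem extV_apply (u : Fin 2 → ZMod p) (j : Fin 2) :
    extV K u j = algebraMap (ZMod p) K (u j) := rfl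

theorem extV_ne_zero {u : Fin 2 → ZMod p} (hu : u ≠ 0) : extV K u ≠ 0 := by
  intro h
  apply hu
  funext j
  have h1 := congrFun h j
  rw [extV_apply, Pi.zero_apply] at h1
  exact (map_eq_zero (algebraMap (ZMod p) K)).mp h1

theorem exists_of_smul_extV {u u' : Fin 2 → ZMod p} (hu : u ≠ 0) {a : K}
    (h : a • extV K u = extV K u') : ∃ c : ZMod p, u' = c • u := by
  obtain ⟨t, ht⟩ := Function.ne_iff.mp hu
  rw [Pi.zero_apply] at ht
  have ht' : algebraMap (ZMod p) K (u t) ≠ 0 := (map_ne_zero _).mpr ht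
  have ha : a = algebraMap (ZMod p) K (u' t / u t) := by
    have h1 := congrFun h t
    rw [Pi.smul_apply, extV_apply, extV_apply, smul_eq_mul] at h1
    rw [map_div₀, ← h1, mul_div_cancel_right₀ _ ht']
  refine ⟨u' t / u t, ?_⟩
  funext s
  have h1 := congrFun h s
  rw [Pi.smul_apply, extV_apply, extV_apply, smul_eq_mul, ha, ← map_mul] at h1
  rw [Pi.smul_apply, smul_eq_mul]
  exact ((algebraMap (ZMod p) K).injective h1).symm

theorem extG_smul (g : Matrix.GeneralLinearGroup (Fin 2) (ZMod p)) (u : Fin 2 → ZMod p) :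
    extG K g • extV K u = extV K ((g : Matrix (Fin 2) (Fin 2) (ZMod p)) *ᵥ u) := by
  funext i
  rw [extV_apply, RingHom.map_mulVec]
  rfl

theorem permHom_apply (W : Subgroup (Matrix.GeneralLinearGroup (Fin 2) (ZMod p))) (g : ↥W)
    (x : ℙ K (Fin 2 → K)) :
    permHom K W g x = extG K (g : Matrix.GeneralLinearGroup (Fin 2) (ZMod p)) • x := rfl

theorem scalar_of_trivial (A : Matrix.GeneralLinearGroup (Fin 2) (ZMod p))
    (hA : ∀ x : ℙ K (Fin 2 → K), extG K A • x = x) :
    ∃ c : ZMod p, (A : Matrix (Fin 2) (Fin 2) (ZMod p)) =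
      c • (1 : Matrix (Fin 2) (Fin 2) (ZMod p)) := by
  have key : ∀ u : Fin 2 → ZMod p, u ≠ 0 →
      ∃ c : ZMod p, (A : Matrix (Fin 2) (Fin 2) (ZMod p)) *ᵥ u = c • u := by
    intro u hu
    have h := hA (Projectivization.mk K (extV K u) (extV_ne_zero hu))
    rw [Projectivization.smul_mk, Projectivization.mk_eq_mk_iff'] at h
    obtain ⟨a, ha⟩ := h
    rw [extG_smul] at ha
    exact exists_of_smul_extV hu ha
  obtain ⟨c₀, h₀⟩ := key ![1, 0] (by intro h; have := congrFun h 0; simp at this)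
  obtain ⟨c₁, h₁⟩ := key ![0, 1] (by intro h; have := congrFun h 1; simp at this)
  obtain ⟨c₂, h₂⟩ := key ![1, 1] (by intro h; have := congrFun h 0; simp at this)
  have e00 := congrFun h₀ 0
  have e10 := congrFun h₀ 1
  have e01 := congrFun h₁ 0
  have e11 := congrFun h₁ 1
  have e0 := congrFun h₂ 0
  have e1 := congrFun h₂ 1
  simp [Matrix.mulVec, dotProduct, Fin.sum_univ_two] at e00 e10 e01 e11 e0 e1
  refine ⟨c₀, ?_⟩
  ext i j
  fin_cases i <;> fin_cases j
  · simp [e00]
  · simp [e01]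
  · simp [e10]
  · simp [e11]
    linear_combination e1 - e0 - e10 + e01 + e00 - e11

theorem pow_mulVec_eig (w : Matrix.GeneralLinearGroup (Fin 2) (ZMod p)) (v : Fin 2 → ZMod p)
    (μ : ZMod p) (h : (w : Matrix (Fin 2) (Fin 2) (ZMod p)) *ᵥ v = μ • v) (m : ℕ) :
    ((w ^ m : Matrix.GeneralLinearGroup (Fin 2) (ZMod p)) : Matrix (Fin 2) (Fin 2) (ZMod p)) *ᵥ v
      = μ ^ m • v := by
  induction m with
  | zero => simp
  | succ m ih =>
    rw [pow_succ, Units.val_mul, ← Matrix.mulVec_mulVec, h, Matrix.mulVec_smul, ih, smul_smul,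
      pow_succ, mul_comm]

theorem dvd_of_perm_pow (W : Subgroup (Matrix.GeneralLinearGroup (Fin 2) (ZMod p)))
    (lam : (ZMod p)ˣ) (hlam : orderOf lam = p - 1) (v : Fin 2 → ZMod p) (hv0 : v ≠ 0) (w : ↥W)
    (hwv : ((w : Matrix.GeneralLinearGroup (Fin 2) (ZMod p)) : Matrix (Fin 2) (Fin 2) (ZMod p))
      *ᵥ v = ((lam⁻¹ : (ZMod p)ˣ) : ZMod p) • v)
    (hdet : Matrix.det ((w : Matrix.GeneralLinearGroup (Fin 2) (ZMod p)) :
      Matrix (Fin 2) (Fin 2) (ZMod p)) = (lam : ZMod p))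
    (m : ℕ) (hm : permHom K W w ^ m = 1) : (p - 1) ∣ 3 * m := by
  have hA : ∀ x : ℙ K (Fin 2 → K),
      extG K ((w ^ m : ↥W) : Matrix.GeneralLinearGroup (Fin 2) (ZMod p)) • x = x := by
    intro x
    rw [← permHom_apply, map_pow, hm]
    rfl
  obtain ⟨c, hc⟩ := scalar_of_trivial _ hA
  have h1 := pow_mulVec_eig (w : Matrix.GeneralLinearGroup (Fin 2) (ZMod p)) v _ hwv m
  rw [Subgroup.coe_pow] at hc
  rw [hc, Matrix.smul_mulVec, Matrix.one_mulVec] at h1
  have hcm : c = ((lam⁻¹ : (ZMod p)ˣ) : ZMod p) ^ m := by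
    obtain ⟨t, ht⟩ := Function.ne_iff.mp hv0
    have h3 := congrFun h1 t
    simp only [Pi.smul_apply, smul_eq_mul] at h3
    exact mul_right_cancel₀ ht h3
  have hdet' : (lam : ZMod p) ^ m = c ^ 2 := by
    have h3 : Matrix.det (((w : Matrix.GeneralLinearGroup (Fin 2) (ZMod p)) ^ m :
        Matrix.GeneralLinearGroup (Fin 2) (ZMod p)) : Matrix (Fin 2) (Fin 2) (ZMod p))
        = (lam : ZMod p) ^ m := by
      rw [Units.val_pow_eq_pow_val, Matrix.det_pow, hdet]
    rw [← h3, hc, Matrix.det_smul, Matrix.det_one, Fintype.card_fin, mul_one]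
  have hu : lam ^ (3 * m) = 1 := by
    apply Units.ext
    rw [Units.val_pow_eq_pow_val, Units.val_one]
    have e : ((lam⁻¹ : (ZMod p)ˣ) : ZMod p) * (lam : ZMod p) = 1 := by
      rw [← Units.val_mul, inv_mul_cancel, Units.val_one]
    calc (lam : ZMod p) ^ (3 * m) = (lam : ZMod p) ^ m * ((lam : ZMod p) ^ m) ^ 2 := by ring
      _ = c ^ 2 * ((lam : ZMod p) ^ m) ^ 2 := by rw [hdet']
      _ = ((((lam⁻¹ : (ZMod p)ˣ) : ZMod p) * (lam : ZMod p)) ^ m) ^ 2 := by rw [hcm]; ring
      _ = 1 := by rw [e]; simp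
  rw [← hlam]
  exact orderOf_dvd_of_pow_eq_one hu

theorem core_general (K : Type*) [Field K] [Algebra (ZMod p) K] [IsAlgClosed K]
    (W : Subgroup (Matrix.GeneralLinearGroup (Fin 2) (ZMod p)))
    (hW : ¬ p ∣ Nat.card W) (lam : (ZMod p)ˣ) (hlam : orderOf lam = p - 1)
    {k : ℕ} (v : Fin k → Fin 2 → ZMod p)
    (w : Fin k → Matrix.GeneralLinearGroup (Fin 2) (ZMod p))
    (hv0 : ∀ i, v i ≠ 0) (hv : ∀ i j, i ≠ j → ∀ c : ZMod p, v i ≠ c • v j)
    (hwW : ∀ i, w i ∈ W)
    (hwv : ∀ i, Matrix.mulVec (w i : Matrix (Fin 2) (Fin 2) (ZMod p)) (v i) =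
      ((lam⁻¹ : (ZMod p)ˣ) : ZMod p) • v i)
    (hdet : ∀ i, Matrix.det (w i : Matrix (Fin 2) (Fin 2) (ZMod p)) = (lam : ZMod p)) :
    ((p = 11 ∨ 17 ≤ p) → k ≤ 2) ∧ (p = 13 → k ≤ 12) := by
  classical
  have hcharP : CharP K p := charP_of_injective_algebraMap (algebraMap (ZMod p) K).injective p
  have hfinR : Finite ↥(permHom K W).range :=
    Finite.of_surjective (permHom K W).rangeRestrict (permHom K W).rangeRestrict_surjective
  have hfix : ∀ σ : ↥(permHom K W).range, σ ≠ 1 →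
      (MulAction.fixedBy (ℙ K (Fin 2 → K)) σ).ncard = 2 := by
    rintro ⟨σ, hσ⟩ hne
    obtain ⟨g, rfl⟩ := MonoidHom.mem_range.mp hσ
    have hfb : MulAction.fixedBy (ℙ K (Fin 2 → K)) (⟨permHom K W g, hσ⟩ : ↥(permHom K W).range)
        = MulAction.fixedBy (ℙ K (Fin 2 → K))
          (extG K (g : Matrix.GeneralLinearGroup (Fin 2) (ZMod p))) := by
      ext x
      rfl
    rw [hfb]
    apply Cfsg.Agent.Lib.Helper59.XS.fixed_points_ncard
      (extG K (g : Matrix.GeneralLinearGroup (Fin 2) (ZMod p))) (Nat.card W)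
    · intro h0
      exact hW ((CharP.cast_eq_zero_iff K p _).mp h0)
    · rw [← map_pow, ← Subgroup.coe_pow, pow_card_eq_one', Subgroup.coe_one, map_one]
    · intro c hc
      apply hne
      apply Subtype.ext
      apply Equiv.ext
      intro x
      show permHom K W g x = x
      rw [permHom_apply]
      induction x using Projectivization.ind with
      | h u hu =>
        rw [Projectivization.smul_mk, Projectivization.mk_eq_mk_iff']
        refine ⟨c, ?_⟩
        show c • u = (extG K (g : Matrix.GeneralLinearGroup (Fin 2) (ZMod p)) :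
          Matrix (Fin 2) (Fin 2) K) *ᵥ u
        rw [hc, Matrix.smul_mulVec, Matrix.one_mulVec]
  have hxinj : Function.Injective
      (fun i : Fin k => Projectivization.mk K (extV K (v i)) (extV_ne_zero (hv0 i))) := by
    intro i j hij
    by_contra hne
    have hij' : Projectivization.mk K (extV K (v i)) (extV_ne_zero (hv0 i))
        = Projectivization.mk K (extV K (v j)) (extV_ne_zero (hv0 j)) := hij
    rw [Projectivization.mk_eq_mk_iff'] at hij'
    obtain ⟨a, ha⟩ := hij'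
    obtain ⟨c, hc⟩ := exists_of_smul_extV (hv0 j) ha
    exact hv i j hne c hc
  have hstab : ∀ N : ℕ, (∀ m : ℕ, 0 < m → (p - 1) ∣ 3 * m → N ≤ m) → ∀ i : Fin k,
      N ≤ Nat.card (MulAction.stabilizer ↥(permHom K W).range
        (Projectivization.mk K (extV K (v i)) (extV_ne_zero (hv0 i)))) := by
    intro N hN i
    obtain ⟨σ, hσ⟩ : ∃ σ : ↥(permHom K W).range, (σ : Equiv.Perm (ℙ K (Fin 2 → K)))
        = permHom K W ⟨w i, hwW i⟩ :=
      ⟨⟨permHom K W ⟨w i, hwW i⟩, MonoidHom.mem_range.mpr ⟨_, rfl⟩⟩, rfl⟩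
    have hσmem : σ ∈ MulAction.stabilizer ↥(permHom K W).range
        (Projectivization.mk K (extV K (v i)) (extV_ne_zero (hv0 i))) := by
      rw [MulAction.mem_stabilizer_iff]
      show (σ : Equiv.Perm (ℙ K (Fin 2 → K))) _ = _
      rw [hσ, permHom_apply, Projectivization.smul_mk, Projectivization.mk_eq_mk_iff']
      refine ⟨algebraMap (ZMod p) K ((lam⁻¹ : (ZMod p)ˣ) : ZMod p), ?_⟩
      show _ = extG K (w i) • extV K (v i)
      rw [extG_smul, hwv i]
      funext j
      rw [Pi.smul_apply, extV_apply, extV_apply, Pi.smul_apply, smul_eq_mul, smul_eq_mul, map_mul]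
    have hord : N ≤ orderOf σ := by
      apply hN _ (orderOf_pos σ)
      have hpow : permHom K W ⟨w i, hwW i⟩ ^ orderOf σ = 1 := by
        have h3 := congrArg Subtype.val (pow_orderOf_eq_one σ)
        rw [Subgroup.coe_pow, hσ] at h3
        exact h3
      exact dvd_of_perm_pow W lam hlam (v i) (hv0 i) ⟨w i, hwW i⟩ (hwv i) (hdet i) _ hpow
    calc N ≤ orderOf σ := hord
      _ = orderOf (⟨σ, hσmem⟩ : MulAction.stabilizer ↥(permHom K W).range
            (Projectivization.mk K (extV K (v i)) (extV_ne_zero (hv0 i)))) :=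
          (Subgroup.orderOf_mk σ hσmem).symm
      _ ≤ Nat.card (MulAction.stabilizer ↥(permHom K W).range
            (Projectivization.mk K (extV K (v i)) (extV_ne_zero (hv0 i)))) :=
          Nat.le_of_dvd Nat.card_pos (orderOf_dvd_natCard _)
  have hT := Cfsg.Agent.Lib.Helper59.XS.two_fixed_points hfix
  have hcard : (Finset.univ.image
      (fun i : Fin k => Projectivization.mk K (extV K (v i)) (extV_ne_zero (hv0 i)))).card = k := by
    rw [Finset.card_image_of_injective _ hxinj, Finset.card_univ, Fintype.card_fin]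
  constructor
  · intro hp
    rw [← hcard]
    apply hT.1
    intro y hy
    obtain ⟨i, -, rfl⟩ := Finset.mem_image.mp hy
    apply hstab 6
    intro m hm hdvd
    rcases hp with hp | hp
    · rw [hp] at hdvd
      omega
    · have h3 := Nat.le_of_dvd (by omega) hdvd
      omega
  · intro hp
    rw [← hcard]
    apply hT.2
    intro y hy
    obtain ⟨i, -, rfl⟩ := Finset.mem_image.mp hy
    apply hstab 4
    intro m hm hdvd
    rw [hp] at hdvd
    omega

end

end Cfsg.Agent.Lib.Helper13.XSM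

namespace Cfsg.Agent.Lib.Helper59.XS

/-- Piece M : the matrix core. -/
theorem core_matrix {p : ℕ} [Fact p.Prime]
    (W : Subgroup (Matrix.GeneralLinearGroup (Fin 2) (ZMod p)))
    (hW : ¬ p ∣ Nat.card W) (lam : (ZMod p)ˣ) (hlam : orderOf lam = p - 1)
    {k : ℕ} (v : Fin k → Fin 2 → ZMod p)
    (w : Fin k → Matrix.GeneralLinearGroup (Fin 2) (ZMod p))
    (hv0 : ∀ i, v i ≠ 0) (hv : ∀ i j, i ≠ j → ∀ c : ZMod p, v i ≠ c • v j)
    (hwW : ∀ i, w i ∈ W)
    (hwv : ∀ i, Matrix.mulVec (w i : Matrix (Fin 2) (Fin 2) (ZMod p)) (v i) =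
      ((lam⁻¹ : (ZMod p)ˣ) : ZMod p) • v i)
    (hdet : ∀ i, Matrix.det (w i : Matrix (Fin 2) (Fin 2) (ZMod p)) = (lam : ZMod p)) :
    ((p = 11 ∨ 17 ≤ p) → k ≤ 2) ∧ (p = 13 → k ≤ 12) :=
  Cfsg.Agent.Lib.Helper13.XSM.core_general (AlgebraicClosure (ZMod p)) W hW lam hlam v w hv0 hv
    hwW hwv hdet

end Cfsg.Agent.Lib.Helper59.XS
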